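import Cfsg.Agent.Lib.Helper50.GIAbs
import Cfsg.Agent.Lib.Helper18.AutPSL.FieldAut
import Cfsg.Agent.Lib.Helper18.AutPSL.Main

set_option autoImplicit false

/-!
Graph involutions of `PSL_n(F)`: `gam M = cG M * gr`.
-/

namespace Cfsg.Agent.Lib.Helper50.GI

open Matrix MatrixGroups Cfsg.Agent.Lib.Helper18.AutPSL

section forms

variable {ι : Type} [Fintype ι] [DecidableEq ι] {K : Type*} [Field K]

/-- the bilinear form of a matrix -/
def bf (N : Matrix ι ι K) (u v : ι → K) : K := u ⬝ᵥ (N *ᵥ v)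

/-- the similitudes of the bilinear form of `N` -/
abbrev simB (N : Matrix ι ι K) : Subgroup (GL ι K) := Cfsg.Geo.similarityGroup (bf N)

theorem bf_mulVec (N g : Matrix ι ι K) (u v : ι → K) :
    bf N (g *ᵥ u) (g *ᵥ v) = bf (gᵀ * N * g) u v := by
  unfold bf
  rw [← mulVec_mulVec, ← mulVec_mulVec, dotProduct_mulVec u gᵀ, vecMul_transpose]

theorem bf_single (N : Matrix ι ι K) (i j : ι) : bf N (Pi.single i 1) (Pi.single j 1) = N i j := by
  unfold bf
  rw [mulVec_single_one, _root_.single_one_dotProduct]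
  rfl

theorem bf_ext {N N' : Matrix ι ι K} (h : ∀ u v, bf N u v = bf N' u v) : N = N' := by
  ext i j
  rw [← bf_single N i j, ← bf_single N' i j, h]

theorem bf_smul (a : K) (N : Matrix ι ι K) (u v : ι → K) : bf (a • N) u v = a * bf N u v := by
  unfold bf
  rw [smul_mulVec, dotProduct_smul, smul_eq_mul]

theorem mem_simB_iff (N : Matrix ι ι K) (g : GL ι K) :
    g ∈ simB N ↔ ∃ c : Kˣ, g.1ᵀ * N * g.1 = (c : K) • N := by
  constructor
  · rintro ⟨c, hc⟩
    refine ⟨c, bf_ext fun u v => ?_⟩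
    rw [← bf_mulVec, bf_smul]
    exact hc u v
  · rintro ⟨c, hc⟩
    refine ⟨c, fun u v => ?_⟩
    show bf N (g.1 *ᵥ u) (g.1 *ᵥ v) = _
    rw [bf_mulVec, hc, bf_smul]

end forms

variable {n : ℕ} {F : Type*} [Field F]

/-- inverse transpose on `GL`, as an automorphism -/
def gTE : GL (Fin n) F ≃* GL (Fin n) F where
  toFun := gT
  invFun := gT
  left_inv h := by
    apply Units.ext
    rw [gT_val]
    show ((gT h)⁻¹.1)ᵀ = h.1
    rw [gT_inv_val, transpose_transpose]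
  right_inv h := by
    apply Units.ext
    rw [gT_val]
    show ((gT h)⁻¹.1)ᵀ = h.1
    rw [gT_inv_val, transpose_transpose]
  map_mul' a b := by
    apply Units.ext
    rw [gT_val]
    show ((a * b)⁻¹.1)ᵀ = (gT a).1 * (gT b).1
    rw [gT_val, gT_val, _root_.mul_inv_rev, Units.val_mul, transpose_mul]

theorem gTE_apply (h : GL (Fin n) F) : gTE h = gT h := rfl

/-- the graph automorphism attached to `M` -/
noncomputable def gam (M : GL (Fin n) F) : MulAut (ProjectiveSpecialLinearGroup (Fin n) F) :=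
  cG M * gr

theorem gr_comm (h : GL (Fin n) F) :
    (gr : MulAut (ProjectiveSpecialLinearGroup (Fin n) F)) * cG h = cG (gTE h) * gr :=
  gr_mul_cG h

theorem exists_gam {γ : MulAut (ProjectiveSpecialLinearGroup (Fin n) F)}
    (h : Cfsg.IsGraphAutClassPSL γ) : ∃ M, γ = gam M := by
  obtain ⟨-, δ, γ', hδ, hγ', rfl⟩ := h
  obtain ⟨M, rfl⟩ := eq_cG_of_isInnerDiagonal hδ
  rw [eq_gr_of_isInverseTranspose hγ']
  exact ⟨M, rfl⟩

theorem isGraph_gam (hn : 3 ≤ n) (M : GL (Fin n) F) : Cfsg.IsGraphAutClassPSL (gam M) :=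
  ⟨hn, cG M, gr, isInnerDiagonal_cG M, isInverseTranspose_gr, rfl⟩

theorem cG_eq_iff (hn : 2 ≤ n) (A B : GL (Fin n) F) :
    cG A = cG B ↔ ∃ a : Fˣ, A.1 = (a : F) • B.1 := by
  constructor
  · intro h
    have h1 : cG (A * B⁻¹) = 1 := by rw [map_mul, map_inv, h, mul_inv_cancel]
    obtain ⟨a, ha, e⟩ := exists_sc_of_cG_eq_one hn h1
    refine ⟨Units.mk0 a ha, ?_⟩
    have h2 : A = sc a ha * B := by rw [← e, inv_mul_cancel_right]
    rw [h2, Units.val_mul, sc_val, Units.val_mk0, smul_mul_assoc, Matrix.one_mul]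
  · rintro ⟨a, ha⟩
    have h2 : A = sc (a : F) a.ne_zero * B := by
      apply Units.ext
      rw [Units.val_mul, sc_val, ha, smul_mul_assoc, Matrix.one_mul]
    rw [h2, map_mul, cG_sc, one_mul]

theorem gam_ne_one (hn : 3 ≤ n) (M : GL (Fin n) F) : gam M ≠ 1 := by
  intro h
  apply not_typeA_gr (ι := Fin n) (F := F) (by rw [Fintype.card_fin]; exact hn)
  have e : (gr : MulAut (ProjectiveSpecialLinearGroup (Fin n) F)) = cG M⁻¹ := by
    rw [map_inv]
    exact eq_inv_of_mul_eq_one_right h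
  rw [e]
  exact typeA_cG _

theorem gam_sq (M : GL (Fin n) F) : gam M * gam M = cG (M * gTE M) :=
  sq_eq cG gTE gr gr_comm gr_mul_gr M

theorem gam_sq_eq_one_iff (hn : 3 ≤ n) (M : GL (Fin n) F) :
    gam M * gam M = 1 ↔ ∃ a : Fˣ, M.1 = (a : F) • M.1ᵀ := by
  rw [gam_sq, ← map_one cG, cG_eq_iff (by omega)]
  constructor
  · rintro ⟨a, ha⟩
    refine ⟨a, ?_⟩
    rw [Units.val_mul, gTE_apply, gT_val, Units.val_one] at ha
    have h1 : M.1 * (M⁻¹.1)ᵀ * M.1ᵀ = M.1 := by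
      rw [Matrix.mul_assoc, ← transpose_mul, Units.mul_inv, transpose_one, Matrix.mul_one]
    calc M.1 = M.1 * (M⁻¹.1)ᵀ * M.1ᵀ := h1.symm
      _ = (a : F) • M.1ᵀ := by rw [ha, smul_mul_assoc, Matrix.one_mul]
  · rintro ⟨a, ha⟩
    refine ⟨a, ?_⟩
    rw [Units.val_mul, gTE_apply, gT_val, Units.val_one]
    conv_lhs => rw [ha]
    rw [smul_mul_assoc, ← transpose_mul, Units.inv_mul, transpose_one]

theorem orderOf_gam_iff (hn : 3 ≤ n) (M : GL (Fin n) F) :
    orderOf (gam M) = 2 ↔ (M.1ᵀ = M.1 ∨ M.1ᵀ = -M.1) := by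
  have : Nonempty (Fin n) := ⟨⟨0, by omega⟩⟩
  have hM0 : M.1 ≠ 0 := by
    intro h0
    have h1 : M.1 * M⁻¹.1 = 1 := Units.mul_inv _
    rw [h0, Matrix.zero_mul] at h1
    exact zero_ne_one h1
  have h1 : orderOf (gam M) = 2 ↔ gam M * gam M = 1 := by
    constructor
    · intro h
      have := pow_orderOf_eq_one (gam M)
      rwa [h, sq] at this
    · intro h
      exact orderOf_eq_prime (by rw [sq]; exact h) (gam_ne_one hn M)
  rw [h1, gam_sq_eq_one_iff hn]
  constructor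
  · rintro ⟨a, ha⟩
    have h2 : M.1ᵀ = (a : F) • M.1 := by
      conv_lhs => rw [ha]
      rw [transpose_smul, transpose_transpose]
    have h3 : ((a : F) ^ 2 - 1) • M.1 = 0 := by
      rw [sub_smul, one_smul, sq, mul_smul, ← h2, ← ha, sub_self]
    have h4 : (a : F) ^ 2 - 1 = 0 := (smul_eq_zero.1 h3).resolve_right hM0
    have h5 : ((a : F) - 1) * ((a : F) + 1) = 0 := by linear_combination h4
    rcases mul_eq_zero.1 h5 with h6 | h6
    · left
      rw [h2, sub_eq_zero.1 h6, one_smul]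
    · right
      rw [h2, eq_neg_of_add_eq_zero_left h6, neg_smul, one_smul]
  · rintro (h | h)
    · exact ⟨1, by rw [h, Units.val_one, one_smul]⟩
    · exact ⟨-1, by rw [h, Units.val_neg, Units.val_one, neg_smul, one_smul, neg_neg]⟩

theorem conj_iff (hn : 3 ≤ n) (M M' : GL (Fin n) F) :
    Cfsg.IsConjUnder (Cfsg.inndiagPSL n F) (gam M) (gam M') ↔
      ∃ (h : GL (Fin n) F) (a : Fˣ), M'.1 = (a : F) • (h.1 * M.1 * h.1ᵀ) := by
  rw [inndiag_eq]
  unfold gam
  rw [isConjUnder_iff cG gTE gr gr_comm]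
  constructor
  · rintro ⟨h, e⟩
    obtain ⟨a, ha⟩ := (cG_eq_iff (by omega) _ _).1 e
    exact ⟨h, a, ha⟩
  · rintro ⟨h, a, ha⟩
    exact ⟨h, (cG_eq_iff (by omega) _ _).2 ⟨a, ha⟩⟩

theorem cent_equiv_simB (hn : 3 ≤ n) (M : GL (Fin n) F) :
    Nonempty (↥(Cfsg.inndiagPSL n F ⊓ Subgroup.centralizer {gam M}) ≃*
      Cfsg.projQuot (simB M.1)) := by
  rw [inndiag_eq]
  obtain ⟨e⟩ := cent_equiv (cG : GL (Fin n) F →* _) gr M
  have : ((cG : GL (Fin n) F →* MulAut (ProjectiveSpecialLinearGroup (Fin n) F)).ker.subgroupOf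
      (Sg cG gr M)).Normal := inferInstance
  obtain ⟨e'⟩ := quot_congr (gTE : GL (Fin n) F ≃* _) (simB M.1) (Cfsg.Geo.scalars (Fin n) F)
    (Sg cG gr M) (cG : GL (Fin n) F →* MulAut (ProjectiveSpecialLinearGroup (Fin n) F)).ker (by
      intro k
      rw [mem_Sg_iff cG gTE gr gr_comm, cG_eq_iff (by omega), mem_simB_iff]
      have hval : (gTE k * M * (gTE (gTE k))⁻¹).1 = (k⁻¹.1)ᵀ * M.1 * k⁻¹.1 := by
        rw [Units.val_mul, Units.val_mul, gTE_apply, gTE_apply, gT_val, gT_inv_val, gT_val,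
          transpose_transpose]
      rw [hval]
      constructor
      · rintro ⟨c, hc⟩
        refine ⟨c⁻¹, ?_⟩
        have h1 : (k⁻¹.1)ᵀ * (k.1ᵀ * M.1 * k.1) * k⁻¹.1 = M.1 := by
          calc (k⁻¹.1)ᵀ * (k.1ᵀ * M.1 * k.1) * k⁻¹.1
              = ((k⁻¹.1)ᵀ * k.1ᵀ) * M.1 * (k.1 * k⁻¹.1) := by simp only [Matrix.mul_assoc]
            _ = M.1 := by
              rw [← transpose_mul, Units.mul_inv, transpose_one, Matrix.one_mul, Matrix.mul_one]
        rw [hc, Matrix.mul_smul, smul_mul_assoc] at h1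
        conv_rhs => rw [← h1]
        rw [smul_smul, ← Units.val_mul, inv_mul_cancel, Units.val_one, one_smul]
      · rintro ⟨c, hc⟩
        refine ⟨c⁻¹, ?_⟩
        have h1 : k.1ᵀ * ((k⁻¹.1)ᵀ * M.1 * k⁻¹.1) * k.1 = M.1 := by
          calc k.1ᵀ * ((k⁻¹.1)ᵀ * M.1 * k⁻¹.1) * k.1
              = (k.1ᵀ * (k⁻¹.1)ᵀ) * M.1 * (k⁻¹.1 * k.1) := by simp only [Matrix.mul_assoc]
            _ = M.1 := by
              rw [← transpose_mul, Units.inv_mul, transpose_one, Matrix.one_mul, Matrix.mul_one]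
        rw [hc, Matrix.mul_smul, smul_mul_assoc] at h1
        conv_rhs => rw [← h1]
        rw [smul_smul, ← Units.val_mul, inv_mul_cancel, Units.val_one, one_smul]) (by
      intro k
      rw [MonoidHom.mem_ker, ← map_one cG, cG_eq_iff (by omega), Cfsg.Geo.mem_scalars_iff,
        gTE_apply, gT_val, Units.val_one]
      constructor
      · rintro ⟨c, hc⟩
        refine ⟨c⁻¹, ?_⟩
        have h1 : k.1 * k⁻¹.1 = 1 := Units.mul_inv _
        rw [hc, smul_mul_assoc, Matrix.one_mul] at h1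
        have h2 : k⁻¹.1 = ((c⁻¹ : Fˣ) : F) • (1 : Matrix (Fin n) (Fin n) F) := by
          rw [← h1, smul_smul, ← Units.val_mul, inv_mul_cancel, Units.val_one, one_smul]
        rw [h2, transpose_smul, transpose_one]
      · rintro ⟨c, hc⟩
        refine ⟨c⁻¹, ?_⟩
        have h0 : k⁻¹.1 = (c : F) • (1 : Matrix (Fin n) (Fin n) F) := by
          rw [← transpose_transpose k⁻¹.1, hc, transpose_smul, transpose_one]
        have h1 : k.1 * k⁻¹.1 = 1 := Units.mul_inv _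
        rw [h0, Matrix.mul_smul, Matrix.mul_one] at h1
        rw [← h1, smul_smul, ← Units.val_mul, inv_mul_cancel, Units.val_one, one_smul])
  exact ⟨e.trans e'.symm⟩

end Cfsg.Agent.Lib.Helper50.GI
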