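import Cfsg.Agent.Lib.Helper50.AutPSURigid
import Cfsg.Agent.Lib.Helper50.SUCenter
import Cfsg.Agent.Lib.Helper18.AutPSL.Card
import Cfsg.Prelude.Def_KGroupFacts

set_option autoImplicit false

/-!
The order of `Aut(PSU_n(q))` and the structure of `Out(PSU_n(q))`, from the factorisation
`AutForm n F q` of the automorphisms.
-/

namespace Cfsg.Agent.Lib.Helper50.AutPSUOut

open Matrix MatrixGroups Cfsg.Agent.Lib.Helper17 Cfsg.Agent.Lib.Helper99.AutPSU
open Cfsg.Agent.Lib.Helper50.AutPSUGeom Cfsg.Agent.Lib.Helper50.AutPSURigid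

variable {F : Type*} [Field F] [Fintype F] {q n : ℕ}

local notation "⟪" x ", " y "⟫" => Cfsg.hermForm n F q x y

theorem mem_ker_cG (hF : Fintype.card F = q ^ 2) (hn : 3 ≤ n) (g : ↥(Cfsg.GU n F q)) :
    g ∈ (cG : ↥(Cfsg.GU n F q) →* MulAut (Cfsg.PSU n F q)).ker ↔
      ∃ d : F, (g : GL (Fin n) F).1 = d • (1 : Matrix (Fin n) (Fin n) F) := by
  rw [MonoidHom.mem_ker]
  constructor
  · intro h
    exact (rigid hF hn g 1 (by rw [h, map_one])).2
  · rintro ⟨d, hd⟩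
    ext x
    obtain ⟨x, rfl⟩ := pm_surjective x
    rw [cG_pm, MulAut.one_apply]
    congr 1
    apply conjS_eq_of_mul
    rw [hd]
    simp

theorem card_ker_cG (hF : Fintype.card F = q ^ 2) (hn : 3 ≤ n) :
    Nat.card (cG : ↥(Cfsg.GU n F q) →* MulAut (Cfsg.PSU n F q)).ker = q + 1 := by
  classical
  rw [← Cfsg.Agent.S0754.result hF 1 one_ne_zero (one_pow q)]
  let i₀ : Fin n := ⟨0, by omega⟩
  have hq0 : q ≠ 0 := by have := two_le_of_card_sq hF; omega
  have hentry : ∀ (g : ↥(Cfsg.GU n F q)) (d : F),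
      (g : GL (Fin n) F).1 = d • (1 : Matrix (Fin n) (Fin n) F) → d ^ (q + 1) = 1 := by
    intro g d hd
    have h1 := gu_herm g (Pi.single i₀ 1) (Pi.single i₀ 1)
    rw [hd, smul_mulVec, one_mulVec, hermForm_smul_left, hermForm_smul_right,
      hermForm_single_left, Pi.single_eq_same, one_pow, mul_one, ← pow_succ'] at h1
    exact h1
  have hd00 : ∀ (g : ↥(Cfsg.GU n F q)) (d : F),
      (g : GL (Fin n) F).1 = d • (1 : Matrix (Fin n) (Fin n) F) → (g : GL (Fin n) F).1 i₀ i₀ = d := by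
    intro g d hd
    rw [hd]
    simp
  refine Nat.card_congr (Equiv.ofBijective
    (fun g => ⟨(g.1 : GL (Fin n) F).1 i₀ i₀, ?_⟩) ⟨?_, ?_⟩)
  · obtain ⟨d, hd⟩ := (mem_ker_cG hF hn g.1).1 g.2
    rw [hd00 g.1 d hd]
    exact hentry g.1 d hd
  · intro g g' h
    have h' : (g.1 : GL (Fin n) F).1 i₀ i₀ = (g'.1 : GL (Fin n) F).1 i₀ i₀ := congrArg Subtype.val h
    obtain ⟨d, hd⟩ := (mem_ker_cG hF hn g.1).1 g.2
    obtain ⟨d', hd'⟩ := (mem_ker_cG hF hn g'.1).1 g'.2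
    rw [hd00 g.1 d hd, hd00 g'.1 d' hd'] at h'
    apply Subtype.ext
    apply Subtype.ext
    apply Units.ext
    rw [hd, hd', h']
  · rintro ⟨d, hd⟩
    have hd0 : d ≠ 0 := by
      rintro rfl
      rw [zero_pow (Nat.succ_ne_zero q)] at hd
      exact zero_ne_one hd
    let g : ↥(Cfsg.GU n F q) := ⟨⟨d • 1, d⁻¹ • 1, by simp [smul_smul, hd0], by simp [smul_smul, hd0]⟩, by
      intro u v
      show ⟪(d • (1 : Matrix (Fin n) (Fin n) F)) *ᵥ u, (d • (1 : Matrix (Fin n) (Fin n) F)) *ᵥ v⟫ = _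
      rw [smul_mulVec, smul_mulVec, one_mulVec, one_mulVec, hermForm_smul_left, hermForm_smul_right,
        ← mul_assoc, ← pow_succ', hd, one_mul]⟩
    have hg : (g : GL (Fin n) F).1 = d • (1 : Matrix (Fin n) (Fin n) F) := rfl
    refine ⟨⟨g, (mem_ker_cG hF hn g).2 ⟨d, hg⟩⟩, ?_⟩
    apply Subtype.ext
    exact hd00 g d hg

theorem card_range_cG (hF : Fintype.card F = q ^ 2) (hn : 3 ≤ n) :
    Nat.card (cG : ↥(Cfsg.GU n F q) →* MulAut (Cfsg.PSU n F q)).range =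
      Nat.card ↥(Cfsg.SU n F q) := by
  have h1 := Subgroup.card_mul_index (cG : ↥(Cfsg.GU n F q) →* MulAut (Cfsg.PSU n F q)).ker
  rw [Subgroup.index_ker, card_ker_cG hF hn, ← Cfsg.Agent.Lib.Helper50.Herm.card_SU hF n (by omega)] at h1
  exact Nat.eq_of_mul_eq_mul_left (Nat.succ_pos q) h1

theorem card_SU_eq (hF : Fintype.card F = q ^ 2) (hn : 3 ≤ n) :
    Nat.card ↥(Cfsg.SU n F q) = Nat.gcd n (q + 1) * Nat.card (Cfsg.PSU n F q) := by
  rw [Subgroup.card_eq_card_quotient_mul_card_subgroup (Subgroup.center ↥(Cfsg.SU n F q)),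
    Cfsg.Agent.Lib.Helper50.Herm.card_center_SU hF n (by omega), mul_comm]

theorem conj_injective (hF : Fintype.card F = q ^ 2) (hn : 3 ≤ n) :
    Function.Injective (MulAut.conj : Cfsg.PSU n F q →* MulAut (Cfsg.PSU n F q)) := by
  rw [injective_iff_map_eq_one]
  intro y hy
  obtain ⟨y, rfl⟩ := pm_surjective y
  rw [← cG_toGU] at hy
  obtain ⟨d, hd⟩ := (mem_ker_cG hF hn (toGU y)).1 hy
  rw [toGU_val] at hd
  show pm y = 1
  rw [QuotientGroup.eq_one_iff, Subgroup.mem_center_iff]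
  intro x
  apply mt_injective
  rw [mt_mul, mt_mul, hd]
  simp

theorem inn_le_range : Cfsg.Inn (Cfsg.PSU n F q) ≤
    (cG : ↥(Cfsg.GU n F q) →* MulAut (Cfsg.PSU n F q)).range := by
  rintro _ ⟨x, rfl⟩
  obtain ⟨x, rfl⟩ := pm_surjective x
  exact ⟨toGU x, cG_toGU x⟩

theorem isCyclic_map_range :
    IsCyclic (Subgroup.map (QuotientGroup.mk' (Cfsg.Inn (Cfsg.PSU n F q)))
      (cG : ↥(Cfsg.GU n F q) →* _).range) := by
  rw [MonoidHom.map_range]
  set ψ : ↥(Cfsg.GU n F q) →* MulAut (Cfsg.PSU n F q) ⧸ Cfsg.Inn (Cfsg.PSU n F q) :=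
    (QuotientGroup.mk' _).comp cG with hψ
  let δ : ↥(Cfsg.GU n F q) →* (Cfsg.Agent.Lib.Helper50.Herm.detGU (K := F) (q := q) n).range :=
    (Cfsg.Agent.Lib.Helper50.Herm.detGU (K := F) (q := q) n).rangeRestrict
  have hδ : Function.Surjective δ := MonoidHom.rangeRestrict_surjective _
  have hk : δ.ker ≤ ψ.ker := by
    intro g hg
    rw [MonoidHom.mem_ker] at hg ⊢
    have hdet : (g : GL (Fin n) F).1.det = 1 := by
      have h1 : Cfsg.Agent.Lib.Helper50.Herm.detGU (K := F) (q := q) n g = 1 :=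
        congrArg Subtype.val hg
      exact congrArg Units.val h1
    let x : ↥(Cfsg.SU n F q) := ⟨⟨(g : GL (Fin n) F).1, hdet⟩, fun u v => g.2 u v⟩
    have e : g = toGU x := by
      apply Subtype.ext
      apply Units.ext
      rfl
    show QuotientGroup.mk (cG g) = 1
    rw [QuotientGroup.eq_one_iff, e, cG_toGU]
    exact ⟨_, rfl⟩
  let ψ' := δ.liftOfSurjective hδ ⟨ψ, hk⟩
  have hψ' : ∀ g, ψ' (δ g) = ψ g := fun g =>
    MonoidHom.liftOfRightInverse_comp_apply _ _ _ ⟨ψ, hk⟩ g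
  have hr : ψ.range = ψ'.range := by
    ext x
    constructor
    · rintro ⟨g, rfl⟩
      exact ⟨_, hψ' g⟩
    · rintro ⟨u, rfl⟩
      obtain ⟨g, rfl⟩ := hδ u
      exact ⟨g, (hψ' g).symm⟩
  rw [hr]
  exact isCyclic_of_surjective ψ'.rangeRestrict ψ'.rangeRestrict_surjective

/-- the field automorphisms, parametrised by the Galois group -/
noncomputable def Fld (n q : ℕ) (K : Type*) [CommSemiring K] [Algebra K F] :
    (F ≃ₐ[K] F) →* MulAut (Cfsg.PSU n F q) where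
  toFun σ := fl σ.toRingEquiv
  map_one' := map_one fl
  map_mul' a b := map_mul fl a.toRingEquiv b.toRingEquiv

omit [Fintype F] in
theorem Fld_apply (K : Type*) [CommSemiring K] [Algebra K F] (σ : F ≃ₐ[K] F) :
    Fld n q K σ = fl σ.toRingEquiv := rfl

/-- the projection of `Aut(PSU_n(q))` onto the field automorphisms -/
theorem exists_tau (p : ℕ) [Fact p.Prime] [Algebra (ZMod p) F] (hF : Fintype.card F = q ^ 2)
    (hn : 3 ≤ n) (hA : AutForm n F q) :
    ∃ τ : MulAut (Cfsg.PSU n F q) →* (F ≃ₐ[ZMod p] F),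
      Function.Surjective τ ∧ τ.ker = (cG : ↥(Cfsg.GU n F q) →* _).range := by
  apply Cfsg.Agent.Lib.Helper18.AutPSL2.exists_hom_of_factorisation
    (cG : ↥(Cfsg.GU n F q) →* _) (Fld (F := F) n q (ZMod p))
  · intro α
    obtain ⟨g, σ, h⟩ := hA α
    obtain ⟨σ', rfl⟩ := Cfsg.Agent.Lib.Helper18.AutPSL.exists_algEquiv p σ
    exact ⟨g, σ', h⟩
  · intro σ h
    exact ⟨_, fl_mul_cG σ.toRingEquiv h⟩
  · intro g σ h
    have h1 := (rigid hF hn g σ.toRingEquiv h).1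
    ext t
    exact congrArg (fun s : F ≃+* F => s t) h1

theorem card_aut {p f : ℕ} [Fact p.Prime] (hq : q = p ^ f) (hF : Fintype.card F = q ^ 2)
    (hn : 3 ≤ n) (hA : AutForm n F q) :
    Nat.card (MulAut (Cfsg.PSU n F q)) = Nat.gcd n (q + 1) * (2 * f) * Nat.card (Cfsg.PSU n F q) := by
  have hF' : Fintype.card F = p ^ (2 * f) := by rw [hF, hq, ← pow_mul, mul_comm]
  have hchar : CharP F p := charP_of_card_eq_prime_pow hF'
  let _ : Algebra (ZMod p) F := ZMod.algebra F p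
  obtain ⟨τ, hτs, hτk⟩ := exists_tau (F := F) p hF hn hA
  rw [Cfsg.Agent.Lib.Helper18.AutPSL.card_eq_of_surjective τ hτs, hτk, card_range_cG hF hn,
    card_SU_eq hF hn, Cfsg.Agent.Lib.Helper18.AutPSL.card_gal hF']
  ring

theorem out_psu {p f : ℕ} [Fact p.Prime] (hf : 1 ≤ f) (hq : q = p ^ f)
    (hF : Fintype.card F = q ^ 2) (hn : 3 ≤ n) (hA : AutForm n F q) :
    ∃ φ : Cfsg.Out (Cfsg.PSU n F q) →* Multiplicative (ZMod (2 * f)),
      Function.Surjective φ ∧ IsCyclic φ.ker ∧ Nat.card φ.ker = Nat.gcd n (q + 1) := by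
  have hF' : Fintype.card F = p ^ (2 * f) := by rw [hF, hq, ← pow_mul, mul_comm]
  have hchar : CharP F p := charP_of_card_eq_prime_pow hF'
  let _ : Algebra (ZMod p) F := ZMod.algebra F p
  have hfin : Finite (MulAut (Cfsg.PSU n F q)) :=
    Finite.of_injective (fun α => (α : Cfsg.PSU n F q → Cfsg.PSU n F q)) DFunLike.coe_injective
  obtain ⟨τ, hτs, hτk⟩ := exists_tau (F := F) p hF hn hA
  have hΓ := Cfsg.Agent.Lib.Helper18.AutPSL.card_gal hF'
  have : NeZero (2 * f) := ⟨by omega⟩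
  have hZ : Nat.card (Multiplicative (ZMod (2 * f))) = 2 * f := by
    rw [Nat.card_eq_fintype_card, Fintype.card_multiplicative, ZMod.card]
  have e : (F ≃ₐ[ZMod p] F) ≃* Multiplicative (ZMod (2 * f)) :=
    mulEquivOfCyclicCardEq (by rw [hΓ, hZ])
  apply Cfsg.Agent.Lib.Helper18.AutPSL.exists_out_hom' e (Cfsg.Inn (Cfsg.PSU n F q)) τ hτs
    (by rw [hτk]; exact inn_le_range)
  · rw [hτk, card_range_cG hF hn, card_SU_eq hF hn]
    congr 1
    exact Nat.card_congr (MonoidHom.ofInjective (conj_injective hF hn)).toEquiv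
  · rw [hτk]
    exact isCyclic_map_range

omit [Fintype F] in
/-- the factorisation statement in the form of the Prelude predicates gives `AutForm` -/
theorem autForm_of_factor
    (h : ∀ β : MulAut (Cfsg.PSU n F q), ∃ (δ φ : MulAut (Cfsg.PSU n F q)) (σ : F ≃+* F),
      Cfsg.IsInnerDiagonalAutPSU δ ∧ Cfsg.IsFieldAutPSUOf σ φ ∧ β = δ * φ) : AutForm n F q := by
  intro β
  obtain ⟨δ, φ, σ, hδ, hφ, rfl⟩ := h β
  obtain ⟨g, rfl⟩ := (isInnerDiagonal_iff δ).1 hδ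
  rw [(isFieldAut_iff σ φ).1 hφ]
  exact ⟨g, σ, rfl⟩

end Cfsg.Agent.Lib.Helper50.AutPSUOut
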