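import Cfsg.Agent.Lib.Helper50.AutPSUGeom

set_option autoImplicit false

/-!
Rung C of the ladder for `Aut(PSU_n(q))`: `Q a` contains every normal `p`-subgroup of `P a`.
-/

namespace Cfsg.Agent.Lib.Helper50.AutPSUC

open Matrix Cfsg.Agent.Lib.Helper17 Cfsg.Agent.Lib.Helper99.AutPSU
open Cfsg.Agent.Lib.Helper50.AutPSUGeom

variable {F : Type*} [Field F] [Fintype F] {q n p : ℕ}

local notation "⟪" x ", " y "⟫" => Cfsg.hermForm n F q x y

omit [Fintype F] in
theorem pow_mulVec_of_eigen {r : ↥(Cfsg.SU n F q)} {a : Fin n → F} {c : F}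
    (h : mt r *ᵥ a = c • a) (m : ℕ) : mt (r ^ m) *ᵥ a = c ^ m • a := by
  induction m with
  | zero => simp [mt_one]
  | succ m ih => rw [pow_succ, mt_mul_mulVec, h, mulVec_smul, ih, smul_smul, pow_succ, mul_comm]

/-- a `p`-element of `P a` fixes `a` -/
theorem fix_of_pElement [Fact p.Prime] [CharP F p] {a : Fin n → F} (ha : a ≠ 0)
    {r : ↥(Cfsg.SU n F q)} (hr : r ∈ P q a) {k : ℕ} (hk : r ^ (p ^ k) = 1) : mt r *ᵥ a = a := by
  obtain ⟨c, hc⟩ := hr
  have h1 := pow_mulVec_of_eigen hc (p ^ k)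
  rw [hk, mt_one, one_mulVec] at h1
  have h2 : ((c : F) ^ (p ^ k) - 1) • a = 0 := by rw [sub_smul, ← h1, one_smul, sub_self]
  have h3 : (c : F) ^ (p ^ k) - 1 = 0 := (smul_eq_zero.1 h2).resolve_right ha
  have h4 : ((c : F) - 1) ^ (p ^ k) = 0 := by rw [sub_pow_char_pow, one_pow, h3]
  have h5 : (c : F) = 1 := sub_eq_zero.1 (pow_eq_zero_iff (pow_ne_zero _ (Fact.out : p.Prime).ne_zero) |>.1 h4)
  rw [hc, h5, one_smul]

theorem linearIndependent_frame {a b u : Fin n → F} (ha0 : ⟪a, a⟫ = 0) (hb0 : ⟪b, b⟫ = 0)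
    (hab : ⟪a, b⟫ = 1) (hba : ⟪b, a⟫ = 1) (hua : ⟪u, a⟫ = 0) (hub : ⟪u, b⟫ = 0) (hu : u ≠ 0) :
    LinearIndependent F ![a, b, u] := by
  rw [Fintype.linearIndependent_iff]
  intro c hc
  simp only [Fin.sum_univ_three, Matrix.cons_val_zero, Matrix.cons_val_one, Matrix.cons_val] at hc
  have h0 : c 0 = 0 := by
    have := congrArg (fun x => ⟪x, b⟫) hc
    simpa only [hermForm_add_left, hermForm_smul_left, hab, hb0, hub, hermForm_zero_left, mul_one,
      mul_zero, add_zero] using this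
  have h1 : c 1 = 0 := by
    have := congrArg (fun x => ⟪x, a⟫) hc
    simpa only [hermForm_add_left, hermForm_smul_left, hba, ha0, hua, hermForm_zero_left, mul_one,
      mul_zero, add_zero, zero_add] using this
  have h2 : c 2 = 0 := by
    rw [h0, h1, zero_smul, zero_smul, zero_add, zero_add] at hc
    exact (smul_eq_zero.1 hc).resolve_right hu
  intro i
  fin_cases i
  · exact h0
  · exact h1
  · exact h2

/-- the Levi factor of `P a` is transitive on the vectors of given norm of `⟨a, b⟩^⊥` -/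
theorem levi_trans (hF : Fintype.card F = q ^ 2) {a b u w : Fin n → F} (ha0 : ⟪a, a⟫ = 0)
    (hb0 : ⟪b, b⟫ = 0) (hab : ⟪a, b⟫ = 1) (hba : ⟪b, a⟫ = 1) (hua : ⟪u, a⟫ = 0) (hub : ⟪u, b⟫ = 0)
    (hwa : ⟪w, a⟫ = 0) (hwb : ⟪w, b⟫ = 0) (hu : u ≠ 0) (hw : w ≠ 0) (huw : ⟪w, w⟫ = ⟪u, u⟫) :
    ∃ g : ↥(Cfsg.SU n F q), g ∈ P q a ∧ mt g *ᵥ u = w := by
  have hq1 : 1 ≤ q := by have := two_le_of_card_sq hF; omega
  have hau := hermForm_eq_zero_comm hF hua
  have hbu := hermForm_eq_zero_comm hF hub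
  have haw := hermForm_eq_zero_comm hF hwa
  have hbw := hermForm_eq_zero_comm hF hwb
  obtain ⟨A, hA⟩ := gu_witt_frame hF n ![a, b, u] ![a, b, w]
    (linearIndependent_frame ha0 hb0 hab hba hua hub hu)
    (linearIndependent_frame ha0 hb0 hab hba hwa hwb hw) (by
      intro i j
      fin_cases i <;> fin_cases j <;>
        simp [hua, hub, hwa, hwb, hau, hbu, haw, hbw, huw])
  have hAa := hA 0
  have hAu := hA 2
  simp only [Matrix.cons_val_zero, Matrix.cons_val] at hAa hAu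
  have hδ := GU_det_pow hF A.2
  set δ := ((A : Matrix.GeneralLinearGroup (Fin n) F) : Matrix (Fin n) (Fin n) F).det with hδdef
  have hδ0 : δ ≠ 0 := by
    intro h0
    rw [h0, zero_pow (by omega)] at hδ
    exact zero_ne_one hδ
  obtain ⟨ν, hν⟩ := exists_pow_sub_one_eq hF (Units.mk0 δ⁻¹ (inv_ne_zero hδ0)) (by
    apply Units.ext
    simp [hδ])
  have hν' : (ν : F) ^ (q - 1) = δ⁻¹ := by
    have := congrArg Units.val hν
    simpa using this
  refine ⟨⟨⟨hypDilMat q a b ν * ((A : Matrix.GeneralLinearGroup (Fin n) F) : Matrix (Fin n) (Fin n) F),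
    ?_⟩, ?_⟩, ⟨ν ^ q, ?_⟩, ?_⟩
  · rw [Matrix.det_mul, hypDilMat_det a b ν ν.ne_zero hab hba hq1, hν', ← hδdef, inv_mul_cancel₀ hδ0]
  · intro x y
    change ⟪(hypDilMat q a b ν *
      ((A : Matrix.GeneralLinearGroup (Fin n) F) : Matrix (Fin n) (Fin n) F)) *ᵥ x, (hypDilMat q a b ν *
      ((A : Matrix.GeneralLinearGroup (Fin n) F) : Matrix (Fin n) (Fin n) F)) *ᵥ y⟫ = _
    rw [← Matrix.mulVec_mulVec, ← Matrix.mulVec_mulVec,
      hypDilMat_isom hF a b ν ν.ne_zero ha0 hb0 hab hba, gu_hermForm]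
  · change (hypDilMat q a b ν *
      ((A : Matrix.GeneralLinearGroup (Fin n) F) : Matrix (Fin n) (Fin n) F)) *ᵥ a = _
    rw [← Matrix.mulVec_mulVec, hAa, hypDilMat_mulVec a b ν ha0, hab, ha0, Units.val_pow_eq_pow_val]
    module
  · change (hypDilMat q a b ν *
      ((A : Matrix.GeneralLinearGroup (Fin n) F) : Matrix (Fin n) (Fin n) F)) *ᵥ u = _
    rw [← Matrix.mulVec_mulVec, hAu, hypDilMat_mulVec a b ν ha0, hwa, hwb]
    module


/-- a `p`-group fixing `a` fixes a non-zero vector of `a^⊥ / a`, represented in `⟨a, b⟩^⊥` -/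
theorem exists_quasi_fixed [Fact p.Prime] [CharP F p] (hF : Fintype.card F = q ^ 2) (hn : 3 ≤ n)
    {a b : Fin n → F} (ha : Iso q a) (hab : ⟪a, b⟫ = 1)
    (R : Subgroup ↥(Cfsg.SU n F q)) (hR : IsPGroup p R) (hfix : ∀ r ∈ R, mt r *ᵥ a = a) :
    ∃ u : Fin n → F, u ≠ 0 ∧ ⟪u, a⟫ = 0 ∧ ⟪u, b⟫ = 0 ∧
      ∀ r ∈ R, ∃ c : F, mt r *ᵥ u = u + c • a := by
  classical
  let W : Submodule F (Fin n → F) := LinearMap.ker (hermB hF n a) ⊓ LinearMap.ker (hermB hF n b)
  have memW : ∀ w, w ∈ W ↔ ⟪w, a⟫ = 0 ∧ ⟪w, b⟫ = 0 := by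
    intro w
    simp only [W, Submodule.mem_inf, LinearMap.mem_ker, hermB_apply]
  have pr_mem : ∀ x, ⟪x, a⟫ = 0 → x - ⟪x, b⟫ • a ∈ W := by
    intro x hx
    rw [memW]
    constructor
    · rw [hermForm_sub_left, hermForm_smul_left, hx, ha.2]; ring
    · rw [hermForm_sub_left, hermForm_smul_left, hab]; ring
  have hperp : ∀ (r : R) (w : W), ⟪mt r.1 *ᵥ w.1, a⟫ = 0 := by
    intro r w
    have := mt_herm r.1 w.1 a
    rw [hfix r.1 r.2] at this
    rw [this]
    exact ((memW _).1 w.2).1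
  have hW : W ≠ ⊥ := by
    obtain ⟨z, hzz, hza⟩ := exists_unit_perp hF n hn a ha.1 ha.2
    intro hbot
    have h1 := pr_mem z hza
    rw [hbot, Submodule.mem_bot] at h1
    have h2 : ⟪z - ⟪z, b⟫ • a, z⟫ = 1 := by
      rw [hermForm_sub_left, hermForm_smul_left, hzz, hermForm_eq_zero_comm hF hza]; ring
    rw [h1, hermForm_zero_left] at h2
    exact zero_ne_one h2
  letI : MulAction R W :=
    { smul := fun r w => ⟨mt r.1 *ᵥ w.1 - ⟪mt r.1 *ᵥ w.1, b⟫ • a, pr_mem _ (hperp r w)⟩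
      one_smul := fun w => Subtype.ext (by
        show mt (1 : ↥(Cfsg.SU n F q)) *ᵥ w.1 - ⟪mt (1 : ↥(Cfsg.SU n F q)) *ᵥ w.1, b⟫ • a = w.1
        rw [mt_one, one_mulVec, ((memW _).1 w.2).2, zero_smul, sub_zero])
      mul_smul := fun r r' w => Subtype.ext (by
        show mt (r.1 * r'.1) *ᵥ w.1 - ⟪mt (r.1 * r'.1) *ᵥ w.1, b⟫ • a =
          mt r.1 *ᵥ (mt r'.1 *ᵥ w.1 - ⟪mt r'.1 *ᵥ w.1, b⟫ • a) -
            ⟪mt r.1 *ᵥ (mt r'.1 *ᵥ w.1 - ⟪mt r'.1 *ᵥ w.1, b⟫ • a), b⟫ • a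
        rw [mt_mul_mulVec, mulVec_sub, mulVec_smul, hfix r.1 r.2, hermForm_sub_left,
          hermForm_smul_left, hab]
        module) }
  have hp : p ∣ Nat.card W := by
    have h1 : Nat.card W = Nat.card F ^ Module.finrank F W :=
      Module.natCard_eq_pow_finrank (K := F) (V := W)
    have h2 : 0 < Module.finrank F W := by
      haveI : Nontrivial W := Submodule.nontrivial_iff_ne_bot.2 hW
      exact Module.finrank_pos
    have h3 : p ∣ Nat.card F := by
      rw [Nat.card_eq_fintype_card]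
      exact (CharP.cast_eq_zero_iff F p _).1 (FiniteField.cast_card_eq_zero F)
    rw [h1]
    exact dvd_pow h3 h2.ne'
  have h0 : (0 : W) ∈ MulAction.fixedPoints R W := by
    intro r
    apply Subtype.ext
    show mt r.1 *ᵥ (0 : Fin n → F) - ⟪mt r.1 *ᵥ (0 : Fin n → F), b⟫ • a = 0
    rw [mulVec_zero, hermForm_zero_left, zero_smul, sub_zero]
  obtain ⟨u, hu, hne⟩ := hR.exists_fixed_point_of_prime_dvd_card_of_fixed_point W hp h0
  refine ⟨u.1, fun h => hne (Subtype.ext h.symm), ((memW _).1 u.2).1, ((memW _).1 u.2).2, ?_⟩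
  intro r hr
  have h1 : mt r *ᵥ u.1 - ⟪mt r *ᵥ u.1, b⟫ • a = u.1 := congrArg Subtype.val (hu ⟨r, hr⟩)
  refine ⟨⟪mt r *ᵥ u.1, b⟫, ?_⟩
  have h2 : mt r *ᵥ u.1 = (mt r *ᵥ u.1 - ⟪mt r *ᵥ u.1, b⟫ • a) + ⟪mt r *ᵥ u.1, b⟫ • a := by abel
  rw [h1] at h2
  exact h2

/-- `P a` is irreducible on `a^⊥ / a` -/
theorem levi_irred (hF : Fintype.card F = q ^ 2) {a b : Fin n → F} (ha0 : ⟪a, a⟫ = 0)
    (hb0 : ⟪b, b⟫ = 0) (hab : ⟪a, b⟫ = 1) (hba : ⟪b, a⟫ = 1) (U : Submodule F (Fin n → F))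
    (hU : ∀ g ∈ P q a, ∀ v ∈ U, mt g *ᵥ v ∈ U) {u : Fin n → F} (hu : u ≠ 0) (huU : u ∈ U)
    (hua : ⟪u, a⟫ = 0) (hub : ⟪u, b⟫ = 0) {w : Fin n → F} (hwa : ⟪w, a⟫ = 0) (hwb : ⟪w, b⟫ = 0) :
    w ∈ U := by
  have hq0 : q ≠ 0 := by have := two_le_of_card_sq hF; omega
  -- the anisotropic case
  have main : ∀ u : Fin n → F, u ∈ U → ⟪u, a⟫ = 0 → ⟪u, b⟫ = 0 → ⟪u, u⟫ ≠ 0 → w ∈ U := by
    intro u huU hua hub huu
    have hu : u ≠ 0 := by
      rintro rfl
      exact huu (hermForm_zero_left n _)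
    have aniso : ∀ w : Fin n → F, ⟪w, a⟫ = 0 → ⟪w, b⟫ = 0 → ⟪w, w⟫ ≠ 0 → w ∈ U := by
      intro w hwa hwb hww
      have hw : w ≠ 0 := by
        rintro rfl
        exact hww (hermForm_zero_left n _)
      obtain ⟨lam, hlam⟩ := exists_norm_eq hF (⟪u, u⟫ / ⟪w, w⟫) (div_ne_zero huu hww) (by
        rw [div_pow, hermForm_conj hF, hermForm_conj hF])
      have hlam0 : lam ≠ 0 := by
        rintro rfl
        rw [zero_pow (by omega)] at hlam
        exact div_ne_zero huu hww hlam.symm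
      obtain ⟨g, hg, hgu⟩ := levi_trans hF ha0 hb0 hab hba hua hub
        (w := lam • w) (by rw [hermForm_smul_left, hwa, mul_zero])
        (by rw [hermForm_smul_left, hwb, mul_zero]) hu (smul_ne_zero hlam0 hw) (by
          rw [hermForm_smul_left, hermForm_smul_right, ← mul_assoc, ← pow_succ', hlam,
            div_mul_cancel₀ _ hww])
      have h1 := hU g hg u huU
      rw [hgu] at h1
      have h2 := U.smul_mem lam⁻¹ h1
      rwa [smul_smul, inv_mul_cancel₀ hlam0, one_smul] at h2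
    by_cases hww : ⟪w, w⟫ = 0
    · obtain ⟨t, ht0, ht⟩ : ∃ t : F, t ≠ 0 ∧ t * ⟪u, w⟫ + (t * ⟪u, w⟫) ^ q = 0 := by
        by_cases hβ : ⟪u, w⟫ = 0
        · exact ⟨1, one_ne_zero, by rw [hβ, mul_zero, zero_pow hq0, add_zero]⟩
        · obtain ⟨κ, hκ, hκq⟩ := exists_trace_zero hF
          exact ⟨κ / ⟪u, w⟫, div_ne_zero hκ hβ, by rw [div_mul_cancel₀ _ hβ, hκq]; ring⟩
      have h1 : w - t • u ∈ U := by
        apply aniso
        · rw [hermForm_sub_left, hermForm_smul_left, hwa, hua]; ring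
        · rw [hermForm_sub_left, hermForm_smul_left, hwb, hub]; ring
        · rw [hermForm_sub_left, hermForm_sub_right hF, hermForm_sub_right hF, hermForm_smul_left,
            hermForm_smul_left, hermForm_smul_right, hermForm_smul_right, hww]
          have h2 : t ^ q * ⟪w, u⟫ = (t * ⟪u, w⟫) ^ q := by rw [mul_pow, hermForm_conj hF]
          rw [h2]
          have h3 : 0 - (t * ⟪u, w⟫) ^ q - (t * ⟪u, w⟫ - t * (t ^ q * ⟪u, u⟫)) =
              t * (t ^ q * ⟪u, u⟫) := by linear_combination -ht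
          rw [h3]
          exact mul_ne_zero ht0 (mul_ne_zero (pow_ne_zero _ ht0) huu)
      have h2 := U.add_mem h1 (U.smul_mem t huU)
      rwa [sub_add_cancel] at h2
    · exact aniso w hwa hwb hww
  by_cases huu : ⟪u, u⟫ = 0
  · -- produce an anisotropic vector
    obtain ⟨y₀, h1, h1', -⟩ := exists_hyp_partner hF n u hu huu
    have hau := hermForm_eq_zero_comm hF hua
    have hbu := hermForm_eq_zero_comm hF hub
    set y := y₀ - ⟪y₀, b⟫ • a - ⟪y₀, a⟫ • b with hy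
    have hya : ⟪y, a⟫ = 0 := by
      rw [hy, hermForm_sub_left, hermForm_sub_left, hermForm_smul_left, hermForm_smul_left, ha0, hba]
      ring
    have hyb : ⟪y, b⟫ = 0 := by
      rw [hy, hermForm_sub_left, hermForm_sub_left, hermForm_smul_left, hermForm_smul_left, hb0, hab]
      ring
    have hyu : ⟪y, u⟫ = 1 := by
      rw [hy, hermForm_sub_left, hermForm_sub_left, hermForm_smul_left, hermForm_smul_left, hau, hbu,
        h1']
      ring
    have huy : ⟪u, y⟫ = 1 := hermForm_eq_one_comm hF hyu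
    obtain ⟨t, ht⟩ := exists_trace_eq hF (-⟪y, y⟫) (by rw [neg_pow_q hF, hermForm_conj hF])
    set y' := y + t • u with hy'
    have hya' : ⟪y', a⟫ = 0 := by
      rw [hy', hermForm_add_left, hermForm_smul_left, hya, hua]; ring
    have hyb' : ⟪y', b⟫ = 0 := by
      rw [hy', hermForm_add_left, hermForm_smul_left, hyb, hub]; ring
    have hyu' : ⟪y', u⟫ = 1 := by
      rw [hy', hermForm_add_left, hermForm_smul_left, hyu, huu]; ring
    have huy' : ⟪u, y'⟫ = 1 := hermForm_eq_one_comm hF hyu'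
    have hyy' : ⟪y', y'⟫ = 0 := by
      rw [hy', hermForm_add_left, hermForm_add_right hF, hermForm_add_right hF, hermForm_smul_left,
        hermForm_smul_left, hermForm_smul_right, hermForm_smul_right, huu, hyu, huy]
      linear_combination ht
    have hy0 : y' ≠ 0 := by
      intro h
      rw [h, hermForm_zero_left] at hyu'
      exact zero_ne_one hyu'
    obtain ⟨g, hg, hgu⟩ := levi_trans hF ha0 hb0 hab hba hua hub hya' hyb' hu hy0 (by rw [hyy', huu])
    have hyU : y' ∈ U := by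
      have := hU g hg u huU
      rwa [hgu] at this
    obtain ⟨e, he⟩ := exists_trace_ne_zero hF
    apply main (u + e • y') (U.add_mem huU (U.smul_mem e hyU))
    · rw [hermForm_add_left, hermForm_smul_left, hua, hya']; ring
    · rw [hermForm_add_left, hermForm_smul_left, hub, hyb']; ring
    · rw [hermForm_add_left, hermForm_add_right hF, hermForm_add_right hF, hermForm_smul_left,
        hermForm_smul_left, hermForm_smul_right, hermForm_smul_right, huu, hyy', hyu', huy']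
      intro h
      apply he
      linear_combination h
  · exact main u huU hua hub huu

/-- RUNG C -/
theorem opStmt [Fact p.Prime] [CharP F p] (hF : Fintype.card F = q ^ 2) (hn : 3 ≤ n) :
    OpStmt p n F q := by
  intro a ha R hR hRP hnorm
  obtain ⟨b, hab, hba, hbb⟩ := exists_hyp_partner hF n a ha.1 ha.2
  have hfix : ∀ r ∈ R, mt r *ᵥ a = a := by
    intro r hr
    obtain ⟨k, hk⟩ := hR ⟨r, hr⟩
    exact fix_of_pElement (p := p) ha.1 (hRP hr) (k := k) (by simpa using congrArg Subtype.val hk)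
  obtain ⟨u, hu, hua, hub, hur⟩ := exists_quasi_fixed hF hn ha hab R hR hfix
  let U : Submodule F (Fin n → F) :=
    { carrier := {v | ⟪v, a⟫ = 0 ∧ ∀ r ∈ R, ∃ c : F, mt r *ᵥ v = v + c • a}
      add_mem' := by
        rintro v v' ⟨hv, hvr⟩ ⟨hv', hvr'⟩
        refine ⟨by rw [hermForm_add_left, hv, hv', add_zero], fun r hr => ?_⟩
        obtain ⟨c, hc⟩ := hvr r hr
        obtain ⟨c', hc'⟩ := hvr' r hr
        exact ⟨c + c', by rw [mulVec_add, hc, hc']; module⟩
      zero_mem' := ⟨hermForm_zero_left n _, fun r _ => ⟨0, by rw [mulVec_zero, zero_smul, add_zero]⟩⟩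
      smul_mem' := by
        rintro t v ⟨hv, hvr⟩
        refine ⟨by rw [hermForm_smul_left, hv, mul_zero], fun r hr => ?_⟩
        obtain ⟨c, hc⟩ := hvr r hr
        exact ⟨t * c, by rw [mulVec_smul, hc]; module⟩ }
  have hUinv : ∀ g ∈ P q a, ∀ v ∈ U, mt g *ᵥ v ∈ U := by
    rintro g hg v ⟨hv, hvr⟩
    obtain ⟨γ, hγ⟩ := hg
    constructor
    · have h1 := mt_herm g v a
      rw [hγ, hermForm_smul_right, hv] at h1
      exact (mul_eq_zero.1 h1).resolve_left (pow_ne_zero _ γ.ne_zero)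
    · intro r hr
      have h1 := hnorm g⁻¹ (inv_mem ⟨γ, hγ⟩) r hr
      rw [inv_inv] at h1
      obtain ⟨c, hc⟩ := hvr _ h1
      refine ⟨c * γ, ?_⟩
      have h2 : mt g *ᵥ (mt (g⁻¹ * r * g) *ᵥ v) = mt r *ᵥ (mt g *ᵥ v) := by
        rw [← mt_mul_mulVec, ← mt_mul_mulVec]
        congr 2
        group
      rw [← h2, hc, mulVec_add, mulVec_smul, hγ, smul_smul]
  intro r hr
  refine ⟨hfix r hr, fun v hv => ?_⟩
  have h1 : v - ⟪v, b⟫ • a ∈ U := by
    apply levi_irred hF ha.2 hbb hab hba U hUinv hu ⟨hua, hur⟩ hua hub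
    · rw [hermForm_sub_left, hermForm_smul_left, hv, ha.2]; ring
    · rw [hermForm_sub_left, hermForm_smul_left, hab]; ring
  obtain ⟨c, hc⟩ := h1.2 r hr
  rw [mulVec_sub, mulVec_smul, hfix r hr] at hc
  refine ⟨c, ?_⟩
  have h2 : mt r *ᵥ v = (mt r *ᵥ v - ⟪v, b⟫ • a) + ⟪v, b⟫ • a := by abel
  rw [h2, hc]
  abel

end Cfsg.Agent.Lib.Helper50.AutPSUC
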