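import Cfsg.Agent.Lib.Helper99.AutPSU.Geom
import Cfsg.Agent.Lib.Helper50.AutPSUGeom

set_option autoImplicit false

/-!
Rigidity: an element of `GU` inducing a field automorphism on `PSU` is scalar, and the field
automorphism is trivial.
-/

namespace Cfsg.Agent.Lib.Helper50.AutPSURigid

open Matrix MatrixGroups Cfsg.Agent.Lib.Helper17 Cfsg.Agent.Lib.Helper99.AutPSU
open Cfsg.Agent.Lib.Helper50.AutPSUGeom

variable {F : Type*} [Field F] [Fintype F] {q n : ℕ}

local notation "⟪" x ", " y "⟫" => Cfsg.hermForm n F q x y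

theorem exists_third (hn : 3 ≤ n) (j k : Fin n) : ∃ i, i ≠ j ∧ i ≠ k := by
  classical
  by_contra h
  push Not at h
  have h1 : (Finset.univ : Finset (Fin n)) ⊆ {j, k} := by
    intro i _
    by_cases hij : i = j
    · simp [hij]
    · simp [h i hij]
  have h2 := Finset.card_le_card h1
  rw [Finset.card_univ, Fintype.card_fin] at h2
  have h3 := Finset.card_le_two (a := j) (b := k)
  omega

/-- norm surjectivity including zero -/
theorem exists_norm_eq' (hF : Fintype.card F = q ^ 2) (a : F) (haq : a ^ q = a) :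
    ∃ lam : F, lam ^ (q + 1) = a := by
  by_cases ha : a = 0
  · exact ⟨0, by rw [ha, zero_pow (Nat.succ_ne_zero q)]⟩
  · exact Cfsg.Agent.Lib.Helper17.exists_norm_eq hF a ha haq

theorem rigid_key (M : Matrix (Fin n) (Fin n) F) (σ : F ≃+* F)
    (h : ∀ u, Iso q u → ∃ c : F, M *ᵥ u = c • (fun i => σ (u i)))
    {i j k : Fin n} (hij : i ≠ j) (hik : i ≠ k) (hjk : j ≠ k) (α β : F)
    (hαβ : 1 + α ^ (q + 1) + β ^ (q + 1) = 0) :
    ∃ c : F, M i i + α * M i j + β * M i k = c ∧ M j i + α * M j j + β * M j k = c * σ α ∧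
      M k i + α * M k j + β * M k k = c * σ β := by
  classical
  set u : Fin n → F := Pi.single i 1 + α • Pi.single j 1 + β • Pi.single k 1 with hu
  have hui : u i = 1 := by
    simp [hu, Pi.single_eq_of_ne hij, Pi.single_eq_of_ne hik]
  have huj : u j = α := by
    simp [hu, Pi.single_eq_of_ne hij.symm, Pi.single_eq_of_ne hjk]
  have huk : u k = β := by
    simp [hu, Pi.single_eq_of_ne hik.symm, Pi.single_eq_of_ne hjk.symm]
  have hiso : Iso q u := by
    constructor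
    · intro h0
      rw [h0] at hui
      exact zero_ne_one hui
    · have hgen : ∀ w : Fin n → F, ⟪u, w⟫ = w i ^ q + α * w j ^ q + β * w k ^ q := by
        intro w
        rw [hu, hermForm_add_left, hermForm_add_left, hermForm_smul_left, hermForm_smul_left,
          hermForm_single_left, hermForm_single_left, hermForm_single_left]
      rw [hgen, hui, huj, huk, one_pow, ← pow_succ', ← pow_succ', hαβ]
  obtain ⟨c, hc⟩ := h u hiso
  have hM : ∀ l, (M *ᵥ u) l = M l i + α * M l j + β * M l k := by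
    intro l
    rw [hu, mulVec_add, mulVec_add, mulVec_smul, mulVec_smul, mulVec_single_one, mulVec_single_one,
      mulVec_single_one]
    simp [Matrix.col_apply]
  refine ⟨c, ?_, ?_, ?_⟩
  · rw [← hM, hc, Pi.smul_apply, hui, map_one, smul_eq_mul, mul_one]
  · rw [← hM, hc, Pi.smul_apply, huj, smul_eq_mul]
  · rw [← hM, hc, Pi.smul_apply, huk, smul_eq_mul]

/-- a matrix mapping every isotropic vector `u` into the line of `σ u` is scalar, and `σ = 1` -/
theorem rigid_matrix (hF : Fintype.card F = q ^ 2) (hn : 3 ≤ n) (M : Matrix (Fin n) (Fin n) F)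
    (σ : F ≃+* F) (hM : M ≠ 0)
    (h : ∀ u, Iso q u → ∃ c : F, M *ᵥ u = c • (fun i => σ (u i))) :
    σ = 1 ∧ ∃ d : F, M = d • (1 : Matrix (Fin n) (Fin n) F) := by
  classical
  have hoff : ∀ k j, k ≠ j → M k j = 0 := by
    intro k j hkj
    obtain ⟨i, hij, hik⟩ := exists_third hn j k
    obtain ⟨lam, hlam⟩ := exists_norm_neg_one hF
    obtain ⟨μ, hμ, hμ1⟩ := exists_norm_one_ne_one hF
    have hlam0 : lam ≠ 0 := by
      rintro rfl
      rw [zero_pow (Nat.succ_ne_zero q)] at hlam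
      exact one_ne_zero (neg_eq_zero.1 hlam.symm)
    obtain ⟨c, -, -, h1⟩ := rigid_key M σ h hij hik hkj.symm lam 0 (by
      rw [hlam, zero_pow (Nat.succ_ne_zero q)]; ring)
    obtain ⟨c', -, -, h2⟩ := rigid_key M σ h hij hik hkj.symm (lam * μ) 0 (by
      rw [mul_pow, hlam, hμ, zero_pow (Nat.succ_ne_zero q)]; ring)
    rw [map_zero, mul_zero] at h1 h2
    have h3 : lam * (1 - μ) * M k j = 0 := by linear_combination h1 - h2
    rcases mul_eq_zero.1 h3 with h4 | h4
    · rcases mul_eq_zero.1 h4 with h5 | h5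
      · exact absurd h5 hlam0
      · exact absurd (sub_eq_zero.1 h5).symm hμ1
    · exact h4
  have hdiag : ∀ i j, i ≠ j → ∀ α : F, α * M j j = M i i * σ α := by
    intro i j hij α
    obtain ⟨k, hki, hkj⟩ := exists_third hn i j
    obtain ⟨β, hβ⟩ := exists_norm_eq' hF (-1 - α ^ (q + 1)) (by
      rw [sub_pow_q hF, neg_pow_q hF, one_pow, ← pow_mul, mul_comm (q + 1) q, pow_mul, pow_succ (α ^ q),
        pow_q_pow_q hF, pow_succ]
      ring)
    obtain ⟨c, h1, h2, -⟩ := rigid_key M σ h hij hki.symm hkj.symm α β (by rw [hβ]; ring)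
    rw [hoff i j hij, hoff i k hki.symm] at h1
    rw [hoff j i hij.symm, hoff j k hkj.symm] at h2
    rw [← h1] at h2
    linear_combination h2
  have heq : ∀ i j, M j j = M i i := by
    intro i j
    by_cases hij : i = j
    · rw [hij]
    · have := hdiag i j hij 1
      rwa [map_one, one_mul, mul_one] at this
  let i₀ : Fin n := ⟨0, by omega⟩
  have hscal : M = M i₀ i₀ • (1 : Matrix (Fin n) (Fin n) F) := by
    ext i j
    rw [Matrix.smul_apply, Matrix.one_apply]
    by_cases hij : i = j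
    · rw [if_pos hij, hij, heq i₀ j, smul_eq_mul, mul_one]
    · rw [if_neg hij, hoff i j hij, smul_zero]
  have hd0 : M i₀ i₀ ≠ 0 := by
    intro h0
    apply hM
    rw [hscal, h0, zero_smul]
  refine ⟨?_, _, hscal⟩
  ext α
  obtain ⟨j, hj, -⟩ := exists_third hn i₀ i₀
  have h1 := hdiag i₀ j hj.symm α
  rw [heq i₀ j] at h1
  have h2 : M i₀ i₀ * (σ α - α) = 0 := by linear_combination -h1
  rcases mul_eq_zero.1 h2 with h3 | h3
  · exact absurd h3 hd0
  · exact sub_eq_zero.1 h3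

omit [Fintype F] in
theorem gu_mul_inv_mulVec (g : ↥(Cfsg.GU n F q)) (v : Fin n → F) :
    (g : GL (Fin n) F).1 *ᵥ ((g : GL (Fin n) F)⁻¹.1 *ᵥ v) = v := by
  rw [mulVec_mulVec, Units.mul_inv, one_mulVec]

omit [Fintype F] in
theorem gu_inv_mul_mulVec (g : ↥(Cfsg.GU n F q)) (v : Fin n → F) :
    (g : GL (Fin n) F)⁻¹.1 *ᵥ ((g : GL (Fin n) F).1 *ᵥ v) = v := by
  rw [mulVec_mulVec, Units.inv_mul, one_mulVec]

omit [Fintype F] in
theorem conjS_mem_X (g : ↥(Cfsg.GU n F q)) {u : Fin n → F} {x : ↥(Cfsg.SU n F q)}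
    (hx : x ∈ X q u) : conjS g x ∈ X q ((g : GL (Fin n) F).1 *ᵥ u) := by
  intro v hv
  have h1 : ⟪(g : GL (Fin n) F)⁻¹.1 *ᵥ v, u⟫ = 0 := by
    rw [← gu_herm g, gu_mul_inv_mulVec, hv]
  rw [conjS_val, ← mulVec_mulVec, ← mulVec_mulVec, hx _ h1, gu_mul_inv_mulVec]

omit [Fintype F] in
theorem fldS_mem_X (σ : F ≃+* F) {u : Fin n → F} {x : ↥(Cfsg.SU n F q)}
    (hx : x ∈ X q u) : fldS σ x ∈ X q (fun i => σ (u i)) := by
  intro v hv
  have hv' : v = fun i => σ (σ.symm (v i)) := by ext i; simp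
  rw [hv', herm_map] at hv
  have h1 : ⟪fun i => σ.symm (v i), u⟫ = 0 := by
    have := congrArg σ.symm hv
    simpa using this
  rw [fldS_val, hv', map_mulVec, hx _ h1]

omit [Fintype F] in
theorem iso_gu (g : ↥(Cfsg.GU n F q)) {u : Fin n → F} (hu : Iso q u) :
    Iso q ((g : GL (Fin n) F).1 *ᵥ u) := by
  refine ⟨fun h => hu.1 ?_, by rw [gu_herm, hu.2]⟩
  rw [← gu_inv_mul_mulVec g u, h, mulVec_zero]

omit [Fintype F] in
theorem iso_map (σ : F ≃+* F) {u : Fin n → F} (hu : Iso q u) : Iso q (fun i => σ (u i)) := by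
  refine ⟨fun h => hu.1 ?_, by rw [herm_map, hu.2, map_zero]⟩
  ext i
  have := congrFun h i
  simpa using this

theorem exists_perp_two (hF : Fintype.card F = q ^ 2) (hn : 3 ≤ n) (a b : Fin n → F) :
    ∃ v : Fin n → F, v ≠ 0 ∧ ⟪v, a⟫ = 0 ∧ ⟪v, b⟫ = 0 := by
  have hker : LinearMap.ker ((hermB hF n a).prod (hermB hF n b)) ≠ ⊥ := by
    apply LinearMap.ker_ne_bot_of_finrank_lt
    rw [Module.finrank_prod, Module.finrank_self, Module.finrank_fin_fun]
    omega
  obtain ⟨v, hv, hv0⟩ := (Submodule.ne_bot_iff _).1 hker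
  rw [LinearMap.mem_ker] at hv
  have h1 : hermB hF n a v = 0 := congrArg Prod.fst hv
  have h2 : hermB hF n b v = 0 := congrArg Prod.snd hv
  exact ⟨v, hv0, h1, h2⟩

/-- two elements of transvection groups which agree in `PSU` agree in `SU` -/
theorem eq_of_pm_eq (hF : Fintype.card F = q ^ 2) (hn : 3 ≤ n) {a b : Fin n → F}
    {x y : ↥(Cfsg.SU n F q)} (hx : x ∈ X q a) (hy : y ∈ X q b) (h : pm x = pm y) : x = y := by
  obtain ⟨ζ, hζ⟩ := exists_scalar_of_pm_eq hF h
  obtain ⟨v, hv0, hva, hvb⟩ := exists_perp_two hF hn a b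
  have h1 := hζ v
  rw [hx v hva, hy v hvb] at h1
  have h2 : (1 - ζ) • v = 0 := by rw [sub_smul, one_smul, ← h1, sub_self]
  have h3 : ζ = 1 := (sub_eq_zero.1 ((smul_eq_zero.1 h2).resolve_right hv0)).symm
  apply su_ext'
  intro w
  rw [hζ w, h3, one_smul]

theorem rigid (hF : Fintype.card F = q ^ 2) (hn : 3 ≤ n) (g : ↥(Cfsg.GU n F q)) (σ : F ≃+* F)
    (h : (cG g : MulAut (Cfsg.PSU n F q)) = fl σ) :
    σ = 1 ∧ ∃ d : F, (g : GL (Fin n) F).1 = d • (1 : Matrix (Fin n) (Fin n) F) := by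
  have : Nonempty (Fin n) := ⟨⟨0, by omega⟩⟩
  apply rigid_matrix hF hn
  · intro h0
    have := (g : GL (Fin n) F).mul_inv
    have h1 : (g : GL (Fin n) F).1 * (g : GL (Fin n) F)⁻¹.1 = 1 := Units.mul_inv _
    rw [h0, Matrix.zero_mul] at h1
    exact zero_ne_one h1
  intro u hu
  obtain ⟨κ, hκ, hκq⟩ := exists_trace_zero hF
  set x := transvSU hF u κ hu.2 hκq with hx
  have hxv : ∀ v, mt x *ᵥ v = v + (κ * ⟪v, u⟫) • u := transvSU_mulVec hF u κ hu.2 hκq
  have hxX : x ∈ X q u := by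
    intro v hv
    rw [hxv, hv, mul_zero, zero_smul, add_zero]
  have hx1 : x ≠ 1 := by
    intro h1
    obtain ⟨b, -, hbu, -⟩ := exists_hyp_partner hF n u hu.1 hu.2
    have h2 := hxv b
    rw [h1, mt_one, one_mulVec, hbu, mul_one] at h2
    have h3 : κ • u = 0 := by
      have := h2.symm
      rwa [add_eq_left] at this
    exact (smul_ne_zero hκ hu.1) h3
  have h1 := conjS_mem_X g hxX
  have h2 := fldS_mem_X σ hxX
  have h3 : pm (conjS g x) = pm (fldS σ x) := by
    rw [← cG_pm, ← fl_pm, h]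
  have h4 := eq_of_pm_eq hF hn h1 h2 h3
  obtain ⟨c₁, hc₁⟩ := X_form hF (iso_gu g hu) h1
  obtain ⟨c₂, hc₂⟩ := X_form hF (iso_map σ hu) h2
  have hc10 : c₁ ≠ 0 := by
    intro h0
    apply hx1
    have : conjS g x = 1 := by
      apply su_ext'
      intro v
      rw [hc₁, h0, zero_mul, zero_smul, add_zero, mt_one, one_mulVec]
    exact (map_eq_one_iff (conjS g) (conjS g).injective).1 this
  obtain ⟨b, -, hb, -⟩ := exists_hyp_partner hF n _ (iso_gu g hu).1 (iso_gu g hu).2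
  have h5 := hc₁ b
  rw [h4, hc₂, hb, mul_one] at h5
  have h6 := add_left_cancel h5
  refine ⟨c₁⁻¹ * (c₂ * ⟪b, fun i => σ (u i)⟫), ?_⟩
  rw [mul_smul, h6, smul_smul, inv_mul_cancel₀ hc10, one_smul]

end Cfsg.Agent.Lib.Helper50.AutPSURigid
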