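import Cfsg.Agent.Lib.Helper18.AutPSL.Split
import Cfsg.Prelude.Def_LieTypeDatum

set_option autoImplicit false

/-!
Graph involutions, abstract part: `γ_M = c M * t` where `t * c h = c (θ h) * t`; transport of
`projQuot` along linear equivalences.
-/

namespace Cfsg.Agent.Lib.Helper50.GI

open Matrix MatrixGroups

section abs

variable {E X : Type*} [Group E] [Group X] (c : E →* X) (θ : E ≃* E) (t : X)

theorem sq_eq (ht : ∀ h, t * c h = c (θ h) * t) (ht2 : t * t = 1) (M : E) :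
    (c M * t) * (c M * t) = c (M * θ M) := by
  rw [mul_assoc, ← mul_assoc t, ht, mul_assoc, ht2, mul_one, ← map_mul]

theorem conj_eq (ht : ∀ h, t * c h = c (θ h) * t) (h M : E) :
    c h * (c M * t) * (c h)⁻¹ = c (h * M * (θ h)⁻¹) * t := by
  have h1 : t * (c h)⁻¹ = (c (θ h))⁻¹ * t := by
    rw [eq_inv_mul_iff_mul_eq, ← mul_assoc, ← ht, mul_assoc, mul_inv_cancel, mul_one]
  rw [mul_assoc, mul_assoc, h1, map_mul, map_mul, map_inv]
  simp only [mul_assoc]

theorem isConjUnder_iff (ht : ∀ h, t * c h = c (θ h) * t) (M M' : E) :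
    Cfsg.IsConjUnder c.range (c M * t) (c M' * t) ↔ ∃ h : E, c M' = c (h * M * (θ h)⁻¹) := by
  constructor
  · rintro ⟨_, ⟨h, rfl⟩, e⟩
    rw [conj_eq c θ t ht] at e
    exact ⟨h, mul_right_cancel e⟩
  · rintro ⟨h, e⟩
    exact ⟨c h, ⟨h, rfl⟩, by rw [conj_eq c θ t ht, e]⟩

/-- the preimage of the centraliser of `γ_M` -/
def Sg (M : E) : Subgroup E := (Subgroup.centralizer {c M * t}).comap c

theorem mem_Sg_iff (ht : ∀ h, t * c h = c (θ h) * t) (M h : E) :
    h ∈ Sg c t M ↔ c (h * M * (θ h)⁻¹) = c M := by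
  rw [Sg, Subgroup.mem_comap, Subgroup.mem_centralizer_singleton_iff]
  constructor
  · intro e
    have h1 : c h * (c M * t) * (c h)⁻¹ = c M * t := by rw [e, mul_inv_cancel_right]
    rw [conj_eq c θ t ht] at h1
    exact mul_right_cancel h1
  · intro e
    have h1 := conj_eq c θ t ht h M
    rw [e] at h1
    conv_rhs => rw [← h1]
    rw [inv_mul_cancel_right]

theorem cent_equiv (M : E) :
    Nonempty (↥(c.range ⊓ Subgroup.centralizer {c M * t}) ≃*
      ↥(Sg c t M) ⧸ (c.ker.subgroupOf (Sg c t M))) := by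
  have hr : (c.comp (Sg c t M).subtype).range = c.range ⊓ Subgroup.centralizer {c M * t} := by
    ext y
    constructor
    · rintro ⟨h, rfl⟩
      exact ⟨⟨h.1, rfl⟩, h.2⟩
    · rintro ⟨⟨h, rfl⟩, h2⟩
      exact ⟨⟨h, h2⟩, rfl⟩
  obtain ⟨e⟩ := Cfsg.Agent.Lib.Helper18.AutPSL.centralizer_equiv (c.comp (Sg c t M).subtype) c.range
    (c M * t) 1 (one_mem _) hr
  have h1 : (1 : X)⁻¹ * (c M * t) * 1 = c M * t := by simp
  rw [h1] at e
  exact ⟨e⟩

/-- quotients of corresponding subgroups by corresponding subgroups -/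
theorem quot_congr {E' : Type*} [Group E'] (e : E ≃* E') (H Z : Subgroup E) (H' Z' : Subgroup E')
    [(Z.subgroupOf H).Normal] [(Z'.subgroupOf H').Normal]
    (hH : ∀ g, g ∈ H ↔ e g ∈ H') (hZ : ∀ g, g ∈ Z ↔ e g ∈ Z') :
    Nonempty (↥H ⧸ Z.subgroupOf H ≃* ↥H' ⧸ Z'.subgroupOf H') := by
  let eH : ↥H ≃* ↥H' :=
    { toFun := fun g => ⟨e g.1, (hH g.1).1 g.2⟩
      invFun := fun g => ⟨e.symm g.1, (hH _).2 (by rw [e.apply_symm_apply]; exact g.2)⟩
      left_inv := fun g => Subtype.ext (e.symm_apply_apply g.1)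
      right_inv := fun g => Subtype.ext (e.apply_symm_apply g.1)
      map_mul' := fun a b => Subtype.ext (map_mul e a.1 b.1) }
  refine ⟨QuotientGroup.congr _ _ eH ?_⟩
  ext g
  rw [Subgroup.mem_map, Subgroup.mem_subgroupOf]
  constructor
  · rintro ⟨x, hx, rfl⟩
    exact (hZ x.1).1 hx
  · intro hg
    refine ⟨eH.symm g, ?_, eH.apply_symm_apply g⟩
    rw [Subgroup.mem_subgroupOf, hZ]
    show e (e.symm g.1) ∈ Z'
    rw [e.apply_symm_apply]
    exact hg

end abs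

section transport

variable {ι κ : Type} [Fintype ι] [DecidableEq ι] [Fintype κ] [DecidableEq κ] {K : Type*} [Field K]

theorem toMatrix'_mul_symm (φ : (ι → K) ≃ₗ[K] (κ → K)) :
    LinearMap.toMatrix' (φ : (ι → K) →ₗ[K] (κ → K)) *
      LinearMap.toMatrix' (φ.symm : (κ → K) →ₗ[K] (ι → K)) = 1 := by
  rw [← LinearMap.toMatrix'_comp, LinearEquiv.comp_symm, LinearMap.toMatrix'_id]

theorem toMatrix'_symm_mul (φ : (ι → K) ≃ₗ[K] (κ → K)) :
    LinearMap.toMatrix' (φ.symm : (κ → K) →ₗ[K] (ι → K)) *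
      LinearMap.toMatrix' (φ : (ι → K) →ₗ[K] (κ → K)) = 1 := by
  rw [← LinearMap.toMatrix'_comp, LinearEquiv.symm_comp, LinearMap.toMatrix'_id]

theorem sandwich_mul {P : Matrix κ ι K} {P' : Matrix ι κ K} (h : P' * P = 1) (a b : Matrix ι ι K) :
    (P * a * P') * (P * b * P') = P * (a * b) * P' := by
  calc (P * a * P') * (P * b * P') = P * a * (P' * P) * b * P' := by simp only [Matrix.mul_assoc]
    _ = P * (a * b) * P' := by rw [h, Matrix.mul_one]; simp only [Matrix.mul_assoc]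

/-- conjugation by a pair of mutually inverse rectangular matrices -/
def glSand (P : Matrix κ ι K) (P' : Matrix ι κ K) (h : P' * P = 1) (h' : P * P' = 1) :
    GL ι K →* GL κ K where
  toFun g := ⟨P * g.1 * P', P * g⁻¹.1 * P', by
      rw [sandwich_mul h, Units.mul_inv, Matrix.mul_one, h'], by
      rw [sandwich_mul h, Units.inv_mul, Matrix.mul_one, h']⟩
  map_one' := by
    apply Units.ext
    show P * (1 : Matrix ι ι K) * P' = 1
    rw [Matrix.mul_one, h']
  map_mul' a b := by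
    apply Units.ext
    exact (sandwich_mul h a.1 b.1).symm

/-- conjugation by a linear equivalence -/
noncomputable def glCongr (φ : (ι → K) ≃ₗ[K] (κ → K)) : GL ι K ≃* GL κ K where
  toFun := glSand _ _ (toMatrix'_symm_mul φ) (toMatrix'_mul_symm φ)
  invFun := glSand _ _ (toMatrix'_mul_symm φ) (toMatrix'_symm_mul φ)
  left_inv g := by
    apply Units.ext
    show LinearMap.toMatrix' (φ.symm : (κ → K) →ₗ[K] (ι → K)) *
      (LinearMap.toMatrix' (φ : (ι → K) →ₗ[K] (κ → K)) * g.1 *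
      LinearMap.toMatrix' (φ.symm : (κ → K) →ₗ[K] (ι → K))) *
      LinearMap.toMatrix' (φ : (ι → K) →ₗ[K] (κ → K)) = g.1
    rw [Matrix.mul_assoc, Matrix.mul_assoc, toMatrix'_symm_mul, Matrix.mul_one, ← Matrix.mul_assoc,
      toMatrix'_symm_mul, Matrix.one_mul]
  right_inv g := by
    apply Units.ext
    show LinearMap.toMatrix' (φ : (ι → K) →ₗ[K] (κ → K)) *
      (LinearMap.toMatrix' (φ.symm : (κ → K) →ₗ[K] (ι → K)) * g.1 *
      LinearMap.toMatrix' (φ : (ι → K) →ₗ[K] (κ → K))) *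
      LinearMap.toMatrix' (φ.symm : (κ → K) →ₗ[K] (ι → K)) = g.1
    rw [Matrix.mul_assoc, Matrix.mul_assoc, toMatrix'_mul_symm, Matrix.mul_one, ← Matrix.mul_assoc,
      toMatrix'_mul_symm, Matrix.one_mul]
  map_mul' a b := map_mul _ a b

theorem glCongr_mulVec (φ : (ι → K) ≃ₗ[K] (κ → K)) (g : GL ι K) (v : ι → K) :
    (glCongr φ g).1 *ᵥ (φ v) = φ (g.1 *ᵥ v) := by
  show (LinearMap.toMatrix' (φ : (ι → K) →ₗ[K] (κ → K)) * g.1 *
      LinearMap.toMatrix' (φ.symm : (κ → K) →ₗ[K] (ι → K))) *ᵥ (φ v) = φ (g.1 *ᵥ v)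
  rw [← mulVec_mulVec, ← mulVec_mulVec, LinearMap.toMatrix'_mulVec, LinearMap.toMatrix'_mulVec]
  simp

theorem glCongr_mulVec' (φ : (ι → K) ≃ₗ[K] (κ → K)) (g : GL ι K) (w : κ → K) :
    (glCongr φ g).1 *ᵥ w = φ (g.1 *ᵥ φ.symm w) := by
  rw [← glCongr_mulVec, φ.apply_symm_apply]

theorem glCongr_mem_scalars (φ : (ι → K) ≃ₗ[K] (κ → K)) (g : GL ι K) :
    g ∈ Cfsg.Geo.scalars ι K ↔ glCongr φ g ∈ Cfsg.Geo.scalars κ K := by
  rw [Cfsg.Geo.mem_scalars_iff, Cfsg.Geo.mem_scalars_iff]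
  constructor
  · rintro ⟨c, hc⟩
    refine ⟨c, ?_⟩
    rw [Matrix.ext_iff_mulVec]
    intro w
    rw [glCongr_mulVec', hc, smul_mulVec, smul_mulVec, one_mulVec, one_mulVec, map_smul,
      φ.apply_symm_apply]
  · rintro ⟨c, hc⟩
    refine ⟨c, ?_⟩
    rw [Matrix.ext_iff_mulVec]
    intro v
    apply φ.injective
    rw [← glCongr_mulVec, hc, smul_mulVec, smul_mulVec, one_mulVec, one_mulVec, map_smul]

/-- transport of `projQuot` along a linear equivalence -/
theorem projQuot_congr (H : Subgroup (GL ι K)) (H' : Subgroup (GL κ K))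
    (φ : (ι → K) ≃ₗ[K] (κ → K)) (h : ∀ g : GL ι K, g ∈ H ↔ glCongr φ g ∈ H') :
    Nonempty (Cfsg.projQuot H ≃* Cfsg.projQuot H') :=
  quot_congr (glCongr φ) H (Cfsg.Geo.scalars ι K) H' (Cfsg.Geo.scalars κ K) h
    (glCongr_mem_scalars φ)

end transport

end Cfsg.Agent.Lib.Helper50.GI
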