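import Cfsg.Agent.Lib.Helper50.GUFrames

set_option autoImplicit false

namespace Cfsg.Agent.Lib.Helper50.Herm

section
variable {K : Type*} [Field K] [Fintype K] {q : ℕ}

theorem neg_pow_q (hK : Fintype.card K = q ^ 2) (x : K) : (-x) ^ q = - x ^ q := by
  have h2 := two_le_q hK
  have := sub_pow_q hK 0 x
  rw [zero_pow (by omega)] at this
  simpa using this

theorem card_norm_eq (hK : Fintype.card K = q ^ 2) (c : K) (hc0 : c ≠ 0) (hc : c ^ q = c) :
    Nat.card {x : K // x ^ (q + 1) = c} = q + 1 := by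
  obtain ⟨l, hl0, hl⟩ := exists_norm_eq hK c hc0 hc
  refine Eq.trans (Nat.card_congr ?_) (card_norm_one hK)
  refine
    { toFun := fun x => ⟨x.1 / l, by rw [div_pow, x.2, hl, div_self hc0]⟩
      invFun := fun x => ⟨x.1 * l, by rw [mul_pow, x.2, hl, one_mul]⟩
      left_inv := fun x => by ext; simp [hl0]
      right_inv := fun x => by ext; simp [hl0] }

/-- adding one norm coordinate: isotropic vectors -/
theorem lemmaZ (hK : Fintype.card K = q ^ 2) {S : Type*} [Finite S] (ν : S → K) (H1 : ∀ s, ν s ^ q = ν s) :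
    Nat.card {p : K × S // p.1 ^ (q + 1) + ν p.2 = 0} + q * Nat.card {s // ν s = 0} = (q + 1) * Nat.card S := by
  have e0 : Nat.card {p : K × S // p.1 ^ (q + 1) + ν p.2 = 0} =
      Nat.card {x : S × K // x.2 ^ (q + 1) + ν x.1 = 0} :=
    Nat.card_congr ((Equiv.prodComm _ _).subtypeEquiv (fun p => Iff.rfl))
  rw [e0, card_split (fun x : S × K => x.2 ^ (q + 1) + ν x.1 = 0) (fun x => ν x.1 = 0)]
  have h1 : Nat.card {x : S × K // x.2 ^ (q + 1) + ν x.1 = 0 ∧ ν x.1 = 0} = Nat.card {s // ν s = 0} * 1 := by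
    rw [← card_pairs (fun s : S => ν s = 0) (fun _ (x : K) => x = 0) 1 (fun _ _ => by simp)]
    apply Nat.card_congr
    apply Equiv.subtypeEquivRight
    rintro ⟨s, x⟩
    constructor
    · rintro ⟨h3, h4⟩
      simp only at h3 h4
      refine ⟨h4, ?_⟩
      rw [h4, add_zero] at h3
      exact pow_eq_zero_iff (by omega) |>.1 h3
    · rintro ⟨h3, h4⟩
      simp only at h3 h4
      exact ⟨by simp [h3, h4], h3⟩
  have h2 : Nat.card {x : S × K // x.2 ^ (q + 1) + ν x.1 = 0 ∧ ¬ ν x.1 = 0} =
      Nat.card {s // ¬ ν s = 0} * (q + 1) := by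
    rw [← card_pairs (fun s : S => ¬ ν s = 0) (fun s (x : K) => x ^ (q + 1) = - ν s) (q + 1)]
    · apply Nat.card_congr
      apply Equiv.subtypeEquivRight
      rintro ⟨s, x⟩
      constructor
      · rintro ⟨h3, h4⟩
        exact ⟨h4, by simp only at h3 ⊢; linear_combination h3⟩
      · rintro ⟨h3, h4⟩
        exact ⟨by simp only at h4 ⊢; rw [h4]; ring, h3⟩
    · intro s hs
      exact card_norm_eq hK _ (neg_ne_zero.2 hs) (by rw [neg_pow_q hK, H1])
  have h3 : Nat.card S = Nat.card {s // ν s = 0} + Nat.card {s // ¬ ν s = 0} := by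
    have e1 : Nat.card S = Nat.card {s : S // True} := Nat.card_congr (Equiv.subtypeUnivEquiv (fun _ => trivial)).symm
    rw [e1, card_split (fun _ : S => True) (fun s => ν s = 0)]
    congr 1 <;> exact Nat.card_congr (Equiv.subtypeEquivRight (fun s => by simp))
  rw [h1, h2, h3]
  ring

/-- number of isotropic vectors of the standard Hermitian space -/
noncomputable def zCard (K : Type*) [Field K] (q n : ℕ) : ℕ :=
  Nat.card {v : Fin n → K // Cfsg.hermForm n K q v v = 0}

omit [Fintype K] in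
theorem zCard_zero : zCard K q 0 = 1 := by
  rw [zCard, Nat.card_eq_one_iff_unique]
  exact ⟨⟨fun a b => Subtype.ext (Subsingleton.elim _ _)⟩, ⟨⟨0, by simp [Cfsg.hermForm]⟩⟩⟩

theorem zCard_succ (hK : Fintype.card K = q ^ 2) (n : ℕ) :
    zCard K q (n + 1) + q * zCard K q n = (q + 1) * q ^ (2 * n) := by
  have h1 := lemmaZ hK (S := Fin n → K) (fun w => Cfsg.hermForm n K q w w)
    (fun w => ((isHerm_std hK n).symm w w).symm)
  have hc : Nat.card (Fin n → K) = q ^ (2 * n) := by
    rw [Nat.card_fun, Nat.card_eq_fintype_card, hK, ← pow_mul]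
    simp
  rw [hc] at h1
  rw [← h1, zCard, zCard]
  congr 1
  apply Nat.card_congr
  symm
  apply (Fin.consEquiv (fun _ => K)).subtypeEquiv
  intro p
  have : (Fin.consEquiv (fun _ => K)) p = Fin.cons p.1 p.2 := rfl
  rw [this]
  simp only [Cfsg.hermForm]
  rw [Fin.sum_univ_succ]
  simp only [Fin.cons_zero, Fin.cons_succ, pow_succ']

/-- closed form -/
theorem zCard_closed (hK : Fintype.card K = q ^ 2) (d : ℕ) :
    (Even (d + 1) → zCard K q (d + 1) + q ^ d = q ^ (2 * d + 1) + q ^ (d + 1)) ∧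
    (Odd (d + 1) → zCard K q (d + 1) + q ^ (d + 1) = q ^ (2 * d + 1) + q ^ d) := by
  induction d with
  | zero =>
    have h := zCard_succ hK 0
    rw [zCard_zero] at h
    refine ⟨fun h0 => absurd h0 (by decide), fun _ => ?_⟩
    simp at h ⊢
    omega
  | succ d ih =>
    have h := zCard_succ hK (d + 1)
    constructor
    · intro he
      have ho : Odd (d + 1) := by
        rcases Nat.even_or_odd (d + 1) with h1 | h1
        · exact absurd he (by rw [Nat.even_add_one]; simpa using h1)
        · exact h1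
      have h1 := ih.2 ho
      have e1 : q * (zCard K q (d + 1) + q ^ (d + 1)) = q ^ (2 * d + 2) + q ^ (d + 1) := by
        rw [h1]; ring
      have e2 : (q + 1) * q ^ (2 * (d + 1)) = q ^ (2 * (d + 1) + 1) + q ^ (2 * d + 2) := by ring
      have e3 : q * (zCard K q (d + 1) + q ^ (d + 1)) = q * zCard K q (d + 1) + q ^ (d + 1 + 1) := by ring
      omega
    · intro ho
      have he : Even (d + 1) := by
        rcases Nat.even_or_odd (d + 1) with h1 | h1
        · exact h1
        · exact absurd ho (by rw [Nat.odd_add_one]; simpa using h1)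
      have h1 := ih.1 he
      have e1 : q * (zCard K q (d + 1) + q ^ d) = q ^ (2 * d + 2) + q ^ (d + 1 + 1) := by
        rw [h1]; ring
      have e2 : (q + 1) * q ^ (2 * (d + 1)) = q ^ (2 * (d + 1) + 1) + q ^ (2 * d + 2) := by ring
      have e3 : q * (zCard K q (d + 1) + q ^ d) = q * zCard K q (d + 1) + q ^ (d + 1) := by ring
      omega

end

end Cfsg.Agent.Lib.Helper50.Herm
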