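import Cfsg.Agent.Lib.Helper50.STADefs

/-!
# STA ladder, rung APTA: apartments
-/

set_option autoImplicit false

namespace Cfsg.Agent.Lib.Helper50.STA

open Cfsg.Agent.Lib.Helper50.STB

variable {F V : Type*} [Field F] [AddCommGroup V] [Module F V]

theorem oppA_iff (n : ℕ) (b : Fin n → V) (hli : LinearIndependent F b) (σ : Equiv.Perm (Fin n)) :
    OppA n (flagOf (F := F) n b) (flagOf n (b ∘ σ)) ↔
      ∀ j k, j + k = n → ∀ i : Fin n, i.val < k → j ≤ (σ i).val := by
  constructor
  · intro h j k hjk i hi
    by_contra hlt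
    have h1 := h j k hjk
    rw [flagOf_of_le _ _ _ (by omega), flagOf_of_le _ _ _ (by omega)] at h1
    have h2 : b (σ i) ∈ Submodule.span F (b '' {i | i.val < j}) ⊓
        Submodule.span F ((b ∘ σ) '' {i | i.val < k}) :=
      ⟨Submodule.subset_span ⟨σ i, by simpa using hlt, rfl⟩, Submodule.subset_span ⟨i, hi, rfl⟩⟩
    rw [h1] at h2
    exact hli.ne_zero _ ((Submodule.mem_bot F).1 h2)
  · intro h j k hjk
    rw [flagOf_of_le _ _ _ (by omega), flagOf_of_le _ _ _ (by omega), Set.image_comp]
    apply disjoint_iff.1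
    apply hli.disjoint_span_image
    rw [Set.disjoint_left]
    rintro x hx ⟨i, hi, rfl⟩
    have := h j k hjk i hi
    have hx' : (σ i).val < j := hx
    omega

theorem oppA_rev (n : ℕ) (b : Fin n → V) (hli : LinearIndependent F b) :
    OppA n (flagOf (F := F) n b) (flagOf n (b ∘ Fin.rev)) := by
  have := (oppA_iff n b hli Fin.revPerm).2 (by
    intro j k hjk i hi
    rw [Fin.revPerm_apply, Fin.val_rev]
    omega)
  exact this

theorem eq_of_oppA (n : ℕ) (b : Fin n → V) (hli : LinearIndependent F b) (σ : Equiv.Perm (Fin n))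
    (h : OppA n (flagOf (F := F) n b) (flagOf n (b ∘ σ))) : σ = Fin.revPerm := by
  have h1 := (oppA_iff n b hli σ).1 h
  have h2 : ∀ i : Fin n, (Fin.revPerm i).val ≤ (σ i).val := by
    intro i
    have := h1 (n - (i.val + 1)) (i.val + 1) (by have := i.2; omega) i (by omega)
    rw [Fin.revPerm_apply, Fin.val_rev]
    omega
  have h3 : ∑ i : Fin n, (Fin.revPerm i).val = ∑ i : Fin n, (σ i).val := by
    rw [Equiv.sum_comp Fin.revPerm (fun i : Fin n => i.val), Equiv.sum_comp σ (fun i : Fin n => i.val)]
  have h4 := (Finset.sum_eq_sum_iff_of_le (fun i _ => h2 i)).1 h3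
  ext i
  exact (h4 i (Finset.mem_univ i)).symm

theorem exists_involA (n : ℕ) (b : Fin n → V) :
    ∃ ι : Fin (n - 1) → Equiv.Perm (Fin n) → Equiv.Perm (Fin n),
      (∀ i σ, Equiv.Perm.sign (ι i σ) = - Equiv.Perm.sign σ) ∧ (∀ i σ, ι i (ι i σ) = σ) ∧
      ∀ i σ j, j ≠ i.val + 1 → flagOf (F := F) n (b ∘ ι i σ) j = flagOf n (b ∘ σ) j := by
  classical
  refine ⟨fun i σ => σ * Equiv.swap ⟨i.val, by have := i.2; omega⟩ ⟨i.val + 1, by have := i.2; omega⟩,
    ?_, ?_, ?_⟩
  · intro i σ
    have hne : (⟨i.val, by have := i.2; omega⟩ : Fin n) ≠ ⟨i.val + 1, by have := i.2; omega⟩ := by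
      intro h'
      have := congrArg Fin.val h'
      simp at this
    simp only [Equiv.Perm.sign_mul, Equiv.Perm.sign_swap hne]
    simp
  · intro i σ
    simp [mul_assoc]
  · intro i σ j hj
    by_cases hjm : j ≤ n
    · rw [flagOf_of_le _ _ _ hjm, flagOf_of_le _ _ _ hjm]
      set i0 : Fin n := ⟨i.val, by have := i.2; omega⟩ with hi0
      set i1 : Fin n := ⟨i.val + 1, by have := i.2; omega⟩ with hi1
      have e : b ∘ ⇑(σ * Equiv.swap i0 i1) = (b ∘ σ) ∘ Equiv.swap i0 i1 := by
        funext t
        simp
      rw [e, Set.image_comp (b ∘ σ)]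
      congr 2
      ext t
      simp only [Set.mem_image, Set.mem_ofPred_eq]
      constructor
      · rintro ⟨s, hs, rfl⟩
        by_cases h1 : s = i0
        · subst h1
          rw [Equiv.swap_apply_left]
          show i.val + 1 < j
          have : i.val < j := hs
          omega
        · by_cases h2 : s = i1
          · subst h2
            rw [Equiv.swap_apply_right]
            have : i.val + 1 < j := hs
            show i.val < j
            omega
          · rw [Equiv.swap_apply_of_ne_of_ne h1 h2]; exact hs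
      · intro ht
        refine ⟨Equiv.swap i0 i1 t, ?_, by simp⟩
        by_cases h1 : t = i0
        · subst h1
          rw [Equiv.swap_apply_left]
          show i.val + 1 < j
          have : i.val < j := ht
          omega
        · by_cases h2 : t = i1
          · subst h2
            rw [Equiv.swap_apply_right]
            have : i.val + 1 < j := ht
            show i.val < j
            omega
          · rw [Equiv.swap_apply_of_ne_of_ne h1 h2]; exact ht
    · unfold flagOf
      rw [if_neg hjm, if_neg hjm]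

end Cfsg.Agent.Lib.Helper50.STA
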