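import Cfsg.Agent.Lib.Helper50.STBMain2

/-!
# STA ladder (type A): Steinberg character of `PSL_n(q)` via full flags

Full flags of an `n`-dimensional space are the chambers of rank `n` of the trivial polar geometry
(everything singular, everything perpendicular), so that the general lemmas of the STB ladder on
`IsCh`, `flagOf`, `exists_chPerm`, ... apply.  The panels are the levels `1 ≤ k < n`.
-/

set_option autoImplicit false

namespace Cfsg.Agent.Lib.Helper50.STA

open Cfsg.Agent.Lib.Helper50.STB

/-- the trivial polar geometry -/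
def triv (F V : Type*) [Field F] [AddCommGroup V] [Module F V] : Polar F V where
  perp _ := ⊤
  sing _ := True
  symm _ := Submodule.mem_top
  codim _ := by rw [finrank_top]; omega
  sing_zero := trivial
  sing_smul _ _ _ := trivial
  sing_add _ _ _ := trivial
  sing_self _ := Submodule.mem_top

variable {F V : Type*} [Field F] [AddCommGroup V] [Module F V]

theorem ts_triv (X : Submodule F V) : (triv F V).TS X :=
  ⟨fun _ _ => trivial, fun _ _ => (mem_orth _ _ _).2 fun _ _ => Submodule.mem_top⟩

/-- opposite flags -/
def OppA (n : ℕ) (c d : ℕ → Submodule F V) : Prop := ∀ j k, j + k = n → c j ⊓ d k = ⊥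

theorem isChA_flagOf (n : ℕ) (b : Fin n → V) (hli : LinearIndependent F b) :
    IsCh (triv F V) n (flagOf n b) :=
  isCh_flagOf _ n b hli (fun _ => trivial) (fun _ _ => Submodule.mem_top)

theorem pres_triv {G : Type*} [Group G] (ρ : G →* (V ≃ₗ[F] V)) : Pres (triv F V) ρ :=
  ⟨fun _ _ _ _ => Submodule.mem_top, fun _ _ _ => trivial⟩

/-- the natural action of `SL_n` -/
noncomputable def rhoSL (n : ℕ) (F : Type*) [Field F] :
    Matrix.SpecialLinearGroup (Fin n) F →* ((Fin n → F) ≃ₗ[F] (Fin n → F)) :=
  linRep (Cfsg.slToMat n F)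

theorem rhoSL_apply (n : ℕ) (g : Matrix.SpecialLinearGroup (Fin n) F) (v : Fin n → F) :
    rhoSL n F g v = (g.1 : Matrix (Fin n) (Fin n) F).mulVec v := linRep_apply _ g v

end Cfsg.Agent.Lib.Helper50.STA
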