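import Cfsg.Agent.Lib.Helper50.STADefs

/-!
# STA ladder, rung DETA: the flags opposite a given flag generate all flags under panel closure
-/

set_option autoImplicit false

namespace Cfsg.Agent.Lib.Helper50.STA

open Cfsg.Agent.Lib.Helper50.STB

variable {F V : Type*} [Field F] [AddCommGroup V] [Module F V]

theorem lemA [FiniteDimensional F V] (n : ℕ) (hV : Module.finrank F V = n)
    (Z : (ℕ → Submodule F V) → Prop)
    (hZ : ∀ d, IsCh (triv F V) n d → ∀ k, 1 ≤ k → k < n →
      (∀ d', IsCh (triv F V) n d' → (∀ j, j ≠ k → d' j = d j) → d' ≠ d → Z d') → Z d)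
    (H : Submodule F V) (hH : H ≠ ⊤) (k : ℕ) (hk : k < n) (d0 : ℕ → Submodule F V)
    (hyp : ∀ d, IsCh (triv F V) n d → (∀ j, j ≤ k → d j = d0 j) → ¬ d (k + 1) ≤ H → Z d) :
    ∀ d, IsCh (triv F V) n d → (∀ j, j ≤ k → d j = d0 j) → Z d := by
  have key : ∀ t, k + 1 + t ≤ n → ∀ d, IsCh (triv F V) n d → (∀ j, j ≤ k → d j = d0 j) →
      ¬ d (k + 1 + t) ≤ H → Z d := by
    intro t
    induction t with
    | zero => intro _ d hd ha hn; exact hyp d hd ha hn
    | succ t ih =>
      intro ht d hd ha hn
      by_cases hr : d (k + 1 + t) ≤ H
      · apply hZ d hd (k + 1 + t) (by omega) (by omega)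
        intro d'' hd'' hadj hne
        apply ih (by omega) d'' hd''
        · intro j hj
          rw [hadj j (by omega), ha j hj]
        · intro hW
          apply hn
          have hWne : d'' (k + 1 + t) ≠ d (k + 1 + t) := by
            intro h
            apply hne
            funext j
            by_cases hj : j = k + 1 + t
            · rw [hj, h]
            · exact hadj j hj
          have hsup : d'' (k + 1 + t) ⊔ d (k + 1 + t) = d (k + 1 + t + 1) := by
            apply sup_eq_of_finrank (k := k + 1 + t) (hd''.finrank (by omega))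
              (hd.finrank (by omega)) (hd.finrank (by omega)) _ _ hWne
            · rw [← hadj (k + 1 + t + 1) (by omega)]
              exact hd''.mono (Nat.le_succ _) (by omega)
            · exact hd.mono (Nat.le_succ _) (by omega)
          rw [show k + 1 + (t + 1) = k + 1 + t + 1 by ring, ← hsup]
          exact sup_le hW hr
      · exact ih (by omega) d hd ha hr
  intro d hd ha
  apply key (n - (k + 1)) (by omega) d hd ha
  rw [show k + 1 + (n - (k + 1)) = n by omega]
  intro h
  apply hH
  have : d n = ⊤ := Submodule.eq_top_of_finrank_eq (by rw [hd.finrank le_rfl, hV])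
  rw [this] at h
  exact top_le_iff.1 h

/-- rung DETA -/
theorem detA [FiniteDimensional F V] (n : ℕ) (hV : Module.finrank F V = n)
    (c : ℕ → Submodule F V) (hc : IsCh (triv F V) n c) (Z : (ℕ → Submodule F V) → Prop)
    (hZ : ∀ d, IsCh (triv F V) n d → ∀ k, 1 ≤ k → k < n →
      (∀ d', IsCh (triv F V) n d' → (∀ j, j ≠ k → d' j = d j) → d' ≠ d → Z d') → Z d)
    (h0 : ∀ d, IsCh (triv F V) n d → OppA n c d → Z d) : ∀ d, IsCh (triv F V) n d → Z d := by
  have key : ∀ (t j : ℕ), j + t = n → ∀ d, IsCh (triv F V) n d →
      (∀ i, i ≤ j → c (n - i) ⊓ d i = ⊥) → Z d := by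
    intro t
    induction t with
    | zero =>
      intro j hj d hd h
      apply h0 d hd
      intro a b hab
      have := h b (by omega)
      rwa [show n - b = a by omega] at this
    | succ t ih =>
      intro j hjt d0 hd0 hopp
      have hj : j < n := by omega
      set H := d0 j ⊔ c (n - j - 1) with hH
      have hHne : H ≠ ⊤ := by
        intro h
        have h1 := Submodule.finrank_add_le_finrank_add_finrank (d0 j) (c (n - j - 1))
        rw [← hH, h, finrank_top, hV, hd0.finrank (by omega), hc.finrank (by omega)] at h1
        omega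
      apply lemA n hV Z hZ H hHne j hj d0 ?_ d0 hd0 (fun _ _ => rfl)
      intro d hd hagree hnot
      apply ih (j + 1) (by omega) d hd
      intro i hi
      rcases Nat.lt_or_ge i (j + 1) with hi' | hi'
      · rw [hagree i (by omega)]
        exact hopp i (by omega)
      · have : i = j + 1 := by omega
        subst this
        by_contra hne
        obtain ⟨v, hv, hv0⟩ := Submodule.exists_mem_ne_zero_of_ne_bot hne
        have hdj : d j = d0 j := hagree j le_rfl
        have hvn : v ∉ d j := by
          intro hvd
          have : v ∈ c (n - j) ⊓ d0 j := ⟨hc.mono (by omega) (by omega) hv.1, hdj ▸ hvd⟩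
          rw [hopp j le_rfl] at this
          exact hv0 ((Submodule.mem_bot F).1 this)
        have hs := hd.sup_span hj hv.2 hvn
        apply hnot
        rw [← hs, hdj]
        apply sup_le le_sup_left
        rw [Submodule.span_singleton_le_iff_mem]
        apply Submodule.mem_sup_right
        rw [show n - j - 1 = n - (j + 1) by omega]
        exact hv.1
  intro d hd
  apply key n 0 (by omega) d hd
  intro i hi
  have : i = 0 := by omega
  subst this
  rw [hd.zero, inf_bot_eq]

end Cfsg.Agent.Lib.Helper50.STA
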