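import Cfsg.Agent.Lib.Helper50.STADefs

/-!
# STA ladder, rung FTA: `SL_n` maps a basis to a basis up to scalars
-/

set_option autoImplicit false

namespace Cfsg.Agent.Lib.Helper50.STA

open Cfsg.Agent.Lib.Helper50.STB Matrix

theorem sl_ft (n : ℕ) (F : Type*) [Field F] (b b' : Fin n → (Fin n → F))
    (hb : LinearIndependent F b) (hb' : LinearIndependent F b') :
    ∃ g : Matrix.SpecialLinearGroup (Fin n) F, ∀ i, rhoSL n F g (b i) ∈ Submodule.span F {b' i} := by
  rcases Nat.eq_zero_or_pos n with rfl | hn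
  · exact ⟨1, fun i => i.elim0⟩
  set B : Matrix (Fin n) (Fin n) F := Matrix.of (fun r i => b i r) with hB
  set B' : Matrix (Fin n) (Fin n) F := Matrix.of (fun r i => b' i r) with hB'
  have hBu : IsUnit B := Matrix.linearIndependent_cols_iff_isUnit.1 hb
  have hBu' : IsUnit B' := Matrix.linearIndependent_cols_iff_isUnit.1 hb'
  have hdB : B.det ≠ 0 := ((Matrix.isUnit_iff_isUnit_det B).1 hBu).ne_zero
  have hdB' : B'.det ≠ 0 := ((Matrix.isUnit_iff_isUnit_det B').1 hBu').ne_zero
  set i0 : Fin n := ⟨0, hn⟩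
  set d : Fin n → F := fun i => if i = i0 then B.det / B'.det else 1 with hd
  have hpd : ∏ i, d i = B.det / B'.det := by
    simp only [hd]
    rw [Finset.prod_ite_eq']
    simp
  set A : Matrix (Fin n) (Fin n) F := B' * Matrix.diagonal d * B⁻¹ with hA
  have hdet : A.det = 1 := by
    rw [hA, Matrix.det_mul, Matrix.det_mul, Matrix.det_diagonal, hpd, Matrix.det_nonsing_inv,
      Ring.inverse_eq_inv']
    field_simp
  have hcol : ∀ i, B *ᵥ (Pi.single i 1) = b i := by
    intro i
    funext r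
    simp [hB, Matrix.mulVec_single]
  have hcol' : ∀ i, B' *ᵥ (Pi.single i 1) = b' i := by
    intro i
    funext r
    simp [hB', Matrix.mulVec_single]
  set g : Matrix.SpecialLinearGroup (Fin n) F := ⟨A, hdet⟩ with hg
  refine ⟨g, fun i => ?_⟩
  rw [rhoSL_apply]
  show A *ᵥ b i ∈ _
  have h1 : A *ᵥ b i = d i • b' i := by
    rw [hA, ← hcol i, Matrix.mulVec_mulVec, Matrix.mul_assoc,
      Matrix.nonsing_inv_mul B ((Matrix.isUnit_iff_isUnit_det B).1 hBu), Matrix.mul_one,
      ← Matrix.mulVec_mulVec]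
    have h2 : Matrix.diagonal d *ᵥ (Pi.single i 1 : Fin n → F) = d i • Pi.single i 1 := by
      funext r
      rw [Matrix.mulVec_diagonal]
      by_cases hr : r = i
      · subst hr; simp
      · simp [Pi.single_apply, hr]
    rw [h2, Matrix.mulVec_smul, hcol']
  rw [h1]
  exact Submodule.smul_mem _ _ (Submodule.mem_span_singleton_self _)

end Cfsg.Agent.Lib.Helper50.STA
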