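import Cfsg.Agent.Lib.Helper50.STBFin
import Cfsg.Agent.Lib.Helper17.SympCenter
import Cfsg.Agent.S0245
import Cfsg.Agent.S0246

/-!
# STB ladder: the symplectic family
-/

set_option autoImplicit false

namespace Cfsg.Agent.Lib.Helper50.STB

open Matrix

theorem mem_perp_sp {m : ℕ} {F : Type*} [Field F] (x y : Fin m ⊕ Fin m → F) :
    y ∈ (polSp m F).perp x ↔ bSp m F x y = 0 := Iff.rfl

theorem rhoSp_apply {m : ℕ} {F : Type*} [Field F] (g : Matrix.symplecticGroup (Fin m) F)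
    (v : Fin m ⊕ Fin m → F) : rhoSp m F g v = (g : Matrix _ _ F) *ᵥ v := linRep_apply _ g v

theorem sp_count (m : ℕ) (F : Type*) [Field F] [Finite F] : PolarCount (polSp m F) (Nat.card F) := by
  constructor
  · intro x hx
    funext i
    have h := (mem_perp_sp x _).1 (hx ((-J (Fin m) F) *ᵥ Pi.single i 1))
    unfold bSp at h
    rw [mulVec_mulVec, mul_neg, J_squared, neg_neg, one_mulVec, dotProduct_single, mul_one] at h
    exact h
  · intro y v _ _
    exact Nat.card_congr (Equiv.subtypeUnivEquiv fun _ => trivial)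

theorem bSp_map {m : ℕ} {F : Type*} [Field F] (g : Matrix.symplecticGroup (Fin m) F)
    (x y : Fin m ⊕ Fin m → F) :
    bSp m F ((g : Matrix _ _ F) *ᵥ x) ((g : Matrix _ _ F) *ᵥ y) = bSp m F x y := by
  have h := (SymplecticGroup.mem_iff').1 g.2
  unfold bSp
  calc ((g : Matrix _ _ F) *ᵥ x) ⬝ᵥ (J (Fin m) F *ᵥ ((g : Matrix _ _ F) *ᵥ y))
      = (x ᵥ* (g : Matrix _ _ F)ᵀ) ⬝ᵥ (J (Fin m) F *ᵥ ((g : Matrix _ _ F) *ᵥ y)) := by
        rw [Matrix.vecMul_transpose]
    _ = x ⬝ᵥ (((g : Matrix _ _ F)ᵀ * J (Fin m) F * (g : Matrix _ _ F)) *ᵥ y) := by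
        rw [← dotProduct_mulVec, mulVec_mulVec, mulVec_mulVec, Matrix.mul_assoc]
    _ = x ⬝ᵥ (J (Fin m) F *ᵥ y) := by rw [h]

theorem sp_pres (m : ℕ) (F : Type*) [Field F] : Pres (polSp m F) (rhoSp m F) := by
  constructor
  · intro g x y h
    rw [mem_perp_sp] at h ⊢
    rw [rhoSp_apply, rhoSp_apply, bSp_map, h]
  · intro g x _
    trivial

theorem bSp_single {m : ℕ} {F : Type*} [Field F] (s t : Fin m ⊕ Fin m) :
    bSp m F (Pi.single s 1) (Pi.single t 1) = J (Fin m) F s t := by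
  unfold bSp
  rw [single_one_dotProduct, mulVec_single_one]
  rfl

/-- the standard frame -/
def frameSp (m : ℕ) (F : Type*) [Field F] : Frame (polSp m F) m where
  e i := Pi.single (Sum.inl i) 1
  f i := Pi.single (Sum.inr i) 1
  sing_e _ := trivial
  sing_f _ := trivial
  ee i j := by rw [mem_perp_sp, bSp_single]; simp [J]
  ff i j := by rw [mem_perp_sp, bSp_single]; simp [J]
  ef i j h := by rw [mem_perp_sp, bSp_single]; simp [J, Matrix.one_apply, h]
  ne i := by rw [mem_perp_sp, bSp_single]; simp [J]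

theorem bSp_smul_right {m : ℕ} {F : Type*} [Field F] (a : F) (x y : Fin m ⊕ Fin m → F) :
    bSp m F x (a • y) = a * bSp m F x y := by
  simp [bSp, Matrix.mulVec_smul, dotProduct_smul]

theorem bSp_smul_left {m : ℕ} {F : Type*} [Field F] (a : F) (x y : Fin m ⊕ Fin m → F) :
    bSp m F (a • x) y = a * bSp m F x y := by
  simp [bSp, smul_dotProduct]

theorem sp_ft (m : ℕ) (F : Type*) [Field F] :
    ∃ Φ : Frame (polSp m F) m, FT (polSp m F) Φ (rhoSp m F) := by
  refine ⟨frameSp m F, ?_⟩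
  intro Φ'
  have hne : ∀ i, bSp m F (Φ'.e i) (Φ'.f i) ≠ 0 := fun i h => Φ'.ne i ((mem_perp_sp _ _).2 h)
  set col : Fin m ⊕ Fin m → (Fin m ⊕ Fin m → F) :=
    Sum.elim Φ'.e (fun i => (-(bSp m F (Φ'.e i) (Φ'.f i))⁻¹) • Φ'.f i) with hcol
  set A : Matrix (Fin m ⊕ Fin m) (Fin m ⊕ Fin m) F := Matrix.of (fun r c => col c r) with hA
  have hgram : ∀ s t, bSp m F (col s) (col t) = J (Fin m) F s t := by
    rintro (i | i) (j | j)
    · simp only [hcol, Sum.elim_inl]
      rw [(mem_perp_sp _ _).1 (Φ'.ee i j)]; simp [J]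
    · simp only [hcol, Sum.elim_inl, Sum.elim_inr]
      rw [bSp_smul_right]
      by_cases hij : i = j
      · subst hij
        rw [neg_mul, inv_mul_cancel₀ (hne i)]; simp [J]
      · rw [(mem_perp_sp _ _).1 (Φ'.ef i j hij)]; simp [J, Matrix.one_apply, hij]
    · simp only [hcol, Sum.elim_inl, Sum.elim_inr]
      rw [bSp_smul_left, bSp_symm m (Φ'.e j) (Φ'.f i)]
      by_cases hij : i = j
      · subst hij
        rw [neg_mul_neg, inv_mul_cancel₀ (hne i)]; simp [J]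
      · rw [(mem_perp_sp _ _).1 (Φ'.ef j i (Ne.symm hij))]; simp [J, Matrix.one_apply, hij]
    · simp only [hcol, Sum.elim_inr]
      rw [bSp_smul_right, bSp_smul_left, (mem_perp_sp _ _).1 (Φ'.ff i j)]; simp [J]
  have hmem : A ∈ Matrix.symplecticGroup (Fin m) F := by
    rw [SymplecticGroup.mem_iff']
    ext s t
    rw [Cfsg.Agent.S0245.gram_entry, Cfsg.Agent.S0245.stdB_apply]
    exact hgram s t
  have hAcol : ∀ s, A *ᵥ Pi.single s 1 = col s := by
    intro s
    rw [mulVec_single_one]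
    rfl
  refine ⟨⟨A, hmem⟩, fun i => ⟨?_, ?_⟩⟩
  · rw [rhoSp_apply]
    show A *ᵥ Pi.single (Sum.inl i) 1 ∈ _
    rw [hAcol]
    exact Submodule.mem_span_singleton_self _
  · rw [rhoSp_apply]
    show A *ᵥ Pi.single (Sum.inr i) 1 ∈ _
    rw [hAcol]
    exact Submodule.smul_mem _ _ (Submodule.mem_span_singleton_self _)

theorem sp_center (m : ℕ) (hm : 1 ≤ m) (F : Type*) [Field F] [Finite F]
    (z : Matrix.symplecticGroup (Fin m) F)
    (hz : z ∈ Subgroup.center (Matrix.symplecticGroup (Fin m) F)) :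
    ∃ a : F, ∀ v, rhoSp m F z v = a • v := by
  obtain ⟨a, ha⟩ := Cfsg.Agent.Lib.Helper17.SympCenter.central_scalar hz
  exact ⟨a, fun v => by rw [rhoSp_apply, ha]⟩

theorem not_dvd_pow_sub_one (p q : ℕ) (hp : p.Prime) (hpq : p ∣ q) (hq : 0 < q) (k : ℕ)
    (hk : 0 < k) : ¬ p ∣ q ^ k - 1 := by
  intro h
  have h1 : p ∣ q ^ k := dvd_pow hpq hk.ne'
  have h2 : 1 ≤ q ^ k := Nat.one_le_pow _ _ hq
  have h3 : p ∣ 1 := by
    have := (Nat.dvd_sub h1 h)
    rwa [Nat.sub_sub_self h2] at this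
  exact hp.one_lt.ne' (Nat.dvd_one.1 h3)

theorem exists_pow_of_card (F : Type*) [Field F] [Finite F] (p : ℕ) [Fact p.Prime] [CharP F p] :
    ∃ a, 0 < a ∧ Nat.card F = p ^ a := by
  have : Fintype F := Fintype.ofFinite F
  obtain ⟨n, hp, hn⟩ := FiniteField.card F p
  exact ⟨n, n.pos, by rw [Nat.card_eq_fintype_card, hn]⟩

theorem sp_order (m : ℕ) (hm : 1 ≤ m) (F : Type*) [Field F] [Fintype F] (p : ℕ) [Fact p.Prime]
    [CharP F p] : ∃ r, Nat.card (Cfsg.PSp m F) = Nat.card F ^ (m ^ 2) * r ∧ ¬ p ∣ r := by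
  have hp : p.Prime := Fact.out
  obtain ⟨a, ha0, ha⟩ := exists_pow_of_card F p
  have hq : Fintype.card F = Nat.card F := Nat.card_eq_fintype_card.symm
  have hpq : p ∣ Nat.card F := by rw [ha]; exact dvd_pow_self p ha0.ne'
  have h1 := Cfsg.Agent.S0245.result hq m
  have h2 := Cfsg.Agent.S0246.result hq m hm
  have h3 := Subgroup.card_eq_card_quotient_mul_card_subgroup
    (Subgroup.center (Matrix.symplecticGroup (Fin m) F))
  rw [h1, h2] at h3
  apply order_split p _ (Nat.gcd 2 (Nat.card F - 1)) _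
    (∏ i ∈ Finset.range m, (Nat.card F ^ (2 * (i + 1)) - 1)) ⟨a * m ^ 2, by rw [ha, pow_mul]⟩
  · rw [mul_comm, ← h3]
  · intro h
    have h4 : p ∣ Nat.card F - 1 := h.trans (Nat.gcd_dvd_right _ _)
    have := not_dvd_pow_sub_one p (Nat.card F) hp hpq Nat.card_pos 1 one_pos
    rw [pow_one] at this
    exact this h4
  · intro h
    obtain ⟨i, -, hi⟩ := (Prime.dvd_finsetProd_iff hp.prime _).1 h
    exact not_dvd_pow_sub_one p (Nat.card F) hp hpq Nat.card_pos _ (by omega) hi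

end Cfsg.Agent.Lib.Helper50.STB
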