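import Cfsg.Agent.Lib.Helper50.STADefs
import Cfsg.Agent.Lib.Helper50.STBSp

/-!
# STA ladder: the order of `PSL_n(q)` divides `q^(0+1+...+(n-1))` times a number prime to `p`
-/

set_option autoImplicit false

namespace Cfsg.Agent.Lib.Helper50.STA

open Cfsg.Agent.Lib.Helper50.STB

theorem psl_order (n : ℕ) (F : Type*) [Field F] [Fintype F] (p : ℕ) [Fact p.Prime] [CharP F p] :
    ∃ r₀, ¬ p ∣ r₀ ∧ Nat.card (Matrix.ProjectiveSpecialLinearGroup (Fin n) F) ∣
      Nat.card F ^ (∑ i ∈ Finset.range n, i) * r₀ := by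
  have hp : p.Prime := Fact.out
  obtain ⟨e, he0, he⟩ := exists_pow_of_card F p
  have hpq : p ∣ Nat.card F := by rw [he]; exact dvd_pow_self p he0.ne'
  have hq0 : 0 < Nat.card F := Nat.card_pos
  refine ⟨∏ i ∈ Finset.range n, (Nat.card F ^ (n - i) - 1), ?_, ?_⟩
  · intro h
    obtain ⟨i, hi, hi'⟩ := (Prime.dvd_finsetProd_iff hp.prime _).1 h
    rw [Finset.mem_range] at hi
    exact not_dvd_pow_sub_one p _ hp hpq hq0 _ (by omega) hi'
  · have h1 : Nat.card (Matrix.ProjectiveSpecialLinearGroup (Fin n) F) ∣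
        Nat.card (Matrix.SpecialLinearGroup (Fin n) F) := Subgroup.card_quotient_dvd_card _
    have h2 : Nat.card (Matrix.SpecialLinearGroup (Fin n) F) ∣
        Nat.card (Matrix.GeneralLinearGroup (Fin n) F) :=
      Subgroup.card_dvd_of_injective Matrix.SpecialLinearGroup.toGL
        Matrix.SpecialLinearGroup.toGL_injective
    have h3 : Nat.card (Matrix.GeneralLinearGroup (Fin n) F) =
        Nat.card F ^ (∑ i ∈ Finset.range n, i) *
          ∏ i ∈ Finset.range n, (Nat.card F ^ (n - i) - 1) := by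
      rw [Matrix.card_GL_field, ← Nat.card_eq_fintype_card, ← Finset.prod_pow_eq_pow_sum,
        ← Finset.prod_mul_distrib, Finset.prod_range (fun i => Nat.card F ^ i * (Nat.card F ^ (n - i) - 1))]
      apply Finset.prod_congr rfl
      intro i _
      rw [Nat.mul_sub, mul_one, ← pow_add]
      congr 2
      have := i.2
      omega
    rw [← h3]
    exact h1.trans h2

end Cfsg.Agent.Lib.Helper50.STA
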