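import Cfsg.Agent.Lib.Helper50.STADefs

/-!
# STA ladder, rung LINA: opposite flags come from a basis
-/

set_option autoImplicit false

namespace Cfsg.Agent.Lib.Helper50.STA

open Cfsg.Agent.Lib.Helper50.STB

variable {F V : Type*} [Field F] [AddCommGroup V] [Module F V]

theorem exists_basis_of_oppA [FiniteDimensional F V] (n : ℕ) (hV : Module.finrank F V = n)
    {c d : ℕ → Submodule F V} (hc : IsCh (triv F V) n c) (hd : IsCh (triv F V) n d)
    (h : OppA n c d) :
    ∃ b : Fin n → V, LinearIndependent F b ∧ flagOf n b = c ∧ flagOf n (b ∘ Fin.rev) = d := by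
  have hE : ∀ i : Fin n, ∃ v, v ∈ c (i.val + 1) ⊓ d (n - i.val) ∧ v ≠ 0 := by
    intro i
    have hi := i.2
    apply Submodule.exists_mem_ne_zero_of_ne_bot
    intro h0
    have h1 := Submodule.finrank_sup_add_finrank_inf_eq (c (i.val + 1)) (d (n - i.val))
    rw [h0, finrank_bot, hc.finrank (by omega), hd.finrank (by omega)] at h1
    have h2 := Submodule.finrank_le (c (i.val + 1) ⊔ d (n - i.val))
    rw [hV] at h2
    omega
  choose b hb hb0 using hE
  have hbc : ∀ i : Fin n, b i ∉ c i.val := by
    intro i hi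
    have hi' := i.2
    have : b i ∈ c i.val ⊓ d (n - i.val) := ⟨hi, (hb i).2⟩
    rw [h i.val (n - i.val) (by omega)] at this
    exact hb0 i ((Submodule.mem_bot F).1 this)
  have hbd : ∀ i : Fin n, b i ∉ d (n - i.val - 1) := by
    intro i hi
    have hi' := i.2
    have : b i ∈ c (i.val + 1) ⊓ d (n - i.val - 1) := ⟨(hb i).1, hi⟩
    rw [h (i.val + 1) (n - i.val - 1) (by omega)] at this
    exact hb0 i ((Submodule.mem_bot F).1 this)
  have e1 : flagOf n b = c := flagOf_eq hc b (fun i => ⟨(hb i).1, hbc i⟩)
  have e2 : flagOf n (b ∘ Fin.rev) = d := by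
    apply flagOf_eq hd
    intro i
    have hi' := i.2
    have hr : (Fin.rev i).val = n - (i.val + 1) := Fin.val_rev i
    constructor
    · have := (hb (Fin.rev i)).2
      rw [hr, show n - (n - (i.val + 1)) = i.val + 1 by omega] at this
      exact this
    · have := hbd (Fin.rev i)
      rw [hr, show n - (n - (i.val + 1)) - 1 = i.val by omega] at this
      exact this
  refine ⟨b, ?_, e1, e2⟩
  apply linearIndependent_of_top_le_span_of_card_eq_finrank
  · have h1 : flagOf (F := F) n b n = Submodule.span F (Set.range b) := by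
      rw [flagOf_of_le _ _ _ le_rfl]
      congr 1
      ext v
      simp
    have h2 : c n = ⊤ := Submodule.eq_top_of_finrank_eq (by rw [hc.finrank le_rfl, hV])
    rw [← h1, e1, h2]
  · simp [hV]

end Cfsg.Agent.Lib.Helper50.STA
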