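import Cfsg.Agent.Lib.Helper50.STBFib

/-!
# STB ladder: the number of chambers opposite a given chamber
-/

set_option autoImplicit false

namespace Cfsg.Agent.Lib.Helper50.STB

variable {F V : Type*} [Field F] [AddCommGroup V] [Module F V]

theorem inf_line_eq_bot (P : Polar F V) [FiniteDimensional F V] {m : ℕ} {c : ℕ → Submodule F V}
    (hc : IsCh P m c) {j : ℕ} (hj : j < m) {X : Submodule F V} (hX : Module.finrank F X = j)
    (h : c j ⊓ P.orth X = ⊥) : X ⊓ (c (j + 1) ⊓ P.orth X) = ⊥ := by
  have h1 : X ⊓ P.orth (c j) = ⊥ := inf_orth_comm P (by rw [hc.finrank (by omega), hX]) h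
  rw [eq_bot_iff, ← h1]
  apply inf_le_inf_left
  refine inf_le_left.trans ((hc.ts (by omega)).2.trans (orth_anti P ?_))
  exact hc.mono (Nat.le_succ j) (by omega)

theorem card_step (P : Polar F V) [Finite F] [FiniteDimensional F V] (N₀ : ℕ) (hP : PolarCount P N₀)
    {m : ℕ} {c : ℕ → Submodule F V} (hc : IsCh P m c) {j : ℕ} (hj : j < m) {X : Submodule F V}
    (hX : Module.finrank F X = j) (hXTS : P.TS X) (h : c j ⊓ P.orth X = ⊥) :
    Nat.card {W : Submodule F V // X ≤ W ∧ Module.finrank F W = j + 1 ∧ P.TS W ∧
        c (j + 1) ⊓ P.orth W = ⊥} * Nat.card F ^ (2 * j + 2)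
      = Nat.card F ^ Module.finrank F V * N₀ := by
  have hL1 := finrank_line P hc hj hX h
  obtain ⟨y, hy, hy0⟩ : ∃ y, y ∈ c (j + 1) ⊓ P.orth X ∧ y ≠ 0 := by
    apply Submodule.exists_mem_ne_zero_of_ne_bot
    intro h0
    rw [h0, finrank_bot] at hL1
    omega
  have hspan : Submodule.span F {y} = c (j + 1) ⊓ P.orth X := by
    apply Submodule.eq_of_le_of_finrank_le
    · rw [Submodule.span_singleton_le_iff_mem]; exact hy
    · rw [hL1, finrank_span_singleton hy0]
  have hyX : y ∉ X := by
    intro hyX
    have : y ∈ X ⊓ (c (j + 1) ⊓ P.orth X) := ⟨hyX, hy⟩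
    rw [inf_line_eq_bot P hc hj hX h] at this
    exact hy0 ((Submodule.mem_bot F).1 this)
  rw [← card_fib P N₀ hP X j hXTS hX y ((hc.ts (by omega)).1 y hy.1) hy.2 hyX]
  congr 1
  apply Nat.card_congr
  apply Equiv.subtypeEquivRight
  intro W
  constructor
  · rintro ⟨h1, h2, h3, h4⟩
    refine ⟨h1, h2, h3, ?_⟩
    intro hW
    have : y ∈ c (j + 1) ⊓ P.orth W :=
      ⟨hy.1, (mem_orth P W y).2 (fun x hx => P.symm (hW hx))⟩
    rw [h4] at this
    exact hy0 ((Submodule.mem_bot F).1 this)
  · rintro ⟨h1, h2, h3, h4⟩
    refine ⟨h1, h2, h3, ?_⟩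
    by_contra hne
    obtain ⟨v, hv, hv0⟩ := Submodule.exists_mem_ne_zero_of_ne_bot hne
    have hvL : v ∈ Submodule.span F {y} := by
      rw [hspan]
      exact ⟨hv.1, orth_anti P h1 hv.2⟩
    obtain ⟨a, rfl⟩ := Submodule.mem_span_singleton.1 hvL
    have ha : a ≠ 0 := by rintro rfl; simp at hv0
    apply h4
    intro x hx
    apply P.symm
    have h5 := (mem_orth P W _).1 hv.2 x hx
    have := Submodule.smul_mem _ a⁻¹ h5
    rwa [smul_smul, inv_mul_cancel₀ ha, one_smul] at this

theorem card_opp_aux (P : Polar F V) [Finite F] [FiniteDimensional F V] (N₀ : ℕ)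
    (hP : PolarCount P N₀) (m : ℕ) (c : ℕ → Submodule F V) (hc : IsCh P m c) (j : ℕ) (hj : j ≤ m) :
    Nat.card {d : Ch P j // Opp P j c d.1} * Nat.card F ^ (j * (j + 1))
      = Nat.card F ^ (Module.finrank F V * j) * N₀ ^ j := by
  classical
  have hfinV : Finite V := Module.finite_of_finite F
  have hfinS : Finite (Submodule F V) := Finite.of_injective (fun X : Submodule F V => (X : Set V))
    SetLike.coe_injective
  induction j with
  | zero =>
    have hw : IsCh P 0 (fun k => if k = 0 then (⊥ : Submodule F V) else ⊤) := by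
      refine ⟨?_, ?_, ?_, ?_⟩
      · intro k hk
        have : k = 0 := by omega
        subst this
        simp
      · intro k hk; omega
      · simp only [if_true]; exact TS_bot P
      · intro k hk
        show (if k = 0 then (⊥ : Submodule F V) else ⊤) = ⊤
        rw [if_neg (by omega)]
    have : Nat.card {d : Ch P 0 // Opp P 0 c d.1} = 1 := by
      rw [Nat.card_eq_one_iff_unique]
      refine ⟨⟨?_⟩, ⟨⟨⟨_, hw⟩, ?_⟩⟩⟩
      · rintro ⟨d, hd⟩ ⟨d', hd'⟩
        apply Subtype.ext
        apply Subtype.ext
        apply d.2.ext d'.2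
        intro k hk
        have : k = 0 := by omega
        subst this
        rw [d.2.zero, d'.2.zero]
      · intro k hk
        have : k = 0 := by omega
        subst this
        rw [hc.zero, bot_inf_eq]
    rw [this]; simp
  | succ j ih =>
    have hj' : j < m := by omega
    have ih' := ih (by omega)
    set q := Nat.card F with hq
    have hqpos : 0 < q := Nat.card_pos
    set a := q ^ Module.finrank F V * N₀ / q ^ (2 * j + 2) with ha
    have hfib : ∀ d : Ch P j, Opp P j c d.1 →
        Nat.card {W : Submodule F V // d.1 j ≤ W ∧ Module.finrank F W = j + 1 ∧ P.TS W ∧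
          c (j + 1) ⊓ P.orth W = ⊥} = a := by
      intro d hd
      have := card_step P N₀ hP hc hj' (d.2.finrank le_rfl) (d.2.ts le_rfl) (hd j le_rfl)
      rw [ha, ← this, Nat.mul_div_cancel _ (pow_pos hqpos _)]
    have hcard : Nat.card {d : Ch P (j + 1) // Opp P (j + 1) c d.1}
        = Nat.card {d : Ch P j // Opp P j c d.1} * a := by
      rw [← card_pairs (fun d : Ch P j => Opp P j c d.1)
        (fun d (W : Submodule F V) => d.1 j ≤ W ∧ Module.finrank F W = j + 1 ∧ P.TS W ∧
          c (j + 1) ⊓ P.orth W = ⊥) a hfib]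
      apply Nat.card_congr
      refine
        { toFun := fun d => ⟨(⟨Function.update d.1.1 (j + 1) ⊤, ?_⟩, d.1.1 (j + 1)), ?_, ?_, ?_, ?_, ?_⟩
          invFun := fun x => ⟨⟨Function.update x.1.1.1 (j + 1) x.1.2, ?_⟩, ?_⟩
          left_inv := ?_
          right_inv := ?_ }
      · refine ⟨?_, ?_, ?_, ?_⟩
        · intro k hk
          rw [Function.update_of_ne (by omega)]
          exact d.1.2.finrank (by omega)
        · intro k hk
          rw [Function.update_of_ne (by omega), Function.update_of_ne (by omega)]
          exact d.1.2.2.1 k (by omega)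
        · rw [Function.update_of_ne (by omega)]
          exact d.1.2.ts (by omega)
        · intro k hk
          by_cases hk' : k = j + 1
          · rw [hk', Function.update_self]
          · rw [Function.update_of_ne hk']
            exact d.1.2.2.2.2 k (by omega)
      · intro k hk
        simp only
        rw [Function.update_of_ne (by omega)]
        exact d.2 k (by omega)
      · simp only
        rw [Function.update_of_ne (by omega)]
        exact d.1.2.2.1 j (by omega)
      · exact d.1.2.finrank le_rfl
      · exact d.1.2.ts le_rfl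
      · exact d.2 (j + 1) le_rfl
      · refine ⟨?_, ?_, ?_, ?_⟩
        · intro k hk
          by_cases hk' : k = j + 1
          · rw [hk', Function.update_self]; exact x.2.2.2.1
          · rw [Function.update_of_ne hk']
            exact x.1.1.2.finrank (by omega)
        · intro k hk
          by_cases hk' : k = j
          · rw [hk', Function.update_self, Function.update_of_ne (by omega)]
            exact x.2.2.1
          · rw [Function.update_of_ne (by omega), Function.update_of_ne (by omega)]
            exact x.1.1.2.2.1 k (by omega)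
        · rw [Function.update_self]; exact x.2.2.2.2.1
        · intro k hk
          rw [Function.update_of_ne (by omega)]
          exact x.1.1.2.2.2.2 k (by omega)
      · intro k hk
        simp only
        by_cases hk' : k = j + 1
        · rw [hk', Function.update_self]; exact x.2.2.2.2.2
        · rw [Function.update_of_ne hk']
          exact x.2.1 k (by omega)
      · rintro ⟨⟨d, hd⟩, hd'⟩
        apply Subtype.ext
        apply Subtype.ext
        simp
      · rintro ⟨⟨⟨d, hd⟩, W⟩, hx⟩
        apply Subtype.ext
        apply Prod.ext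
        · apply Subtype.ext
          simp only [Function.update_idem]
          funext k
          by_cases hk' : k = j + 1
          · rw [hk', Function.update_self, hd.2.2.2 (j + 1) (by omega)]
          · rw [Function.update_of_ne hk']
        · simp
    -- there is at least one opposite chamber of rank j or the count is zero: use a * K = C
    have haK : Nat.card {d : Ch P j // Opp P j c d.1} * (a * q ^ (2 * j + 2))
        = Nat.card {d : Ch P j // Opp P j c d.1} * (q ^ Module.finrank F V * N₀) := by
      rcases Nat.eq_zero_or_pos (Nat.card {d : Ch P j // Opp P j c d.1}) with h0 | hpos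
      · rw [h0]; simp
      · have : Nonempty {d : Ch P j // Opp P j c d.1} := (Nat.card_pos_iff.1 hpos).1
        obtain ⟨d, hd⟩ := this
        rw [← hfib d hd, card_step P N₀ hP hc hj' (d.2.finrank le_rfl) (d.2.ts le_rfl) (hd j le_rfl)]
    rw [hcard]
    calc Nat.card {d : Ch P j // Opp P j c d.1} * a * q ^ ((j + 1) * (j + 1 + 1))
        = (Nat.card {d : Ch P j // Opp P j c d.1} * (a * q ^ (2 * j + 2))) * q ^ (j * (j + 1)) := by
          rw [show (j + 1) * (j + 1 + 1) = (2 * j + 2) + j * (j + 1) by ring, pow_add]; ring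
      _ = (Nat.card {d : Ch P j // Opp P j c d.1} * q ^ (j * (j + 1)))
            * (q ^ Module.finrank F V * N₀) := by rw [haK]; ring
      _ = q ^ (Module.finrank F V * (j + 1)) * N₀ ^ (j + 1) := by
          rw [ih', mul_add, pow_add, pow_succ]; ring

theorem card_opp (P : Polar F V) [Finite F] [FiniteDimensional F V] (N₀ : ℕ) (hP : PolarCount P N₀)
    (m : ℕ) (c : ℕ → Submodule F V) (hc : IsCh P m c) :
    Nat.card {d : Ch P m // Opp P m c d.1} * Nat.card F ^ (m * (m + 1))
      = Nat.card F ^ (Module.finrank F V * m) * N₀ ^ m :=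
  card_opp_aux P N₀ hP m c hc m le_rfl

end Cfsg.Agent.Lib.Helper50.STB
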