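import Cfsg.Agent.Lib.Helper50.STADet
import Cfsg.Agent.Lib.Helper50.STAApt
import Cfsg.Agent.Lib.Helper50.STALines
import Cfsg.Agent.Lib.Helper50.STAFT
import Cfsg.Agent.Lib.Helper72.STACnt

/-!
# STA ladder: the main theorem
-/

set_option autoImplicit false

namespace Cfsg.Agent.Lib.Helper50.STA

open Cfsg.Agent.Lib.Helper50.STB

theorem oppA_map {F V : Type*} [Field F] [AddCommGroup V] [Module F V] (n : ℕ) (T : V ≃ₗ[F] V)
    {c d : ℕ → Submodule F V} (h : OppA n c d) :
    OppA n (fun k => (c k).map T.toLinearMap) (fun k => (d k).map T.toLinearMap) := by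
  intro j k hjk
  simp only
  rw [← Submodule.map_inf _ T.injective, h j k hjk, Submodule.map_bot]

theorem mainA (n : ℕ) (F : Type*) [Field F] [Finite F] :
    ∃ χ : Matrix.ProjectiveSpecialLinearGroup (Fin n) F → ℂ,
      Cfsg.IsIrrCharacter (Matrix.ProjectiveSpecialLinearGroup (Fin n) F) χ ∧
      χ 1 = ((Nat.card F ^ (∑ i ∈ Finset.range n, i) : ℕ) : ℂ) := by
  classical
  have : Fintype F := Fintype.ofFinite F
  have hV : Module.finrank F (Fin n → F) = n := by simp
  set P := triv F (Fin n → F) with hP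
  set ρ := rhoSL n F with hρdef
  have hρ : Pres P ρ := pres_triv ρ
  obtain ⟨φ₀, hφ₀⟩ := exists_chPerm P n ρ hρ
  set N := Subgroup.center (Matrix.SpecialLinearGroup (Fin n) F) with hN
  have hsc : ∀ z ∈ N, ∃ a : F, ∀ v, ρ z v = a • v := by
    intro z hz
    obtain ⟨r, -, hr⟩ := Matrix.SpecialLinearGroup.mem_center_iff.1 hz
    refine ⟨r, fun v => ?_⟩
    rw [hρdef, rhoSL_apply, ← hr]
    simp
  have hker : N ≤ φ₀.ker := by
    intro z hz
    obtain ⟨a, ha⟩ := hsc z hz
    rw [MonoidHom.mem_ker]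
    ext d : 1
    apply Subtype.ext
    funext k
    rw [hφ₀]
    show _ = d.1 k
    apply le_antisymm
    · rintro _ ⟨v, hv, rfl⟩
      show ρ z v ∈ d.1 k
      rw [ha]
      exact Submodule.smul_mem _ _ hv
    · intro v hv
      obtain ⟨b, hb⟩ := hsc z⁻¹ (inv_mem hz)
      refine ⟨b • v, Submodule.smul_mem _ _ hv, ?_⟩
      show ρ z (b • v) = v
      rw [← hb, ← LinearEquiv.mul_apply, ← map_mul, mul_inv_cancel, map_one]
      rfl
  set φ : Matrix.SpecialLinearGroup (Fin n) F ⧸ N →* Equiv.Perm (Ch P n) :=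
    QuotientGroup.lift N φ₀ hker with hφ
  have hφmk : ∀ g : Matrix.SpecialLinearGroup (Fin n) F, φ (QuotientGroup.mk g) = φ₀ g :=
    fun g => rfl
  set b : Fin n → (Fin n → F) := fun i => Pi.single i 1 with hb
  have hli : LinearIndependent F b := by
    have h := (Pi.basisFun F (Fin n)).linearIndependent
    have e : ⇑(Pi.basisFun F (Fin n)) = b := by
      funext i
      rw [Pi.basisFun_apply]
    rwa [e] at h
  have hb0 : ∀ i, b i ≠ 0 := fun i => hli.ne_zero i
  have hliσ : ∀ σ : Equiv.Perm (Fin n), LinearIndependent F (b ∘ σ) :=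
    fun σ => hli.comp σ σ.injective
  set c : Ch P n := ⟨flagOf n b, isChA_flagOf n b hli⟩ with hc
  obtain ⟨ι, hι1, hι2, hι3⟩ := exists_involA (F := F) n b
  set fl : Equiv.Perm (Fin n) → Ch P n := fun σ => ⟨flagOf n (b ∘ σ), isChA_flagOf n _ (hliσ σ)⟩
    with hfl
  have key := Cfsg.Agent.Lib.Helper72.STB.steinberg_abstract
    (G := Matrix.SpecialLinearGroup (Fin n) F ⧸ N) (Ω := Ch P n) (I := Fin (n - 1))
    (A := Equiv.Perm (Fin n)) φ
    (fun i d d' => ∀ j, j ≠ i.val + 1 → d.1 j = d'.1 j)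
    (fun i => ⟨fun _ _ _ => rfl, fun h j hj => (h j hj).symm,
      fun h h' j hj => (h j hj).trans (h' j hj)⟩)
    (by
      intro g i x y h j hj
      induction g using QuotientGroup.induction_on with | _ g =>
      rw [hφmk, hφ₀, hφ₀, h j hj])
    c {d | OppA n c.1 d.1}
    (by
      intro Z hZ h0 x
      have := detA n hV c.1 c.2 (fun d => ∀ hd : IsCh P n d, Z ⟨d, hd⟩)
        (by
          intro d hd k hk1 hk h hd'
          apply hZ ⟨d, hd'⟩ ⟨k - 1, by omega⟩
          intro d' hadj hne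
          apply h d'.1 d'.2
          · intro j hj
            exact (hadj j (by simp only; omega)).symm
          · intro h'
            exact hne (Subtype.ext h'))
        (by
          intro d hd ho hd'
          exact h0 _ ho)
      exact this x.1 x.2 x.2)
    (by
      intro g hg x hx
      induction g using QuotientGroup.induction_on with | _ g =>
      rw [hφmk] at hg ⊢
      have h1 := oppA_map n (ρ g) hx
      have h2 : (fun k => (c.1 k).map (ρ g).toLinearMap) = c.1 := by
        funext k; rw [← hφ₀, hg]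
      have h3 : (fun k => (x.1 k).map (ρ g).toLinearMap) = (φ₀ g x).1 := by
        funext k; rw [← hφ₀]
      rw [h2, h3] at h1
      exact h1)
    fl Equiv.Perm.sign ι hι1 hι2
    (by
      intro i a j hj
      exact (hι3 i a j hj).symm)
    Fin.revPerm
    (oppA_rev n b hli)
    (by
      intro a ha
      exact eq_of_oppA n b hli a ha)
    (by
      intro x hx
      obtain ⟨b', hli', h1, h2⟩ := exists_basis_of_oppA n hV c.2 x.2 hx
      obtain ⟨g, hg⟩ := sl_ft n F b b' hli hli'
      refine ⟨QuotientGroup.mk g, ?_, ?_⟩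
      · rw [hφmk]
        apply Subtype.ext
        funext k
        rw [hφ₀]
        show (flagOf n b k).map _ = flagOf n b k
        rw [flagOf_map n b b' (ρ g) hb0 hg k, h1]
      · rw [hφmk]
        apply Subtype.ext
        funext k
        rw [hφ₀]
        show (flagOf n (b ∘ Fin.rev) k).map _ = x.1 k
        rw [flagOf_map n (b ∘ Fin.rev) (b' ∘ Fin.rev) (ρ g) (fun i => hb0 _) (fun i => hg _) k, h2])
    (by
      obtain ⟨g, hg⟩ := sl_ft n F b (b ∘ Fin.rev) hli (hliσ Fin.revPerm)
      refine ⟨QuotientGroup.mk g, ?_⟩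
      rw [hφmk]
      apply Subtype.ext
      funext k
      rw [hφ₀]
      show (flagOf n b k).map _ = flagOf n (b ∘ Fin.rev) k
      rw [flagOf_map n b (b ∘ Fin.rev) (ρ g) hb0 hg k])
  obtain ⟨χ, hχ, h1⟩ := key
  refine ⟨χ, hχ, ?_⟩
  rw [h1]
  congr 1
  exact Cfsg.Agent.Lib.Helper72.STA.card_oppA n hV c.1 c.2

end Cfsg.Agent.Lib.Helper50.STA
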