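import Cfsg.Agent.Lib.Helper50.STBApt

/-!
# STB ladder: the action on chambers
-/

set_option autoImplicit false

namespace Cfsg.Agent.Lib.Helper50.STB

variable {F V : Type*} [Field F] [AddCommGroup V] [Module F V]

theorem orth_map (P : Polar F V) {G : Type*} [Group G] (ρ : G →* (V ≃ₗ[F] V)) (hρ : Pres P ρ)
    (g : G) (X : Submodule F V) :
    P.orth (X.map (ρ g).toLinearMap) = (P.orth X).map (ρ g).toLinearMap := by
  have hinv : ∀ v, ρ g⁻¹ (ρ g v) = v := by
    intro v
    rw [← LinearEquiv.mul_apply, ← map_mul, inv_mul_cancel, map_one]; rfl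
  have hinv' : ∀ v, ρ g (ρ g⁻¹ v) = v := by
    intro v
    rw [← LinearEquiv.mul_apply, ← map_mul, mul_inv_cancel, map_one]; rfl
  ext y
  constructor
  · intro hy
    refine ⟨ρ g⁻¹ y, ?_, hinv' y⟩
    rw [SetLike.mem_coe, mem_orth]
    intro x hx
    have h1 := (mem_orth P _ y).1 hy (ρ g x) ⟨x, hx, rfl⟩
    have h2 := hρ.perp g⁻¹ h1
    rwa [hinv] at h2
  · rintro ⟨z, hz, rfl⟩
    rw [mem_orth]
    rintro _ ⟨x, hx, rfl⟩
    exact hρ.perp g ((mem_orth P X z).1 hz x hx)

theorem TS_map (P : Polar F V) {G : Type*} [Group G] (ρ : G →* (V ≃ₗ[F] V)) (hρ : Pres P ρ)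
    (g : G) {X : Submodule F V} (hX : P.TS X) : P.TS (X.map (ρ g).toLinearMap) := by
  constructor
  · rintro _ ⟨x, hx, rfl⟩
    exact hρ.sing g (hX.1 x hx)
  · rw [orth_map P ρ hρ]
    exact Submodule.map_mono hX.2

theorem isCh_map (P : Polar F V) (m : ℕ) {G : Type*} [Group G] (ρ : G →* (V ≃ₗ[F] V))
    (hρ : Pres P ρ) (g : G) {w : ℕ → Submodule F V} (hw : IsCh P m w) :
    IsCh P m (fun k => (w k).map (ρ g).toLinearMap) := by
  refine ⟨?_, ?_, ?_, ?_⟩
  · intro k hk
    exact (LinearEquiv.finrank_map_eq (ρ g) (w k)).trans (hw.1 k hk)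
  · intro k hk
    exact Submodule.map_mono (hw.2.1 k hk)
  · exact TS_map P ρ hρ g hw.2.2.1
  · intro k hk
    simp only [hw.2.2.2 k hk]
    rw [Submodule.map_top]
    exact LinearMap.range_eq_top.2 (ρ g).surjective

/-- the action on chambers -/
theorem exists_chPerm (P : Polar F V) (m : ℕ) {G : Type*} [Group G] (ρ : G →* (V ≃ₗ[F] V))
    (hρ : Pres P ρ) :
    ∃ φ : G →* Equiv.Perm (Ch P m), ∀ g d k, (φ g d).1 k = (d.1 k).map (ρ g).toLinearMap := by
  let act : G → Ch P m → Ch P m := fun g d => ⟨_, isCh_map P m ρ hρ g d.2⟩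
  have hone : ∀ d, act 1 d = d := by
    intro d
    apply Subtype.ext
    funext k
    show (d.1 k).map (ρ 1).toLinearMap = d.1 k
    rw [map_one]
    exact Submodule.map_id _
  have hmul : ∀ g h d, act (g * h) d = act g (act h d) := by
    intro g h d
    apply Subtype.ext
    funext k
    show (d.1 k).map (ρ (g * h)).toLinearMap = ((d.1 k).map (ρ h).toLinearMap).map (ρ g).toLinearMap
    rw [map_mul, ← Submodule.map_comp]
    rfl
  refine ⟨{ toFun := fun g => ⟨act g, act g⁻¹, fun d => by rw [← hmul, inv_mul_cancel, hone],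
              fun d => by rw [← hmul, mul_inv_cancel, hone]⟩
            map_one' := by ext d : 1; exact hone d
            map_mul' := by intro g h; ext d : 1; exact hmul g h d }, ?_⟩
  intro g d k
  rfl

theorem opp_map (P : Polar F V) (m : ℕ) {G : Type*} [Group G] (ρ : G →* (V ≃ₗ[F] V))
    (hρ : Pres P ρ) (g : G) {c d : ℕ → Submodule F V} (h : Opp P m c d) :
    Opp P m (fun k => (c k).map (ρ g).toLinearMap) (fun k => (d k).map (ρ g).toLinearMap) := by
  intro k hk
  simp only
  rw [orth_map P ρ hρ, ← Submodule.map_inf _ (ρ g).injective, h k hk, Submodule.map_bot]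

theorem flagOf_map (m : ℕ) (b b' : Fin m → V) (T : V ≃ₗ[F] V) (hb : ∀ i, b i ≠ 0)
    (h : ∀ i, T (b i) ∈ Submodule.span F {b' i}) (k : ℕ) :
    (flagOf (F := F) m b k).map T.toLinearMap = flagOf m b' k := by
  by_cases hk : k ≤ m
  · rw [flagOf_of_le _ _ _ hk, flagOf_of_le _ _ _ hk, Submodule.map_span]
    apply le_antisymm
    · rw [Submodule.span_le]
      rintro _ ⟨_, ⟨i, hi, rfl⟩, rfl⟩
      have : Submodule.span F {b' i} ≤ Submodule.span F (b' '' {i | i.val < k}) := by
        rw [Submodule.span_singleton_le_iff_mem]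
        exact Submodule.subset_span ⟨i, hi, rfl⟩
      exact this (h i)
    · rw [Submodule.span_le]
      rintro _ ⟨i, hi, rfl⟩
      obtain ⟨a, ha⟩ := Submodule.mem_span_singleton.1 (h i)
      have ha0 : a ≠ 0 := by
        rintro rfl
        rw [zero_smul] at ha
        exact hb i (T.map_eq_zero_iff.1 ha.symm)
      have e : b' i = a⁻¹ • T (b i) := by
        rw [← ha, smul_smul, inv_mul_cancel₀ ha0, one_smul]
      rw [e]
      apply Submodule.smul_mem
      exact Submodule.subset_span ⟨b i, ⟨i, hi, rfl⟩, rfl⟩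
  · unfold flagOf
    rw [if_neg hk, if_neg hk, Submodule.map_top]
    exact LinearMap.range_eq_top.2 T.surjective

end Cfsg.Agent.Lib.Helper50.STB
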