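import Cfsg.Agent.Lib.Helper50.STBLines

/-!
# STB ladder: the apartment of a frame
-/

set_option autoImplicit false

namespace Cfsg.Agent.Lib.Helper50.STB

variable {F V : Type*} [Field F] [AddCommGroup V] [Module F V]

theorem flagOf_succ (m : ℕ) (b : Fin m → V) (k : ℕ) (hk : k < m) :
    flagOf (F := F) m b (k + 1) = flagOf m b k ⊔ Submodule.span F {b ⟨k, hk⟩} := by
  unfold flagOf
  rw [if_pos (by omega), if_pos (by omega)]
  have e : {i : Fin m | i.val < k + 1} = {i : Fin m | i.val < k} ∪ {⟨k, hk⟩} := by
    ext i
    simp only [Set.mem_ofPred_eq, Set.mem_union, Set.mem_singleton_iff, Fin.ext_iff]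
    omega
  rw [e, Set.image_union, Submodule.span_union, Set.image_singleton]

theorem flagOf_of_le (m : ℕ) (b : Fin m → V) (k : ℕ) (hk : k ≤ m) :
    flagOf (F := F) m b k = Submodule.span F (b '' {i | i.val < k}) := by
  unfold flagOf; rw [if_pos hk]

theorem isCh_flagOf (P : Polar F V) (m : ℕ) (b : Fin m → V) (hli : LinearIndependent F b)
    (hs : ∀ i, P.sing (b i)) (hp : ∀ i j, b j ∈ P.perp (b i)) : IsCh P m (flagOf m b) := by
  refine ⟨?_, ?_, ?_, ?_⟩
  · intro k hk
    induction k with
    | zero =>
      rw [flagOf_of_le m b 0 hk]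
      have : {i : Fin m | i.val < 0} = ∅ := by ext i; simp
      rw [this, Set.image_empty, Submodule.span_empty, finrank_bot]
    | succ k ih =>
      have hk' : k < m := by omega
      rw [flagOf_succ m b k hk']
      have h0 : b ⟨k, hk'⟩ ≠ 0 := hli.ne_zero _
      have : FiniteDimensional F (flagOf (F := F) m b k) := by
        rw [flagOf_of_le m b k (by omega)]
        exact FiniteDimensional.span_of_finite F (Set.toFinite _)
      have h1 := Submodule.finrank_sup_add_finrank_inf_eq (flagOf (F := F) m b k)
        (Submodule.span F {b ⟨k, hk'⟩})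
      have h2 : flagOf (F := F) m b k ⊓ Submodule.span F {b ⟨k, hk'⟩} = ⊥ := by
        rw [eq_bot_iff]
        rintro x ⟨hx1, hx2⟩
        obtain ⟨a, rfl⟩ := Submodule.mem_span_singleton.1 hx2
        by_cases ha : a = 0
        · simp [ha]
        · exfalso
          have h3 : b ⟨k, hk'⟩ ∉ Submodule.span F (b '' {i : Fin m | i.val < k}) :=
            hli.notMem_span_image (by simp)
          apply h3
          rw [← flagOf_of_le m b k (by omega)]
          have := Submodule.smul_mem _ a⁻¹ hx1
          rwa [smul_smul, inv_mul_cancel₀ ha, one_smul] at this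
      rw [h2, finrank_bot, finrank_span_singleton h0, ih (by omega)] at h1
      omega
  · intro k hk
    rw [flagOf_succ m b k hk]
    exact le_sup_left
  · rw [flagOf_of_le m b m le_rfl]
    apply TS_span
    · rintro _ ⟨i, -, rfl⟩; exact hs i
    · rintro _ ⟨i, -, rfl⟩ _ ⟨j, -, rfl⟩; exact hp i j
  · intro k hk
    unfold flagOf
    rw [if_neg (by omega)]

theorem isCh_vec {P : Polar F V} {m : ℕ} (Φ : Frame P m) (a : Equiv.Perm (Fin m) × (Fin m → Bool)) :
    IsCh P m (flagOf m (Φ.vec a)) := by
  apply isCh_flagOf
  · have e : Φ.vec a = Sum.elim Φ.e Φ.f ∘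
        (fun i => if a.2 i then Sum.inr (a.1 i) else Sum.inl (a.1 i)) := by
      funext i
      unfold Frame.vec
      by_cases h : a.2 i <;> simp [h]
    rw [e]
    apply Φ.linearIndependent.comp
    intro i j hij
    simp only at hij
    by_cases hi : a.2 i <;> by_cases hj : a.2 j <;> simp [hi, hj] at hij <;> exact hij
  · intro i
    unfold Frame.vec
    by_cases h : a.2 i
    · simp only [h, if_true]; exact Φ.sing_f _
    · simp only [h]; exact Φ.sing_e _
  · intro i j
    unfold Frame.vec
    by_cases hi : a.2 i <;> by_cases hj : a.2 j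
    · simp only [hi, hj, if_true]; exact Φ.ff _ _
    · simp only [hi, hj, if_true]
      apply P.symm
      apply Φ.ef
      intro h
      have := a.1.injective h
      subst this
      exact hj hi
    · simp only [hi, hj, if_true]
      apply Φ.ef
      intro h
      have := a.1.injective h
      subst this
      exact hi hj
    · simp only [hi, hj]; exact Φ.ee _ _

theorem Frame.e_ne {P : Polar F V} {m : ℕ} (Φ : Frame P m) (i : Fin m) : Φ.e i ≠ 0 := by
  intro h
  apply Φ.ne i
  rw [h]
  exact P.symm (Submodule.zero_mem _)

theorem Frame.f_ne {P : Polar F V} {m : ℕ} (Φ : Frame P m) (i : Fin m) : Φ.f i ≠ 0 := by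
  intro h
  apply Φ.ne i
  rw [h]
  exact Submodule.zero_mem _

theorem opp_frame {P : Polar F V} {m : ℕ} (Φ : Frame P m) :
    Opp P m (flagOf m Φ.e) (flagOf m Φ.f) := by
  intro k hk
  induction k with
  | zero => rw [flagOf_of_le m Φ.e 0 hk]; simp
  | succ k ih =>
    have hk' : k < m := by omega
    rw [eq_bot_iff]
    rintro v ⟨hv1, hv2⟩
    rw [← ih (by omega)]
    rw [flagOf_succ m Φ.e k hk'] at hv1
    rw [SetLike.mem_coe, flagOf_succ m Φ.f k hk', orth_sup, orth_span_singleton] at hv2
    obtain ⟨u, hu, w, hw, rfl⟩ := Submodule.mem_sup.1 hv1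
    obtain ⟨a, rfl⟩ := Submodule.mem_span_singleton.1 hw
    have hu' : u ∈ P.perp (Φ.f ⟨k, hk'⟩) := by
      have : flagOf (F := F) m Φ.e k ≤ P.perp (Φ.f ⟨k, hk'⟩) := by
        rw [flagOf_of_le m Φ.e k (by omega), Submodule.span_le]
        rintro _ ⟨i, hi, rfl⟩
        apply P.symm
        apply Φ.ef
        intro h
        rw [h] at hi
        simp at hi
      exact this hu
    have ha : a = 0 := by
      by_contra ha
      apply Φ.ne ⟨k, hk'⟩
      apply P.symm
      have h1 : a • Φ.e ⟨k, hk'⟩ ∈ P.perp (Φ.f ⟨k, hk'⟩) := by
        have := Submodule.sub_mem _ hv2.2 hu'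
        rwa [add_sub_cancel_left] at this
      have := Submodule.smul_mem _ a⁻¹ h1
      rwa [smul_smul, inv_mul_cancel₀ ha, one_smul] at this
    subst ha
    rw [zero_smul, add_zero] at hv2 ⊢
    exact ⟨hu, hv2.1⟩

theorem eq_of_opp_vec {P : Polar F V} {m : ℕ} (Φ : Frame P m)
    (a : Equiv.Perm (Fin m) × (Fin m → Bool)) (h : Opp P m (flagOf m Φ.e) (flagOf m (Φ.vec a))) :
    a = (1, fun _ => true) := by
  have key : ∀ (n : ℕ) (i : Fin m), i.val = n → a.1 i = i ∧ a.2 i = true := by
    intro n
    induction n using Nat.strong_induction_on with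
    | _ n ih =>
      intro i hi
      by_contra hcon
      have h1 : Φ.e i ∈ flagOf (F := F) m Φ.e (i.val + 1) ⊓ P.orth (flagOf m (Φ.vec a) (i.val + 1)) := by
        constructor
        · rw [flagOf_of_le m Φ.e _ (by omega)]
          exact Submodule.subset_span ⟨i, by simp, rfl⟩
        · rw [SetLike.mem_coe, flagOf_of_le m _ _ (by omega), orth_span]
          rintro _ ⟨t, ht, rfl⟩
          have ht' : t.val < i.val + 1 := ht
          by_cases hti : t = i
          · subst hti
            unfold Frame.vec
            by_cases h2 : a.2 t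
            · simp only [h2, if_true]
              apply P.symm
              apply Φ.ef
              intro h3
              exact hcon ⟨h3.symm, h2⟩
            · simp only [h2]
              exact Φ.ee _ _
          · have hlt : t.val < n := by
              have : t.val ≠ i.val := fun h => hti (Fin.ext h)
              omega
            obtain ⟨h3, h4⟩ := ih t.val hlt t rfl
            unfold Frame.vec
            simp only [h3, h4, if_true]
            apply P.symm
            apply Φ.ef
            exact fun h => hti h.symm
      rw [h (i.val + 1) (by omega)] at h1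
      exact Φ.e_ne i ((Submodule.mem_bot F).1 h1)
  apply Prod.ext
  · ext i
    rw [(key i.val i rfl).1]; rfl
  · funext i
    exact (key i.val i rfl).2

/-- the sign-reversing involutions of the apartment -/
theorem exists_invol {P : Polar F V} {m : ℕ} (Φ : Frame P m) :
    ∃ ι : Fin m → Equiv.Perm (Fin m) × (Fin m → Bool) → Equiv.Perm (Fin m) × (Fin m → Bool),
      (∀ i a, sgnA (ι i a) = - sgnA a) ∧ (∀ i a, ι i (ι i a) = a) ∧
      ∀ i a j, j ≠ i.val + 1 → flagOf (F := F) m (Φ.vec (ι i a)) j = flagOf m (Φ.vec a) j := by
  classical
  refine ⟨fun i a => if h : i.val + 1 < m then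
      (a.1 * Equiv.swap i ⟨i.val + 1, h⟩, a.2 ∘ Equiv.swap i ⟨i.val + 1, h⟩)
    else (a.1, Function.update a.2 i (! a.2 i)), ?_, ?_, ?_⟩
  · intro i a
    by_cases h : i.val + 1 < m
    · simp only [h, dif_pos]
      unfold sgnA
      have hne : i ≠ ⟨i.val + 1, h⟩ := by
        intro h'
        have := congrArg Fin.val h'
        simp at this
      simp only [Equiv.Perm.sign_mul, Equiv.Perm.sign_swap hne, Function.comp]
      rw [Equiv.prod_comp (Equiv.swap i ⟨i.val + 1, h⟩) (fun t => if a.2 t then (-1 : ℤˣ) else 1)]
      simp
    · simp only [h, dif_neg, not_false_eq_true]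
      unfold sgnA
      simp only
      have e : (fun t => if Function.update a.2 i (! a.2 i) t then (-1 : ℤˣ) else 1)
          = Function.update (fun t => if a.2 t then (-1 : ℤˣ) else 1) i
            (- (if a.2 i then (-1 : ℤˣ) else 1)) := by
        funext t
        by_cases ht : t = i
        · subst ht
          simp only [Function.update_self]
          by_cases h2 : a.2 t <;> simp [h2]
        · simp only [Function.update_of_ne ht]
      rw [e, Finset.prod_update_of_mem (Finset.mem_univ i),
        ← Finset.mul_prod_erase Finset.univ (fun t => if a.2 t then (-1 : ℤˣ) else 1)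
          (Finset.mem_univ i), Finset.sdiff_singleton_eq_erase]
      simp
  · intro i a
    by_cases h : i.val + 1 < m
    · simp only [h, dif_pos]
      apply Prod.ext
      · simp [mul_assoc]
      · funext t; simp
    · simp only [h, dif_neg, not_false_eq_true]
      apply Prod.ext
      · rfl
      · funext t
        by_cases ht : t = i
        · subst ht; simp
        · simp [Function.update_of_ne ht]
  · intro i a j hj
    by_cases hjm : j ≤ m
    · rw [flagOf_of_le _ _ _ hjm, flagOf_of_le _ _ _ hjm]
      by_cases h : i.val + 1 < m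
      · simp only [h, dif_pos]
        have e : Φ.vec (a.1 * Equiv.swap i ⟨i.val + 1, h⟩, a.2 ∘ Equiv.swap i ⟨i.val + 1, h⟩)
            = Φ.vec a ∘ Equiv.swap i ⟨i.val + 1, h⟩ := by
          funext t
          simp [Frame.vec]
        rw [e, Set.image_comp]
        congr 2
        ext t
        simp only [Set.mem_image, Set.mem_ofPred_eq]
        constructor
        · rintro ⟨s, hs, rfl⟩
          by_cases h1 : s = i
          · subst h1
            rw [Equiv.swap_apply_left]
            show s.val + 1 < j
            omega
          · by_cases h2 : s = ⟨i.val + 1, h⟩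
            · subst h2
              rw [Equiv.swap_apply_right]
              have : i.val + 1 < j := hs
              omega
            · rw [Equiv.swap_apply_of_ne_of_ne h1 h2]; exact hs
        · intro ht
          refine ⟨Equiv.swap i ⟨i.val + 1, h⟩ t, ?_, by simp⟩
          by_cases h1 : t = i
          · subst h1
            rw [Equiv.swap_apply_left]
            show t.val + 1 < j
            omega
          · by_cases h2 : t = ⟨i.val + 1, h⟩
            · subst h2
              rw [Equiv.swap_apply_right]
              have : i.val + 1 < j := ht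
              omega
            · rw [Equiv.swap_apply_of_ne_of_ne h1 h2]; exact ht
      · simp only [h, dif_neg, not_false_eq_true]
        congr 1
        apply Set.image_congr
        intro t ht
        have ht' : t.val < j := ht
        have hti : t ≠ i := by
          intro h'
          subst h'
          have := t.2
          omega
        simp [Frame.vec, Function.update_of_ne hti]
    · unfold flagOf
      rw [if_neg hjm, if_neg hjm]

end Cfsg.Agent.Lib.Helper50.STB
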