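import Cfsg.Agent.Lib.Helper50.STBDefs

/-!
# STB ladder: basic API
-/

set_option autoImplicit false

namespace Cfsg.Agent.Lib.Helper50.STB

variable {F V : Type*} [Field F] [AddCommGroup V] [Module F V]

theorem mem_orth (P : Polar F V) (X : Submodule F V) (y : V) :
    y ∈ P.orth X ↔ ∀ x ∈ X, y ∈ P.perp x := by
  simp [Polar.orth, Submodule.mem_iInf]

theorem orth_anti (P : Polar F V) {X Y : Submodule F V} (h : X ≤ Y) : P.orth Y ≤ P.orth X := by
  intro y hy
  rw [mem_orth] at hy ⊢
  exact fun x hx => hy x (h hx)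

theorem le_orth_comm (P : Polar F V) {X Y : Submodule F V} : X ≤ P.orth Y ↔ Y ≤ P.orth X := by
  constructor
  · intro h y hy
    rw [mem_orth]
    intro x hx
    exact P.symm ((mem_orth P Y x).1 (h hx) y hy)
  · intro h y hy
    rw [mem_orth]
    intro x hx
    exact P.symm ((mem_orth P X x).1 (h hx) y hy)

theorem orth_sup (P : Polar F V) (X Y : Submodule F V) :
    P.orth (X ⊔ Y) = P.orth X ⊓ P.orth Y := by
  apply le_antisymm
  · exact le_inf (orth_anti P le_sup_left) (orth_anti P le_sup_right)
  · rw [le_orth_comm]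
    apply sup_le
    · rw [le_orth_comm]; exact inf_le_left
    · rw [le_orth_comm]; exact inf_le_right

theorem orth_span (P : Polar F V) (S : Set V) (y : V) :
    y ∈ P.orth (Submodule.span F S) ↔ ∀ x ∈ S, y ∈ P.perp x := by
  constructor
  · intro h x hx
    exact (mem_orth P _ y).1 h x (Submodule.subset_span hx)
  · intro h
    rw [mem_orth]
    intro x hx
    apply P.symm
    have : Submodule.span F S ≤ P.perp y := by
      rw [Submodule.span_le]
      intro z hz
      exact P.symm (h z hz)
    exact this hx

theorem orth_span_singleton (P : Polar F V) (x : V) : P.orth (Submodule.span F {x}) = P.perp x := by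
  ext y
  rw [orth_span]
  simp

theorem orth_bot (P : Polar F V) : P.orth ⊥ = ⊤ := by
  rw [eq_top_iff, le_orth_comm]; exact bot_le

/-- `dim (A ⊓ perp x) ≥ dim A - 1` -/
theorem finrank_inf_perp (P : Polar F V) [FiniteDimensional F V] (A : Submodule F V) (x : V) :
    Module.finrank F A ≤ Module.finrank F (A ⊓ P.perp x : Submodule F V) + 1 := by
  have h1 := Submodule.finrank_sup_add_finrank_inf_eq A (P.perp x)
  have h2 := P.codim x
  have h3 := Submodule.finrank_le (A ⊔ P.perp x)
  omega

/-- `dim (A ⊓ X^⊥) ≥ dim A - dim X` -/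
theorem finrank_inf_orth (P : Polar F V) [FiniteDimensional F V] (A X : Submodule F V) :
    Module.finrank F A ≤ Module.finrank F (A ⊓ P.orth X : Submodule F V) + Module.finrank F X := by
  induction hn : Module.finrank F X using Nat.strong_induction_on generalizing X A with
  | _ n ih =>
    by_cases hX : X = ⊥
    · subst hX
      rw [orth_bot, inf_top_eq]; omega
    · obtain ⟨x, hx, hx0⟩ := Submodule.exists_mem_ne_zero_of_ne_bot hX
      obtain ⟨X', hX'⟩ := Submodule.exists_isCompl (Submodule.comap X.subtype (Submodule.span F {x}))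
      -- work with X'' = image of X'
      set X'' : Submodule F V := X'.map X.subtype with hX''
      have hsup : Submodule.span F {x} ⊔ X'' = X := by
        have h1 := congrArg (Submodule.map X.subtype) hX'.sup_eq_top
        rw [Submodule.map_sup, Submodule.map_top, Submodule.range_subtype,
          Submodule.map_comap_subtype] at h1
        rw [← h1]
        congr 1
        apply le_antisymm
        · apply le_inf _ le_rfl
          rw [Submodule.span_singleton_le_iff_mem]; exact hx
        · exact inf_le_right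
      have hinf : Submodule.span F {x} ⊓ X'' = ⊥ := by
        rw [eq_bot_iff]
        rintro v ⟨hv1, hv2⟩
        obtain ⟨w, hw, rfl⟩ := hv2
        have : w ∈ Submodule.comap X.subtype (Submodule.span F {x}) ⊓ X' := ⟨hv1, hw⟩
        rw [hX'.inf_eq_bot] at this
        rw [(Submodule.mem_bot F).1 this]; simp
      have hdim : Module.finrank F X'' + 1 = n := by
        have h1 := Submodule.finrank_sup_add_finrank_inf_eq (Submodule.span F {x}) X''
        rw [hsup, hinf, finrank_bot, finrank_span_singleton hx0] at h1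
        omega
      have h2 := ih (Module.finrank F X'') (by omega) (A ⊓ P.perp x) X'' rfl
      have h3 := finrank_inf_perp P A x
      have h4 : A ⊓ P.orth X = A ⊓ P.perp x ⊓ P.orth X'' := by
        rw [← hsup, orth_sup, orth_span_singleton, inf_assoc]
      rw [h4]
      omega

theorem codim_orth (P : Polar F V) [FiniteDimensional F V] (X : Submodule F V) :
    Module.finrank F V ≤ Module.finrank F (P.orth X) + Module.finrank F X := by
  have := finrank_inf_orth P ⊤ X
  rwa [top_inf_eq, finrank_top] at this

/-- splitting off a vector of a subspace -/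
theorem exists_compl_span {X : Submodule F V} {x : V} (hx : x ∈ X) :
    ∃ X' : Submodule F V, Submodule.span F {x} ⊔ X' = X ∧ Submodule.span F {x} ⊓ X' = ⊥ := by
  obtain ⟨X', hX'⟩ := Submodule.exists_isCompl (Submodule.comap X.subtype (Submodule.span F {x}))
  refine ⟨X'.map X.subtype, ?_, ?_⟩
  · have h1 := congrArg (Submodule.map X.subtype) hX'.sup_eq_top
    rw [Submodule.map_sup, Submodule.map_top, Submodule.range_subtype,
      Submodule.map_comap_subtype] at h1
    have h2 : X ⊓ Submodule.span F {x} = Submodule.span F {x} := by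
      apply inf_eq_right.2
      rw [Submodule.span_singleton_le_iff_mem]; exact hx
    rw [h2] at h1
    exact h1
  · rw [eq_bot_iff]
    rintro v ⟨hv1, hv2⟩
    obtain ⟨w, hw, rfl⟩ := hv2
    have : w ∈ Submodule.comap X.subtype (Submodule.span F {x}) ⊓ X' := ⟨hv1, hw⟩
    rw [hX'.inf_eq_bot] at this
    rw [(Submodule.mem_bot F).1 this]; simp

/-- duality -/
theorem inf_orth_comm (P : Polar F V) [FiniteDimensional F V] {A X : Submodule F V}
    (hd : Module.finrank F A = Module.finrank F X) (h : A ⊓ P.orth X = ⊥) : X ⊓ P.orth A = ⊥ := by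
  by_contra hne
  obtain ⟨x, hx, hx0⟩ := Submodule.exists_mem_ne_zero_of_ne_bot hne
  obtain ⟨X', hsup, hinf⟩ := exists_compl_span hx.1
  have hdim : Module.finrank F X' + 1 = Module.finrank F X := by
    have h1 := Submodule.finrank_sup_add_finrank_inf_eq (Submodule.span F {x}) X'
    rw [hsup, hinf, finrank_bot, finrank_span_singleton hx0] at h1
    omega
  have hA : A ≤ P.perp x := by
    intro a ha
    exact P.symm ((mem_orth P A x).1 hx.2 a ha)
  have h4 : A ⊓ P.orth X = A ⊓ P.orth X' := by
    rw [← hsup, orth_sup, orth_span_singleton, ← inf_assoc, inf_eq_left.2 hA]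
  have h5 := finrank_inf_orth P A X'
  rw [← h4, h, finrank_bot] at h5
  omega

theorem finrank_orth (P : Polar F V) [FiniteDimensional F V]
    (hnd : ∀ x : V, (∀ y, y ∈ P.perp x) → x = 0) (X : Submodule F V) :
    Module.finrank F (P.orth X) + Module.finrank F X = Module.finrank F V := by
  apply le_antisymm _ (codim_orth P X)
  obtain ⟨X', hX'⟩ := Submodule.exists_isCompl X
  have h1 : P.orth X ⊓ P.orth X' = ⊥ := by
    rw [← orth_sup, hX'.sup_eq_top, eq_bot_iff]
    intro x hx
    rw [Submodule.mem_bot]
    apply hnd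
    intro y
    exact P.symm ((mem_orth P ⊤ x).1 hx y trivial)
  have h2 := Submodule.finrank_sup_add_finrank_inf_eq (P.orth X) (P.orth X')
  rw [h1, finrank_bot] at h2
  have h3 := Submodule.finrank_le (P.orth X ⊔ P.orth X')
  have h4 := codim_orth P X'
  have h5 := Submodule.finrank_add_eq_of_isCompl hX'
  omega

theorem Polar.TS.two_mul_finrank_le {P : Polar F V} [FiniteDimensional F V]
    (hnd : ∀ x : V, (∀ y, y ∈ P.perp x) → x = 0) {X : Submodule F V} (hX : P.TS X) :
    2 * Module.finrank F X ≤ Module.finrank F V := by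
  have h1 := finrank_orth P hnd X
  have h2 := Submodule.finrank_mono hX.2
  omega

theorem Polar.TS.mono {P : Polar F V} {X Y : Submodule F V} (hY : P.TS Y) (h : X ≤ Y) : P.TS X :=
  ⟨fun x hx => hY.1 x (h hx), (h.trans hY.2).trans (orth_anti P h)⟩

theorem Polar.TS.sup {P : Polar F V} {X Y : Submodule F V} (hX : P.TS X) (hY : P.TS Y)
    (h : Y ≤ P.orth X) : P.TS (X ⊔ Y) := by
  constructor
  · intro z hz
    obtain ⟨x, hx, y, hy, rfl⟩ := Submodule.mem_sup.1 hz
    exact P.sing_add (hX.1 x hx) (hY.1 y hy) ((mem_orth P X y).1 (h hy) x hx)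
  · rw [orth_sup]
    apply sup_le
    · exact le_inf hX.2 ((le_orth_comm P).1 h)
    · exact le_inf h hY.2

theorem TS_bot (P : Polar F V) : P.TS ⊥ := by
  constructor
  · intro x hx
    rw [(Submodule.mem_bot F).1 hx]; exact P.sing_zero
  · exact bot_le

theorem TS_span (P : Polar F V) (S : Set V) (h1 : ∀ x ∈ S, P.sing x)
    (h2 : ∀ x ∈ S, ∀ y ∈ S, y ∈ P.perp x) : P.TS (Submodule.span F S) := by
  have horth : Submodule.span F S ≤ P.orth (Submodule.span F S) := by
    rw [Submodule.span_le]
    intro y hy
    exact (orth_span P S y).2 (fun x hx => h2 x hx y hy)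
  refine ⟨?_, horth⟩
  intro x hx
  induction hx using Submodule.span_induction with
  | mem x hx => exact h1 x hx
  | zero => exact P.sing_zero
  | add x y hx hy ihx ihy => exact P.sing_add ihx ihy ((mem_orth P _ y).1 (horth hy) x hx)
  | smul a x hx ih => exact P.sing_smul a ih

theorem IsCh.mono {P : Polar F V} {m : ℕ} {w : ℕ → Submodule F V} (h : IsCh P m w) {j k : ℕ}
    (hjk : j ≤ k) (hk : k ≤ m) : w j ≤ w k := by
  induction k, hjk using Nat.le_induction with
  | base => exact le_rfl
  | succ k hjk ih => exact (ih (by omega)).trans (h.2.1 k (by omega))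

theorem IsCh.ts {P : Polar F V} {m : ℕ} {w : ℕ → Submodule F V} (h : IsCh P m w) {k : ℕ}
    (hk : k ≤ m) : P.TS (w k) := h.2.2.1.mono (h.mono hk le_rfl)

theorem IsCh.finrank {P : Polar F V} {m : ℕ} {w : ℕ → Submodule F V} (h : IsCh P m w) {k : ℕ}
    (hk : k ≤ m) : Module.finrank F (w k) = k := h.1 k hk

theorem IsCh.zero [FiniteDimensional F V] {P : Polar F V} {m : ℕ} {w : ℕ → Submodule F V}
    (h : IsCh P m w) : w 0 = ⊥ :=
  Submodule.finrank_eq_zero.1 (h.1 0 (Nat.zero_le _))

/-- replacing one level of a chamber -/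
theorem IsCh.update {P : Polar F V} {m : ℕ} {w : ℕ → Submodule F V} (h : IsCh P m w) {k : ℕ}
    (hk1 : 1 ≤ k) (hk : k ≤ m) (W : Submodule F V) (hW : Module.finrank F W = k)
    (h1 : w (k - 1) ≤ W) (h2 : k < m → W ≤ w (k + 1)) (h3 : P.TS W) :
    IsCh P m (Function.update w k W) := by
  refine ⟨?_, ?_, ?_, ?_⟩
  · intro j hj
    by_cases hjk : j = k
    · subst hjk; rw [Function.update_self]; exact hW
    · rw [Function.update_of_ne hjk]; exact h.1 j hj
  · intro j hj
    by_cases hjk : j = k
    · subst hjk
      rw [Function.update_self, Function.update_of_ne (by omega)]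
      exact h2 hj
    · rw [Function.update_of_ne hjk]
      by_cases hjk' : j + 1 = k
      · subst hjk'
        rw [Function.update_self]
        simpa using h1
      · rw [Function.update_of_ne hjk']
        exact h.2.1 j hj
  · by_cases hmk : m = k
    · subst hmk; rw [Function.update_self]; exact h3
    · rw [Function.update_of_ne hmk]; exact h.2.2.1
  · intro j hj
    rw [Function.update_of_ne (by omega)]
    exact h.2.2.2 j hj

/-- chambers agreeing up to level `m` are equal -/
theorem IsCh.ext {P : Polar F V} {m : ℕ} {w w' : ℕ → Submodule F V} (h : IsCh P m w)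
    (h' : IsCh P m w') (he : ∀ k, k ≤ m → w k = w' k) : w = w' := by
  funext k
  by_cases hk : k ≤ m
  · exact he k hk
  · rw [h.2.2.2 k (by omega), h'.2.2.2 k (by omega)]

instance finite_ch [Finite F] [FiniteDimensional F V] (P : Polar F V) (m : ℕ) : Finite (Ch P m) := by
  have : Finite V := Module.finite_of_finite F
  have : Finite (Submodule F V) := Finite.of_injective (fun X : Submodule F V => (X : Set V))
    SetLike.coe_injective
  apply Finite.of_injective (fun d : Ch P m => fun k : Fin (m + 1) => d.1 k.val)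
  intro d d' h
  apply Subtype.ext
  apply d.2.ext d'.2
  intro k hk
  exact congrFun h ⟨k, by omega⟩

/-- two distinct hyperplanes of `W` span `W` -/
theorem sup_eq_of_finrank [FiniteDimensional F V] {A B W : Submodule F V} {k : ℕ}
    (hA : Module.finrank F A = k) (hB : Module.finrank F B = k) (hW : Module.finrank F W = k + 1)
    (hAW : A ≤ W) (hBW : B ≤ W) (hne : A ≠ B) : A ⊔ B = W := by
  apply Submodule.eq_of_le_of_finrank_le (sup_le hAW hBW)
  rw [hW]
  by_contra hlt
  have h1 : Module.finrank F (A ⊔ B : Submodule F V) ≤ k := by omega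
  have h2 : A = A ⊔ B := Submodule.eq_of_le_of_finrank_le le_sup_left (by omega)
  have h3 : B = A ⊔ B := Submodule.eq_of_le_of_finrank_le le_sup_right (by omega)
  exact hne (h2.trans h3.symm)

/-- the line `c (j+1) ⊓ orth X` used in DET, LINES and CHAIN -/
theorem finrank_line (P : Polar F V) [FiniteDimensional F V] {m : ℕ} {c : ℕ → Submodule F V}
    (hc : IsCh P m c) {j : ℕ} (hj : j < m) {X : Submodule F V} (hX : Module.finrank F X = j)
    (h : c j ⊓ P.orth X = ⊥) : Module.finrank F (c (j + 1) ⊓ P.orth X : Submodule F V) = 1 := by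
  have h1 := finrank_inf_orth P (c (j + 1)) X
  rw [hc.finrank (by omega), hX] at h1
  have h2 := Submodule.finrank_sup_add_finrank_inf_eq (c j) (c (j + 1) ⊓ P.orth X)
  have h3 : c j ⊓ (c (j + 1) ⊓ P.orth X) = ⊥ := by
    rw [← inf_assoc, inf_eq_left.2 (hc.mono (Nat.le_succ j) (by omega)), h]
  rw [h3, finrank_bot, hc.finrank (by omega)] at h2
  have h4 : Module.finrank F (c j ⊔ (c (j + 1) ⊓ P.orth X) : Submodule F V) ≤ j + 1 := by
    have h5 := Submodule.finrank_mono
      (sup_le (hc.mono (Nat.le_succ j) (by omega)) (inf_le_left (b := P.orth X)) :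
        c j ⊔ (c (j + 1) ⊓ P.orth X) ≤ c (j + 1))
    rwa [hc.finrank (k := j + 1) (by omega)] at h5
  omega

end Cfsg.Agent.Lib.Helper50.STB
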