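import Mathlib
import Cfsg.Prelude.Def_Characters
import Cfsg.Prelude.Def_Classical
import Cfsg.Agent.Lib.Helper50.GUFrames

/-!
# STB ladder: definitions

Steinberg characters of classical groups via the functions on the chambers (maximal flags of totally
singular subspaces) whose sum over every panel vanishes.
-/

set_option autoImplicit false

namespace Cfsg.Agent.Lib.Helper50.STB

/-- an abstract polar geometry on a vector space: `perp x` is the hyperplane (or everything)
perpendicular to `x`, `sing x` says that `x` is singular. -/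
structure Polar (F V : Type*) [Field F] [AddCommGroup V] [Module F V] where
  perp : V → Submodule F V
  sing : V → Prop
  symm : ∀ {x y : V}, y ∈ perp x → x ∈ perp y
  codim : ∀ x : V, Module.finrank F V ≤ Module.finrank F (perp x) + 1
  sing_zero : sing 0
  sing_smul : ∀ (a : F) {x : V}, sing x → sing (a • x)
  sing_add : ∀ {x y : V}, sing x → sing y → y ∈ perp x → sing (x + y)
  sing_self : ∀ {x : V}, sing x → x ∈ perp x

variable {F V : Type*} [Field F] [AddCommGroup V] [Module F V]

/-- the subspace perpendicular to a subspace -/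
def Polar.orth (P : Polar F V) (X : Submodule F V) : Submodule F V := ⨅ x ∈ X, P.perp x

/-- totally singular subspaces -/
def Polar.TS (P : Polar F V) (X : Submodule F V) : Prop := (∀ x ∈ X, P.sing x) ∧ X ≤ P.orth X

/-- chambers of rank `m`: `w k` has dimension `k` for `k ≤ m`, increasing, totally singular
(`w k = ⊤` for `k > m` is a junk value) -/
def IsCh (P : Polar F V) (m : ℕ) (w : ℕ → Submodule F V) : Prop :=
  (∀ k, k ≤ m → Module.finrank F (w k) = k) ∧ (∀ k, k < m → w k ≤ w (k + 1)) ∧ P.TS (w m) ∧
    ∀ k, m < k → w k = ⊤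

/-- the type of chambers -/
abbrev Ch (P : Polar F V) (m : ℕ) : Type _ := {w : ℕ → Submodule F V // IsCh P m w}

/-- opposite chambers -/
def Opp (P : Polar F V) (m : ℕ) (c d : ℕ → Submodule F V) : Prop :=
  ∀ k, k ≤ m → c k ⊓ P.orth (d k) = ⊥

/-- a hyperbolic frame -/
structure Frame (P : Polar F V) (m : ℕ) where
  e : Fin m → V
  f : Fin m → V
  sing_e : ∀ i, P.sing (e i)
  sing_f : ∀ i, P.sing (f i)
  ee : ∀ i j, e j ∈ P.perp (e i)
  ff : ∀ i j, f j ∈ P.perp (f i)
  ef : ∀ i j, i ≠ j → f j ∈ P.perp (e i)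
  ne : ∀ i, f i ∉ P.perp (e i)

/-- the flag spanned by the initial segments of a family of vectors -/
def flagOf (m : ℕ) (b : Fin m → V) : ℕ → Submodule F V :=
  fun k => if k ≤ m then Submodule.span F (b '' {i | i.val < k}) else ⊤

/-- the vectors of the apartment chamber with index `(σ, ε)` -/
def Frame.vec {P : Polar F V} {m : ℕ} (Φ : Frame P m) (a : Equiv.Perm (Fin m) × (Fin m → Bool)) :
    Fin m → V := fun i => if a.2 i then Φ.f (a.1 i) else Φ.e (a.1 i)

/-- the sign of an apartment index -/
def sgnA {m : ℕ} (a : Equiv.Perm (Fin m) × (Fin m → Bool)) : ℤˣ :=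
  Equiv.Perm.sign a.1 * ∏ i, (if a.2 i then -1 else 1)

/-- counting axioms: the form is non-degenerate, and on every line `v + F y` (`y` singular, not
perpendicular to `v`) there are exactly `N₀` singular vectors -/
structure PolarCount (P : Polar F V) (N₀ : ℕ) : Prop where
  nondeg : ∀ x : V, (∀ y, y ∈ P.perp x) → x = 0
  cnt : ∀ y v : V, P.sing y → v ∉ P.perp y → Nat.card {a : F // P.sing (v + a • y)} = N₀

/-- a linear action preserving the polar geometry -/
structure Pres (P : Polar F V) {G : Type*} [Group G] (ρ : G →* (V ≃ₗ[F] V)) : Prop where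
  perp : ∀ (g : G) {x y : V}, y ∈ P.perp x → ρ g y ∈ P.perp (ρ g x)
  sing : ∀ (g : G) {x : V}, P.sing x → P.sing (ρ g x)

/-- frame transitivity -/
def FT (P : Polar F V) {m : ℕ} (Φ : Frame P m) {G : Type*} [Group G] (ρ : G →* (V ≃ₗ[F] V)) : Prop :=
  ∀ Φ' : Frame P m, ∃ g, ∀ i, ρ g (Φ.e i) ∈ Submodule.span F {Φ'.e i} ∧
      ρ g (Φ.f i) ∈ Submodule.span F {Φ'.f i}

/-- polar geometry of a reflexive form which is linear in the second variable -/
def Polar.ofForm (β : V → V → F) (hadd : ∀ x y y', β x (y + y') = β x y + β x y')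
    (hsmul : ∀ x (a : F) y, β x (a • y) = a * β x y) (hsymm : ∀ x y, β x y = 0 → β y x = 0)
    (sing : V → Prop) (h0 : sing 0) (hs : ∀ (a : F) x, sing x → sing (a • x))
    (ha : ∀ x y, sing x → sing y → β x y = 0 → sing (x + y)) (hself : ∀ x, sing x → β x x = 0) :
    Polar F V where
  perp x := LinearMap.ker ({ toFun := β x, map_add' := hadd x, map_smul' := hsmul x } : V →ₗ[F] F)
  sing := sing
  symm := by
    intro x y h
    rw [LinearMap.mem_ker] at h ⊢
    exact hsymm x y h
  codim := by
    intro x
    set L : V →ₗ[F] F := { toFun := β x, map_add' := hadd x, map_smul' := hsmul x }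
    by_cases hV : Module.Finite F V
    · have h1 := L.finrank_range_add_finrank_ker
      have h2 : Module.finrank F (LinearMap.range L) ≤ 1 := by
        have := Submodule.finrank_le (LinearMap.range L)
        simpa using this
      omega
    · rw [Module.finrank_of_not_finite hV]; omega
  sing_zero := h0
  sing_smul := fun a {x} h => hs a x h
  sing_add := by
    intro x y hx hy h
    exact ha x y hx hy h
  sing_self := by
    intro x hx
    exact hself x hx

theorem Polar.mem_perp_ofForm (β : V → V → F) (hadd hsmul hsymm sing h0 hs ha hself) (x y : V) :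
    y ∈ (Polar.ofForm β hadd hsmul hsymm sing h0 hs ha hself).perp x ↔ β x y = 0 := Iff.rfl

/-- a matrix representation as a linear action on column vectors -/
noncomputable def linRep {G ι : Type*} [Group G] [Fintype ι] [DecidableEq ι]
    (μ : G →* Matrix ι ι F) : G →* ((ι → F) ≃ₗ[F] (ι → F)) :=
  (LinearMap.GeneralLinearGroup.generalLinearEquiv F (ι → F)).toMonoidHom.comp
    (Matrix.GeneralLinearGroup.toLin.toMonoidHom.comp μ.toHomUnits)

theorem linRep_apply {G ι : Type*} [Group G] [Fintype ι] [DecidableEq ι]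
    (μ : G →* Matrix ι ι F) (g : G) (v : ι → F) : linRep μ g v = (μ g).mulVec v := by
  simp [linRep, Matrix.GeneralLinearGroup.toLin, Matrix.toLin'_apply]

/-! ### symplectic -/

/-- the standard alternating form -/
def bSp (m : ℕ) (F : Type*) [Field F] (x y : Fin m ⊕ Fin m → F) : F :=
  x ⬝ᵥ (Matrix.J (Fin m) F).mulVec y

theorem bSp_symm (m : ℕ) (x y : Fin m ⊕ Fin m → F) : bSp m F y x = - bSp m F x y := by
  unfold bSp
  rw [Matrix.dotProduct_mulVec, dotProduct_comm, ← Matrix.mulVec_transpose, Matrix.J_transpose,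
    Matrix.neg_mulVec, dotProduct_neg]

theorem bSp_self (m : ℕ) (x : Fin m ⊕ Fin m → F) : bSp m F x x = 0 := by
  unfold bSp
  simp only [Matrix.J, dotProduct, Matrix.mulVec, Fintype.sum_sum_type, Matrix.fromBlocks_apply₁₁,
    Matrix.fromBlocks_apply₁₂, Matrix.fromBlocks_apply₂₁, Matrix.fromBlocks_apply₂₂,
    Matrix.zero_apply, Matrix.neg_apply, Matrix.one_apply, zero_mul, Finset.sum_const_zero,
    zero_add, add_zero, neg_mul, ite_mul, one_mul, Finset.sum_neg_distrib, Finset.sum_ite_eq,
    Finset.mem_univ, if_true, mul_neg]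
  rw [neg_add_eq_zero]
  exact Finset.sum_congr rfl fun i _ => mul_comm _ _

/-- the symplectic polar space -/
def polSp (m : ℕ) (F : Type*) [Field F] : Polar F (Fin m ⊕ Fin m → F) :=
  Polar.ofForm (bSp m F)
    (by intro x y y'; simp [bSp, Matrix.mulVec_add, dotProduct_add])
    (by intro x a y; simp [bSp, Matrix.mulVec_smul, dotProduct_smul])
    (by intro x y h; rw [bSp_symm, h, neg_zero])
    (fun _ => True) trivial (fun _ _ _ => trivial) (fun _ _ _ _ _ => trivial)
    (fun x _ => bSp_self m x)

/-- the natural action of `Sp` -/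
noncomputable def rhoSp (m : ℕ) (F : Type*) [Field F] :
    Matrix.symplecticGroup (Fin m) F →* ((Fin m ⊕ Fin m → F) ≃ₗ[F] (Fin m ⊕ Fin m → F)) :=
  linRep (Matrix.symplecticGroup (Fin m) F).subtype

/-! ### unitary -/

/-- the unitary polar space -/
def polSU (n : ℕ) (F : Type*) [Field F] [Fintype F] (q : ℕ) (hF : Fintype.card F = q ^ 2) :
    Polar F (Fin n → F) :=
  have hh := Herm.isHerm_std hF n
  have hq : q ≠ 0 := by
    rintro rfl
    have := Fintype.card_pos (α := F)
    omega
  Polar.ofForm (fun x y => Cfsg.hermForm n F q y x)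
    (fun x y y' => hh.add_left y y' x) (fun x a y => hh.smul_left a y x)
    (fun x y h => hh.eq_zero_symm hq y x h)
    (fun x => Cfsg.hermForm n F q x x = 0) (hh.zero_left 0)
    (fun a x h => by rw [hh.smul_left, hh.smul_right, h]; ring)
    (fun x y hx hy h => by
      rw [hh.add_left, hh.add_right, hh.add_right, hx, hy, h, hh.eq_zero_symm hq y x h]; ring)
    (fun x h => h)

/-- the natural action of `SU` -/
noncomputable def rhoSU (n : ℕ) (F : Type*) [Field F] (q : ℕ) :
    ↥(Cfsg.SU n F q) →* ((Fin n → F) ≃ₗ[F] (Fin n → F)) :=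
  linRep ((Cfsg.slToMat n F).comp (Cfsg.SU n F q).subtype)

/-! ### orthogonal -/

/-- the polar space of a quadratic form -/
def polQ (Q : QuadraticForm F V) : Polar F V :=
  Polar.ofForm (fun x y => QuadraticMap.polar Q x y)
    (fun x y y' => QuadraticMap.polar_add_right Q x y y')
    (fun x a y => by rw [QuadraticMap.polar_smul_right]; rfl)
    (fun x y h => by rw [QuadraticMap.polar_comm]; exact h)
    (fun x => Q x = 0) (map_zero Q)
    (fun a x h => by rw [QuadraticMap.map_smul, h]; simp)
    (fun x y hx hy h => by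
      have := QuadraticMap.map_add Q x y
      rw [this, hx, hy, h]; simp)
    (fun x h => by rw [QuadraticMap.polar_self, h]; simp)

/-- the natural action of the isometry group -/
noncomputable def rhoO {ι : Type} [Fintype ι] [DecidableEq ι] (F : Type*) [Field F]
    (Q : (ι → F) → F) : ↥(Cfsg.isometryGroup F Q) →* ((ι → F) ≃ₗ[F] (ι → F)) :=
  linRep ((Units.coeHom (Matrix ι ι F)).comp (Cfsg.isometryGroup F Q).subtype)

/-- the natural action of `Ω` -/
noncomputable def rhoOmega {ι : Type} [Fintype ι] [DecidableEq ι] (F : Type*) [Field F]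
    (Q : (ι → F) → F) : ↥(Cfsg.Omega F Q) →* ((ι → F) ≃ₗ[F] (ι → F)) :=
  (rhoO F Q).comp (Cfsg.Omega F Q).subtype

end Cfsg.Agent.Lib.Helper50.STB
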