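import Cfsg.Agent.Lib.Helper50.STBBas

/-!
# STB ladder: the chambers opposite a given chamber generate all chambers under panel closure
-/

set_option autoImplicit false

namespace Cfsg.Agent.Lib.Helper50.STB

variable {F V : Type*} [Field F] [AddCommGroup V] [Module F V]

theorem inj_step (P : Polar F V) [FiniteDimensional F V] (m : ℕ)
    (hb : ∀ X, P.TS X → Module.finrank F X ≤ m)
    (Z : (ℕ → Submodule F V) → Prop)
    (hZ : ∀ d, IsCh P m d → ∀ k, 1 ≤ k → k ≤ m →
      (∀ d', IsCh P m d' → (∀ j, j ≠ k → d' j = d j) → d' ≠ d → Z d') → Z d) :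
    ∀ (t k : ℕ), k + t = m → 0 < t → ∀ (d0 : ℕ → Submodule F V) (Y : Submodule F V),
      IsCh P m d0 → d0 k ≤ Y → Module.finrank F Y = k + 1 → P.TS Y →
      (∀ d, IsCh P m d → (∀ j, j ≤ k → d j = d0 j) → ¬ d (k + 1) ≤ P.orth Y → Z d) →
      ∀ d, IsCh P m d → (∀ j, j ≤ k → d j = d0 j) → Z d := by
  intro t
  induction t with
  | zero => intro k _ h; omega
  | succ t ih =>
    intro k hkt _ d0 Y hd0 hXY hYdim hYTS hyp
    have caseAB : ∀ d, IsCh P m d → (∀ j, j ≤ k → d j = d0 j) → d (k + 1) ≠ Y → Z d := by
      intro d hd hagree hne
      by_cases hA : d (k + 1) ≤ P.orth Y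
      · have hpTS : P.TS (d (k + 1)) := hd.ts (by omega)
        have hpdim : Module.finrank F (d (k + 1)) = k + 1 := hd.finrank (by omega)
        have hsupTS : P.TS (d (k + 1) ⊔ Y) := hpTS.sup hYTS ((le_orth_comm P).1 hA)
        have hsupdim : Module.finrank F (d (k + 1) ⊔ Y : Submodule F V) = k + 1 + 1 := by
          have h1 := Submodule.finrank_sup_add_finrank_inf_eq (d (k + 1)) Y
          have h2 : k ≤ Module.finrank F (d (k + 1) ⊓ Y : Submodule F V) := by
            have h3 : d k ≤ d (k + 1) ⊓ Y :=
              le_inf (hd.mono (Nat.le_succ k) (by omega)) (by rw [hagree k le_rfl]; exact hXY)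
            have h4 := Submodule.finrank_mono h3
            rwa [hd.finrank (by omega)] at h4
          have h5 : Module.finrank F (d (k + 1) ⊓ Y : Submodule F V) < k + 1 := by
            by_contra hge
            have h6 : d (k + 1) ⊓ Y = d (k + 1) :=
              Submodule.eq_of_le_of_finrank_le inf_le_left (by omega)
            have h7 : d (k + 1) ⊓ Y = Y :=
              Submodule.eq_of_le_of_finrank_le inf_le_right (by omega)
            exact hne (h6.symm.trans h7)
          omega
        have hk2 : k + 1 + 1 ≤ m := hsupdim ▸ hb _ hsupTS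
        apply ih (k + 1) (by omega) (by omega) d (d (k + 1) ⊔ Y) hd le_sup_left hsupdim hsupTS ?_ d hd
          (fun _ _ => rfl)
        intro d' hd' hagree' hnot
        apply hZ d' hd' (k + 1) (by omega) (by omega)
        intro d'' hd'' hadj hne''
        apply hyp d'' hd''
        · intro j hj
          rw [hadj j (by omega), hagree' j (by omega), hagree j hj]
        · intro hW
          apply hnot
          have hp' : d' (k + 1) = d (k + 1) := hagree' (k + 1) le_rfl
          have hWne : d'' (k + 1) ≠ d (k + 1) := by
            intro h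
            apply hne''
            funext j
            by_cases hj : j = k + 1
            · rw [hj, h, hp']
            · exact hadj j hj
          have hsup : d'' (k + 1) ⊔ d (k + 1) = d' (k + 1 + 1) := by
            apply sup_eq_of_finrank (k := k + 1) (hd''.finrank (by omega)) hpdim
              (hd'.finrank (by omega)) _ _ hWne
            · rw [← hadj (k + 1 + 1) (by omega)]
              exact hd''.mono (Nat.le_succ _) (by omega)
            · rw [← hp']
              exact hd'.mono (Nat.le_succ _) (by omega)
          rw [orth_sup]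
          apply le_inf
          · have h1 : P.TS (d' (k + 1 + 1)) := hd'.ts (by omega)
            refine h1.2.trans (orth_anti P ?_)
            rw [← hp']
            exact hd'.mono (Nat.le_succ _) (by omega)
          · rw [← hsup]
            exact sup_le hW hA
      · exact hyp d hd hagree hA
    intro d hd hagree
    by_cases hY : d (k + 1) = Y
    · apply hZ d hd (k + 1) (by omega) (by omega)
      intro d'' hd'' hadj hne''
      apply caseAB d'' hd''
      · intro j hj
        rw [hadj j (by omega), hagree j hj]
      · intro h
        apply hne''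
        funext j
        by_cases hj : j = k + 1
        · rw [hj, h, hY]
        · exact hadj j hj
    · exact caseAB d hd hagree hY

theorem det (P : Polar F V) [FiniteDimensional F V] (m : ℕ)
    (hb : ∀ X, P.TS X → Module.finrank F X ≤ m) (c : ℕ → Submodule F V) (hc : IsCh P m c)
    (Z : (ℕ → Submodule F V) → Prop)
    (hZ : ∀ d, IsCh P m d → ∀ k, 1 ≤ k → k ≤ m →
      (∀ d', IsCh P m d' → (∀ j, j ≠ k → d' j = d j) → d' ≠ d → Z d') → Z d)
    (h0 : ∀ d, IsCh P m d → Opp P m c d → Z d) : ∀ d, IsCh P m d → Z d := by
  have key : ∀ (t j : ℕ), j + t = m → ∀ d, IsCh P m d →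
      (∀ i, i ≤ j → c i ⊓ P.orth (d i) = ⊥) → Z d := by
    intro t
    induction t with
    | zero =>
      intro j hj d hd h
      have : j = m := by omega
      subst this
      exact h0 d hd h
    | succ t ih =>
      intro j hjt d0 hd0 hopp
      have hj : j < m := by omega
      have hL1 : Module.finrank F (c (j + 1) ⊓ P.orth (d0 j) : Submodule F V) = 1 :=
        finrank_line P hc hj (hd0.finrank (by omega)) (hopp j le_rfl)
      have hLTS : P.TS (c (j + 1) ⊓ P.orth (d0 j)) := (hc.ts (by omega)).mono inf_le_left
      have hYTS : P.TS (d0 j ⊔ (c (j + 1) ⊓ P.orth (d0 j))) :=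
        (hd0.ts (by omega)).sup hLTS inf_le_right
      have hXL : d0 j ⊓ (c (j + 1) ⊓ P.orth (d0 j)) = ⊥ := by
        have h1 : d0 j ⊓ P.orth (c j) = ⊥ :=
          inf_orth_comm P (by rw [hc.finrank (by omega), hd0.finrank (by omega)]) (hopp j le_rfl)
        rw [eq_bot_iff, ← h1]
        apply inf_le_inf_left
        refine inf_le_left.trans ((hc.ts (by omega)).2.trans (orth_anti P ?_))
        exact hc.mono (Nat.le_succ j) (by omega)
      have hYdim : Module.finrank F (d0 j ⊔ (c (j + 1) ⊓ P.orth (d0 j)) : Submodule F V) = j + 1 := by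
        have h1 := Submodule.finrank_sup_add_finrank_inf_eq (d0 j) (c (j + 1) ⊓ P.orth (d0 j))
        rw [hXL, finrank_bot, hL1, hd0.finrank (by omega)] at h1
        omega
      apply inj_step P m hb Z hZ (t + 1) j hjt (by omega) d0 _ hd0 le_sup_left hYdim hYTS ?_ d0 hd0
        (fun _ _ => rfl)
      intro d hd hagree hnot
      apply ih (j + 1) (by omega) d hd
      intro i hi
      rcases Nat.lt_or_ge i (j + 1) with hi' | hi'
      · rw [hagree i (by omega)]
        exact hopp i (by omega)
      · have : i = j + 1 := by omega
        subst this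
        by_contra hne
        obtain ⟨v, hv, hv0⟩ := Submodule.exists_mem_ne_zero_of_ne_bot hne
        have hdj : d j = d0 j := hagree j le_rfl
        have hvL : v ∈ c (j + 1) ⊓ P.orth (d0 j) := by
          refine ⟨hv.1, ?_⟩
          rw [← hdj]
          exact orth_anti P (hd.mono (Nat.le_succ j) (by omega)) hv.2
        have hspan : Submodule.span F {v} = c (j + 1) ⊓ P.orth (d0 j) := by
          apply Submodule.eq_of_le_of_finrank_le
          · rw [Submodule.span_singleton_le_iff_mem]; exact hvL
          · rw [hL1, finrank_span_singleton hv0]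
        apply hnot
        rw [orth_sup]
        apply le_inf
        · rw [← hdj]
          exact (hd.ts (by omega)).2.trans (orth_anti P (hd.mono (Nat.le_succ j) (by omega)))
        · rw [le_orth_comm, ← hspan, Submodule.span_singleton_le_iff_mem]
          exact hv.2
  intro d hd
  apply key m 0 (by omega) d hd
  intro i hi
  have : i = 0 := by omega
  subst this
  rw [hc.zero, bot_inf_eq]

end Cfsg.Agent.Lib.Helper50.STB
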