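import Cfsg.Agent.Lib.Helper50.STBLines
import Cfsg.Agent.Lib.Helper50.Count
import Cfsg.Agent.Lib.Helper50.NormFq2

/-!
# STB ladder: counting the totally singular extensions of a totally singular subspace
-/

set_option autoImplicit false

namespace Cfsg.Agent.Lib.Helper50.STB

variable {F V : Type*} [Field F] [AddCommGroup V] [Module F V]

theorem card_sub [Finite F] [FiniteDimensional F V] (A : Submodule F V) :
    Nat.card A = Nat.card F ^ Module.finrank F A := Module.natCard_eq_pow_finrank

theorem card_diff [Finite F] [FiniteDimensional F V] {A B : Submodule F V} (h : A ≤ B) :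
    Nat.card {v : V // v ∈ B ∧ v ∉ A} + Nat.card A = Nat.card B := by
  have : Finite V := Module.finite_of_finite F
  have h1 := card_split (fun v : V => v ∈ B) (fun v => v ∈ A)
  have h2 : Nat.card {v : V // v ∈ B ∧ v ∈ A} = Nat.card A :=
    Nat.card_congr (Equiv.subtypeEquivRight fun v => ⟨fun hv => hv.2, fun hv => ⟨h hv, hv⟩⟩)
  have h3 : Nat.card {v : V // v ∈ B} = Nat.card B := rfl
  omega

theorem card_fib (P : Polar F V) [Finite F] [FiniteDimensional F V] (N₀ : ℕ) (hP : PolarCount P N₀)
    (X : Submodule F V) (k : ℕ) (hX : P.TS X) (hk : Module.finrank F X = k) (y : V) (hy : P.sing y)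
    (hyX : y ∈ P.orth X) (hy' : y ∉ X) :
    Nat.card {W : Submodule F V // X ≤ W ∧ Module.finrank F W = k + 1 ∧ P.TS W ∧ ¬ W ≤ P.perp y}
      * Nat.card F ^ (2 * k + 2) = Nat.card F ^ Module.finrank F V * N₀ := by
  classical
  have hfinV : Finite V := Module.finite_of_finite F
  have hfinS : Finite (Submodule F V) := Finite.of_injective (fun X : Submodule F V => (X : Set V))
    SetLike.coe_injective
  have hy0 : y ≠ 0 := fun h => hy' (h ▸ Submodule.zero_mem _)
  have hXy : X ≤ P.perp y := fun x hx => P.symm ((mem_orth P X y).1 hyX x hx)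
  have hyy : y ∈ P.perp y := P.sing_self hy
  set q := Nat.card F with hq
  -- dimensions
  have hXy_dim : Module.finrank F (X ⊔ Submodule.span F {y} : Submodule F V) = k + 1 := by
    have h1 := Submodule.finrank_sup_add_finrank_inf_eq X (Submodule.span F {y})
    have h2 : X ⊓ Submodule.span F {y} = ⊥ := by
      rw [eq_bot_iff]
      rintro x ⟨hx1, hx2⟩
      obtain ⟨a, rfl⟩ := Submodule.mem_span_singleton.1 hx2
      by_cases ha : a = 0
      · simp [ha]
      · exfalso
        apply hy'
        have := Submodule.smul_mem _ a⁻¹ hx1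
        rwa [smul_smul, inv_mul_cancel₀ ha, one_smul] at this
    rw [h2, finrank_bot, finrank_span_singleton hy0, hk] at h1
    omega
  have ha := finrank_orth P hP.nondeg X
  have hb := finrank_orth P hP.nondeg (X ⊔ Submodule.span F {y})
  rw [orth_sup, orth_span_singleton] at hb
  set b := Module.finrank F (P.orth X ⊓ P.perp y : Submodule F V) with hbdef
  have ha' : Module.finrank F (P.orth X) = b + 1 := by omega
  -- D
  have hD : Nat.card {v : V // v ∈ P.orth X ∧ v ∉ P.perp y} + q ^ b = q ^ (b + 1) := by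
    have h1 := card_diff (inf_le_left : P.orth X ⊓ P.perp y ≤ P.orth X)
    rw [card_sub, card_sub, ha', ← hbdef] at h1
    rw [← h1]
    congr 1
    apply Nat.card_congr
    apply Equiv.subtypeEquivRight
    intro v
    constructor
    · rintro ⟨h1, h2⟩; exact ⟨h1, fun h => h2 h.2⟩
    · rintro ⟨h1, h2⟩; exact ⟨h1, fun h => h2 ⟨h1, h⟩⟩
  -- S
  have hS : q * Nat.card {v : V // (v ∈ P.orth X ∧ v ∉ P.perp y) ∧ P.sing v}
      = Nat.card {v : V // v ∈ P.orth X ∧ v ∉ P.perp y} * N₀ := by
    rw [← card_pairs (fun v : V => v ∈ P.orth X ∧ v ∉ P.perp y) (fun v (a : F) => P.sing (v + a • y)) N₀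
      (fun v hv => hP.cnt y v hy hv.2), hq, ← Nat.card_prod]
    apply Nat.card_congr
    refine
      { toFun := fun x => ⟨(x.2.1 - x.1 • y, x.1), ⟨?_, ?_⟩, ?_⟩
        invFun := fun x => (x.1.2, ⟨x.1.1 + x.1.2 • y, ⟨?_, ?_⟩, x.2.2⟩)
        left_inv := ?_
        right_inv := ?_ }
    · exact Submodule.sub_mem _ x.2.2.1.1 (Submodule.smul_mem _ _ hyX)
    · intro h
      apply x.2.2.1.2
      have := Submodule.add_mem _ h (Submodule.smul_mem _ x.1 hyy)
      simpa using this
    · simpa using x.2.2.2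
    · exact Submodule.add_mem _ x.2.1.1 (Submodule.smul_mem _ _ hyX)
    · intro h
      apply x.2.1.2
      have := Submodule.sub_mem _ h (Submodule.smul_mem _ x.1.2 hyy)
      simpa using this
    · rintro ⟨a, ⟨v, hv⟩⟩
      simp
    · rintro ⟨⟨v, a⟩, hv⟩
      simp
  -- the fibres of v ↦ X ⊔ <v>
  obtain ⟨r, hr⟩ : ∃ r, r + q ^ k = q ^ (k + 1) :=
    ⟨q ^ (k + 1) - q ^ k, Nat.sub_add_cancel (Nat.pow_le_pow_right Nat.card_pos (Nat.le_succ k))⟩
  have hW : Nat.card {v : V // (v ∈ P.orth X ∧ v ∉ P.perp y) ∧ P.sing v}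
      = Nat.card {W : Submodule F V // X ≤ W ∧ Module.finrank F W = k + 1 ∧ P.TS W ∧ ¬ W ≤ P.perp y}
        * r := by
    rw [← card_pairs (fun W : Submodule F V => X ≤ W ∧ Module.finrank F W = k + 1 ∧ P.TS W ∧
      ¬ W ≤ P.perp y) (fun W (v : V) => v ∈ W ∧ v ∉ X) r (by
        intro W hW
        have h1 := card_diff hW.1
        rw [card_sub, card_sub, hk, hW.2.1, ← hq] at h1
        omega)]
    apply Nat.card_congr
    have hsup : ∀ (W : Submodule F V) (v : V), X ≤ W → Module.finrank F W = k + 1 → v ∈ W → v ∉ X →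
        X ⊔ Submodule.span F {v} = W := by
      intro W v h1 h2 h3 h4
      apply Submodule.eq_of_le_of_finrank_le
      · apply sup_le h1
        rw [Submodule.span_singleton_le_iff_mem]; exact h3
      · by_contra hlt
        have h5 : X = X ⊔ Submodule.span F {v} :=
          Submodule.eq_of_le_of_finrank_le le_sup_left (by omega)
        apply h4
        rw [h5]
        exact le_sup_right (a := X) (Submodule.mem_span_singleton_self v)
    refine
      { toFun := fun v => ⟨(X ⊔ Submodule.span F {v.1}, v.1), ⟨le_sup_left, ?_, ?_, ?_⟩, ?_, ?_⟩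
        invFun := fun x => ⟨x.1.2, ⟨?_, ?_⟩, x.2.1.2.2.1.1 _ x.2.2.1⟩
        left_inv := ?_
        right_inv := ?_ }
    · -- finrank
      have hvX : v.1 ∉ X := fun h => v.2.1.2 (hXy h)
      have hv0 : v.1 ≠ 0 := fun h => hvX (h ▸ Submodule.zero_mem _)
      have h1 := Submodule.finrank_sup_add_finrank_inf_eq X (Submodule.span F {v.1})
      have h2 : X ⊓ Submodule.span F {v.1} = ⊥ := by
        rw [eq_bot_iff]
        rintro x ⟨hx1, hx2⟩
        obtain ⟨a, rfl⟩ := Submodule.mem_span_singleton.1 hx2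
        by_cases ha : a = 0
        · simp [ha]
        · exfalso
          apply hvX
          have := Submodule.smul_mem _ a⁻¹ hx1
          rwa [smul_smul, inv_mul_cancel₀ ha, one_smul] at this
      rw [h2, finrank_bot, finrank_span_singleton hv0, hk] at h1
      omega
    · -- TS
      apply hX.sup
      · apply TS_span
        · rintro _ rfl; exact v.2.2
        · rintro _ rfl _ rfl; exact P.sing_self v.2.2
      · rw [Submodule.span_singleton_le_iff_mem]; exact v.2.1.1
    · intro h
      exact v.2.1.2 (h (le_sup_right (a := X) (Submodule.mem_span_singleton_self v.1)))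
    · exact le_sup_right (a := X) (Submodule.mem_span_singleton_self v.1)
    · exact fun h => v.2.1.2 (hXy h)
    · exact orth_anti P x.2.1.1 (x.2.1.2.2.1.2 x.2.2.1)
    · intro h
      apply x.2.1.2.2.2
      rw [← hsup x.1.1 x.1.2 x.2.1.1 x.2.1.2.1 x.2.2.1 x.2.2.2]
      apply sup_le hXy
      rw [Submodule.span_singleton_le_iff_mem]; exact h
    · rintro ⟨v, hv⟩
      rfl
    · rintro ⟨⟨W, v⟩, hWv⟩
      apply Subtype.ext
      apply Prod.ext
      · exact hsup W v hWv.1.1 hWv.1.2.1 hWv.2.1 hWv.2.2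
      · rfl
  -- arithmetic
  set A := Nat.card {W : Submodule F V // X ≤ W ∧ Module.finrank F W = k + 1 ∧ P.TS W ∧
    ¬ W ≤ P.perp y}
  set S := Nat.card {v : V // (v ∈ P.orth X ∧ v ∉ P.perp y) ∧ P.sing v}
  set D := Nat.card {v : V // v ∈ P.orth X ∧ v ∉ P.perp y}
  have hq2 : 2 ≤ q := by
    have : Nontrivial F := inferInstance
    exact Finite.one_lt_card
  obtain ⟨t, ht⟩ : ∃ t, q = t + 1 := ⟨q - 1, by omega⟩
  have ht0 : 0 < t := by omega
  have hr' : r = q ^ k * t := by
    have : r + q ^ k = q ^ k * t + q ^ k := by rw [hr, pow_succ]; nth_rewrite 2 [ht]; ring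
    omega
  have hD' : D = q ^ b * t := by
    have : D + q ^ b = q ^ b * t + q ^ b := by rw [hD, pow_succ]; nth_rewrite 2 [ht]; ring
    omega
  have hn : Module.finrank F V = b + (k + 1) := by omega
  have h1 : (A * q ^ (k + 1)) * t = (q ^ b * N₀) * t := by
    calc (A * q ^ (k + 1)) * t = q * (A * (q ^ k * t)) := by ring
      _ = q * S := by rw [hW, hr']
      _ = D * N₀ := hS
      _ = (q ^ b * N₀) * t := by rw [hD']; ring
  have h2 := Nat.eq_of_mul_eq_mul_right ht0 h1
  calc A * q ^ (2 * k + 2) = (A * q ^ (k + 1)) * q ^ (k + 1) := by ring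
    _ = (q ^ b * N₀) * q ^ (k + 1) := by rw [h2]
    _ = q ^ Module.finrank F V * N₀ := by rw [hn]; ring

end Cfsg.Agent.Lib.Helper50.STB
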