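import Cfsg.Agent.Lib.Helper50.STBBas

/-!
# STB ladder: frames and opposite chambers
-/

set_option autoImplicit false

namespace Cfsg.Agent.Lib.Helper50.STB

variable {F V : Type*} [Field F] [AddCommGroup V] [Module F V]

theorem linInd_of_partner (P : Polar F V) {ι : Type*} [Finite ι] (v u : ι → V)
    (h1 : ∀ i j, i ≠ j → v i ∈ P.perp (u j)) (h2 : ∀ j, v j ∉ P.perp (u j)) :
    LinearIndependent F v := by
  classical
  have : Fintype ι := Fintype.ofFinite ι
  rw [Fintype.linearIndependent_iff]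
  intro g hg j
  by_contra hgj
  have h3 : g j • v j = - ∑ i ∈ Finset.univ.erase j, g i • v i := by
    rw [eq_neg_iff_add_eq_zero, Finset.add_sum_erase _ (fun i => g i • v i) (Finset.mem_univ j)]
    exact hg
  have h4 : g j • v j ∈ P.perp (u j) := by
    rw [h3]
    apply Submodule.neg_mem
    apply Submodule.sum_mem
    intro i hi
    exact Submodule.smul_mem _ _ (h1 i j (Finset.ne_of_mem_erase hi))
  apply h2 j
  have := Submodule.smul_mem _ (g j)⁻¹ h4
  rwa [smul_smul, inv_mul_cancel₀ hgj, one_smul] at this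

theorem Frame.linearIndependent {P : Polar F V} {m : ℕ} (Φ : Frame P m) :
    LinearIndependent F (Sum.elim Φ.e Φ.f) := by
  apply linInd_of_partner P (Sum.elim Φ.e Φ.f) (Sum.elim Φ.f Φ.e)
  · rintro (i | i) (j | j) hij
    · exact P.symm (Φ.ef i j (fun h => hij (by rw [h])))
    · exact Φ.ee j i
    · exact Φ.ff j i
    · exact Φ.ef j i (fun h => hij (by rw [h]))
  · rintro (j | j)
    · exact fun h => Φ.ne j (P.symm h)
    · exact Φ.ne j

theorem IsCh.sup_span [FiniteDimensional F V] {P : Polar F V} {m : ℕ} {w : ℕ → Submodule F V}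
    (h : IsCh P m w) {k : ℕ} (hk : k < m) {v : V} (hv : v ∈ w (k + 1)) (hv' : v ∉ w k) :
    w k ⊔ Submodule.span F {v} = w (k + 1) := by
  have hv0 : v ≠ 0 := fun h0 => hv' (h0 ▸ Submodule.zero_mem _)
  apply Submodule.eq_of_le_of_finrank_le
  · apply sup_le (h.mono (Nat.le_succ k) (by omega))
    rw [Submodule.span_singleton_le_iff_mem]; exact hv
  · have h1 := Submodule.finrank_sup_add_finrank_inf_eq (w k) (Submodule.span F {v})
    have h2 : w k ⊓ Submodule.span F {v} = ⊥ := by
      rw [eq_bot_iff]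
      rintro x ⟨hx1, hx2⟩
      obtain ⟨a, rfl⟩ := Submodule.mem_span_singleton.1 hx2
      by_cases ha : a = 0
      · simp [ha]
      · exfalso
        apply hv'
        have := Submodule.smul_mem _ a⁻¹ hx1
        rwa [smul_smul, inv_mul_cancel₀ ha, one_smul] at this
    rw [h2, finrank_bot, finrank_span_singleton hv0, h.finrank (by omega)] at h1
    rw [h.finrank (by omega)]
    omega

theorem flagOf_eq [FiniteDimensional F V] {P : Polar F V} {m : ℕ} {w : ℕ → Submodule F V}
    (h : IsCh P m w) (b : Fin m → V) (hb : ∀ i : Fin m, b i ∈ w (i.val + 1) ∧ b i ∉ w i.val) :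
    flagOf m b = w := by
  funext k
  unfold flagOf
  by_cases hk : k ≤ m
  · rw [if_pos hk]
    induction k with
    | zero =>
      rw [h.zero]
      simp
    | succ k ih =>
      have e : {i : Fin m | i.val < k + 1} = {i : Fin m | i.val < k} ∪ {⟨k, by omega⟩} := by
        ext i
        simp only [Set.mem_ofPred_eq, Set.mem_union, Set.mem_singleton_iff, Fin.ext_iff]
        omega
      rw [e, Set.image_union, Submodule.span_union, ih (by omega), Set.image_singleton]
      exact h.sup_span (by omega) (hb ⟨k, by omega⟩).1 (hb ⟨k, by omega⟩).2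
  · rw [if_neg hk, h.2.2.2 k (by omega)]

theorem exists_frame_of_opp (P : Polar F V) [FiniteDimensional F V] (m : ℕ)
    {c d : ℕ → Submodule F V} (hc : IsCh P m c) (hd : IsCh P m d) (h : Opp P m c d) :
    ∃ Φ : Frame P m, flagOf m Φ.e = c ∧ flagOf m Φ.f = d := by
  have h' : ∀ k, k ≤ m → d k ⊓ P.orth (c k) = ⊥ := fun k hk =>
    inf_orth_comm P (by rw [hc.finrank hk, hd.finrank hk]) (h k hk)
  have hE : ∀ i : Fin m, ∃ v, v ∈ c (i.val + 1) ⊓ P.orth (d i.val) ∧ v ≠ 0 := by
    intro i
    apply Submodule.exists_mem_ne_zero_of_ne_bot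
    intro h0
    have := finrank_line P hc i.2 (hd.finrank (by omega)) (h i.val (by omega))
    rw [h0, finrank_bot] at this
    omega
  have hF : ∀ i : Fin m, ∃ v, v ∈ d (i.val + 1) ⊓ P.orth (c i.val) ∧ v ≠ 0 := by
    intro i
    apply Submodule.exists_mem_ne_zero_of_ne_bot
    intro h0
    have := finrank_line P hd i.2 (hc.finrank (by omega)) (h' i.val (by omega))
    rw [h0, finrank_bot] at this
    omega
  choose e he he0 using hE
  choose f hf hf0 using hF
  have hec : ∀ i : Fin m, e i ∉ c i.val := by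
    intro i hi
    have : e i ∈ c i.val ⊓ P.orth (d i.val) := ⟨hi, (he i).2⟩
    rw [h i.val (by omega)] at this
    exact he0 i ((Submodule.mem_bot F).1 this)
  have hfd : ∀ i : Fin m, f i ∉ d i.val := by
    intro i hi
    have : f i ∈ d i.val ⊓ P.orth (c i.val) := ⟨hi, (hf i).2⟩
    rw [h' i.val (by omega)] at this
    exact hf0 i ((Submodule.mem_bot F).1 this)
  have hem : ∀ i : Fin m, e i ∈ c m := fun i => hc.mono (by omega) le_rfl (he i).1
  have hfm : ∀ i : Fin m, f i ∈ d m := fun i => hd.mono (by omega) le_rfl (hf i).1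
  refine ⟨⟨e, f, fun i => hc.2.2.1.1 _ (hem i), fun i => hd.2.2.1.1 _ (hfm i), ?_, ?_, ?_, ?_⟩,
    flagOf_eq hc e (fun i => ⟨(he i).1, hec i⟩), flagOf_eq hd f (fun i => ⟨(hf i).1, hfd i⟩)⟩
  · intro i j
    exact (mem_orth P _ _).1 (hc.2.2.1.2 (hem j)) _ (hem i)
  · intro i j
    exact (mem_orth P _ _).1 (hd.2.2.1.2 (hfm j)) _ (hfm i)
  · intro i j hij
    rcases lt_or_gt_of_ne hij with hlt | hlt
    · exact (mem_orth P _ _).1 (hf j).2 _ (hc.mono (by exact hlt) (by omega) (he i).1)
    · exact P.symm ((mem_orth P _ _).1 (he i).2 _ (hd.mono (by exact hlt) (by omega) (hf j).1))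
  · intro i hi
    have h1 : e i ∈ c (i.val + 1) ⊓ P.orth (d (i.val + 1)) := by
      refine ⟨(he i).1, ?_⟩
      rw [← hd.sup_span i.2 (hf i).1 (hfd i), orth_sup, orth_span_singleton]
      exact ⟨(he i).2, P.symm hi⟩
    rw [h (i.val + 1) (by omega)] at h1
    exact he0 i ((Submodule.mem_bot F).1 h1)

end Cfsg.Agent.Lib.Helper50.STB
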